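import Mathlib

set_option autoImplicit false

namespace Cfsg.Agent.Lib.Helper36

open Module

universe u v

/-- An alternating bilinear form on a finite-dimensional space has even rank:
the dimension of the space is the dimension of the radical plus an even number. -/
theorem alt_finrank_aux (K : Type u) [Field K] :
    ∀ (d : ℕ) (V : Type v) [AddCommGroup V] [Module K V] [FiniteDimensional K V]
      (B : LinearMap.BilinForm K V), B.IsAlt → finrank K V = d →
      ∃ k, d = finrank K (LinearMap.ker B) + 2 * k := by
  intro d
  induction d using Nat.strong_induction_on with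
  | _ d ih =>
    intro V _ _ _ B hB hd
    by_cases h0 : B = 0
    · refine ⟨0, ?_⟩
      subst h0
      rw [LinearMap.ker_zero, finrank_top, hd]
      omega
    · obtain ⟨u, v, huv⟩ : ∃ u v, B u v ≠ 0 := by
        by_contra hcon
        apply h0
        ext x y
        by_contra hxy
        exact hcon ⟨x, y, hxy⟩
      have hvu : B v u ≠ 0 := by
        rw [← hB.neg_eq u v]
        exact neg_ne_zero.mpr huv
      have huu : B u u = 0 := hB.self_eq_zero u
      have hvv : B v v = 0 := hB.self_eq_zero v
      let φ : V →ₗ[K] K × K := (B u).prod (B v)
      have hφ : ∀ x, φ x = (B u x, B v x) := fun x => rfl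
      let W : Submodule K V := LinearMap.ker φ
      have hWmem : ∀ x, x ∈ W ↔ (B u x = 0 ∧ B v x = 0) := by
        intro x
        show φ x = 0 ↔ _
        rw [hφ, Prod.mk_eq_zero]
      have hsurj : Function.Surjective φ := by
        rintro ⟨a, b⟩
        refine ⟨(a / B u v) • v + (b / B v u) • u, ?_⟩
        rw [hφ, map_add, map_add, map_smul, map_smul, map_smul, map_smul, huu, hvv,
          smul_eq_mul, smul_eq_mul, smul_eq_mul, smul_eq_mul, mul_zero, mul_zero, add_zero,
          zero_add, div_mul_cancel₀ _ huv, div_mul_cancel₀ _ hvu]
      have hW : finrank K W + 2 = d := by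
        have h1 := LinearMap.finrank_range_add_finrank_ker φ
        rw [LinearMap.range_eq_top.mpr hsurj, finrank_top, Module.finrank_prod,
          Module.finrank_self, hd] at h1
        show finrank K (LinearMap.ker φ) + 2 = d
        omega
      let P : Submodule K V := Submodule.span K {u, v}
      have hcod : Codisjoint W P := by
        rw [Submodule.codisjoint_iff_exists_add_eq]
        intro y
        refine ⟨y - ((B v y / B v u) • u + (B u y / B u v) • v),
          (B v y / B v u) • u + (B u y / B u v) • v, ?_, ?_, by abel⟩
        · rw [hWmem]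
          constructor
          · rw [map_sub, map_add, map_smul, map_smul, huu, smul_eq_mul, smul_eq_mul, mul_zero,
              zero_add, div_mul_cancel₀ _ huv, sub_self]
          · rw [map_sub, map_add, map_smul, map_smul, hvv, smul_eq_mul, smul_eq_mul, mul_zero,
              add_zero, div_mul_cancel₀ _ hvu, sub_self]
        · exact Submodule.add_mem _
            (Submodule.smul_mem _ _ (Submodule.subset_span (Set.mem_insert _ _)))
            (Submodule.smul_mem _ _ (Submodule.subset_span (Set.mem_insert_of_mem _ rfl)))
      have horth : ∀ x ∈ W, ∀ y ∈ P, B x y = 0 := by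
        intro x hx y hy
        have hx' := (hWmem x).mp hx
        have hxu : B x u = 0 := by rw [← hB.neg_eq u x, hx'.1, neg_zero]
        have hxv : B x v = 0 := by rw [← hB.neg_eq v x, hx'.2, neg_zero]
        have hP : P ≤ LinearMap.ker (B x) := by
          apply Submodule.span_le.mpr
          intro z hz
          rcases hz with rfl | hz
          · exact hxu
          · rw [Set.mem_singleton_iff] at hz
            subst hz
            exact hxv
        exact hP hy
      have hker : LinearMap.ker (B.restrict W) = (LinearMap.ker B).comap W.subtype :=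
        LinearMap.BilinForm.ker_restrict_eq_of_codisjoint hcod horth
      have hle : LinearMap.ker B ≤ W := by
        intro x hx
        have hx0 : B x = 0 := hx
        rw [hWmem]
        constructor
        · rw [← hB.neg_eq x u, hx0, LinearMap.zero_apply, neg_zero]
        · rw [← hB.neg_eq x v, hx0, LinearMap.zero_apply, neg_zero]
      have hfin : finrank K (LinearMap.ker (B.restrict W)) = finrank K (LinearMap.ker B) := by
        rw [hker]
        exact (Submodule.comapSubtypeEquivOfLe hle).finrank_eq
      have hlt : finrank K W < d := by omega
      obtain ⟨k, hk⟩ := ih (finrank K W) hlt W (B.restrict W) (fun x => hB x) rfl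
      refine ⟨k + 1, ?_⟩
      rw [hfin] at hk
      omega

/-- A square matrix `N` over a field with `v ⬝ᵥ N *ᵥ v = 0` for all `v` has even rank. -/
theorem even_rank_of_alt {K : Type u} [Field K] {ι : Type v} [Fintype ι] [DecidableEq ι]
    (N : Matrix ι ι K) (h : ∀ v : ι → K, v ⬝ᵥ N.mulVec v = 0) : Even N.rank := by
  let B : LinearMap.BilinForm K (ι → K) := Matrix.toBilin' N
  have hB : B.IsAlt := by
    intro x
    show Matrix.toBilin' N x x = 0
    rw [Matrix.toBilin'_apply']
    exact h x
  obtain ⟨k, hk⟩ := alt_finrank_aux K (finrank K (ι → K)) (ι → K) B hB rfl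
  have hkerB : LinearMap.ker B = LinearMap.ker (N.transpose.mulVecLin) := by
    ext x
    rw [LinearMap.mem_ker, LinearMap.mem_ker, Matrix.mulVecLin_apply, Matrix.mulVec_transpose]
    constructor
    · intro hx
      apply dotProduct_eq_zero
      intro w
      have h1 := LinearMap.congr_fun hx w
      rw [LinearMap.zero_apply] at h1
      have h2 : B x w = x ⬝ᵥ N.mulVec w := Matrix.toBilin'_apply' N x w
      rw [← Matrix.dotProduct_mulVec, ← h2]
      exact h1
    · intro hx
      refine LinearMap.ext fun w => ?_
      have h2 : B x w = x ⬝ᵥ N.mulVec w := Matrix.toBilin'_apply' N x w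
      rw [h2, Matrix.dotProduct_mulVec, hx, zero_dotProduct, LinearMap.zero_apply]
  have hrn := LinearMap.finrank_range_add_finrank_ker (N.transpose.mulVecLin)
  have hrank : N.rank = finrank K (LinearMap.range N.transpose.mulVecLin) := by
    rw [← Matrix.rank_transpose N]
    rfl
  rw [hkerB] at hk
  refine ⟨k, ?_⟩
  omega

end Cfsg.Agent.Lib.Helper36
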