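import Cfsg.Agent.Lib.Helper36.ChevBruhat

set_option autoImplicit false

namespace Cfsg.Agent.Lib.Helper36

open Cfsg Cfsg.Lie Cfsg.Agent.Lib.Helper18

variable {F : Type*} [Field F]

/-- `H` is abelian -/
theorem diag_comm (D : ChevalleyDatum)
    (hD : D ∈ [chevG2, chevB2, chevD4, chevF4, chevE6, chevE7, chevE8]) (h h' : GL D.Idx F)
    (hh : h ∈ D.diagonalSubgroup F) (hh' : h' ∈ D.diagonalSubgroup F) : h * h' = h' * h := by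
  obtain ⟨c, -, e⟩ := diagonalSubgroup_eq_dvecL D hD h hh
  obtain ⟨c', -, e'⟩ := diagonalSubgroup_eq_dvecL D hD h' hh'
  apply Units.ext
  rw [Units.val_mul, Units.val_mul, e, e', Matrix.diagonal_mul_diagonal,
    Matrix.diagonal_mul_diagonal]
  congr 1
  funext i
  exact mul_comm _ _

/-- two elements of `H` conjugate in the Chevalley group are conjugate under `N` -/
theorem diag_conj_of_conj (D : ChevalleyDatum)
    (hD : D ∈ [chevG2, chevB2, chevD4, chevF4, chevE6, chevE7, chevE8]) (h₁ h₂ g : GL D.Idx F)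
    (h1 : h₁ ∈ D.diagonalSubgroup F) (h2 : h₂ ∈ D.diagonalSubgroup F) (hg : g ∈ D.group F)
    (hc : g * h₁ * g⁻¹ = h₂) : ∃ n ∈ D.monomialSubgroup F, n * h₁ * n⁻¹ = h₂ := by
  have hS := sgnOK_all D hD
  have hHB : D.diagonalSubgroup F ≤ D.borelSubgroup F := le_sup_right
  obtain ⟨b, hb, n, hn, u, hu, rfl⟩ := canonical_exists D hD g hg
  refine ⟨n, hn, ?_⟩
  have hn_norm := monomialSubgroup_le_normalizer D hD hn
  have hnh : n * h₁ * n⁻¹ ∈ D.diagonalSubgroup F := conj_mem_of_mem_normalizer _ hn_norm h1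
  have hu' : h₁⁻¹ * u * h₁⁻¹⁻¹ ∈ Subgroup.closure {x : GL D.Idx F | ∃ (r : ℕ) (t : F),
      D.IsPosRoot r ∧ (D.rootSubgroup F r).map (MulAut.conj n).toMonoidHom ≤ D.negUnipotent F ∧
      (x : Matrix D.Idx D.Idx F) = D.x F r t} := by
    refine conj_mem_closure _ _ _ ?_ u hu
    rintro x ⟨r, t, hr, hmap, hx⟩
    rw [eq_xU D hD r t x hx]
    obtain ⟨t', e'⟩ := diag_conjU D hD h₁⁻¹ (Subgroup.inv_mem _ h1) r hr.1 t
    have e'' : h₁⁻¹ * xU D hD r t * h₁⁻¹⁻¹ = xU D hD r t' := by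
      rw [e']
      group
    rw [e'']
    exact Subgroup.subset_closure ⟨r, t', hr, hmap, coe_xU D hD _ _⟩
  rw [inv_inv] at hu'
  have e : (b * (n * h₁ * n⁻¹)) * n * (h₁⁻¹ * u * h₁) = (h₂ * b) * n * u := by
    have e1 : (b * (n * h₁ * n⁻¹)) * n * (h₁⁻¹ * u * h₁) = b * n * u * h₁ := by group
    have e2 : b * n * u * h₁ = h₂ * (b * n * u) := by
      rw [← hc]
      group
    rw [e1, e2]
    group
  obtain ⟨-, h3⟩ := canonical_unique D hD _ _ n n _ _ (Subgroup.mul_mem _ hb (hHB hnh))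
    (Subgroup.mul_mem _ (hHB h2) hb) hn hn hu' hu e
  obtain ⟨hbb, -⟩ := h3 rfl
  obtain ⟨u₁, hu₁, h, hh, rfl⟩ := exists_mul_of_mem_sup _ _
    (diagonalSubgroup_le_normalizer_posUnipotent (F := F) D hD) b hb
  have hA : (h₂ * u₁ * h₂⁻¹)⁻¹ * u₁ = h₂ * h * (n * h₁ * n⁻¹)⁻¹ * h⁻¹ := by
    have h4 : u₁ = (h₂ * u₁ * h₂⁻¹) * (h₂ * h * (n * h₁ * n⁻¹)⁻¹ * h⁻¹) := by
      have h5 : (h₂ * u₁ * h₂⁻¹) * (h₂ * h * (n * h₁ * n⁻¹)⁻¹ * h⁻¹) =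
          (h₂ * (u₁ * h)) * (n * h₁ * n⁻¹)⁻¹ * h⁻¹ := by group
      rw [h5, ← hbb]
      group
    have h6 : (h₂ * u₁ * h₂⁻¹)⁻¹ * ((h₂ * u₁ * h₂⁻¹) * (h₂ * h * (n * h₁ * n⁻¹)⁻¹ * h⁻¹)) =
        h₂ * h * (n * h₁ * n⁻¹)⁻¹ * h⁻¹ := by group
    rw [← h4] at h6
    exact h6
  have hA_U : (h₂ * u₁ * h₂⁻¹)⁻¹ * u₁ ∈ D.posUnipotent F :=
    Subgroup.mul_mem _ (Subgroup.inv_mem _ (conj_mem_of_mem_normalizer _
      (diagonalSubgroup_le_normalizer_posUnipotent D hD h2) hu₁)) hu₁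
  have hA_H : (h₂ * u₁ * h₂⁻¹)⁻¹ * u₁ ∈ D.diagonalSubgroup F := by
    rw [hA]
    exact Subgroup.mul_mem _ (Subgroup.mul_mem _ (Subgroup.mul_mem _ h2 hh)
      (Subgroup.inv_mem _ hnh)) (Subgroup.inv_mem _ hh)
  have hA1 : (h₂ * u₁ * h₂⁻¹)⁻¹ * u₁ = 1 := by
    have hmem : (h₂ * u₁ * h₂⁻¹)⁻¹ * u₁ ∈ D.posUnipotent F ⊓ D.monomialSubgroup F :=
      ⟨hA_U, (le_sup_left : D.diagonalSubgroup F ≤ D.monomialSubgroup F) hA_H⟩
    rw [unipotent_inf_monomial D hD hS, Subgroup.mem_bot] at hmem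
    exact hmem
  rw [hA] at hA1
  have hc2 : n * h₁ * n⁻¹ = h⁻¹ * (h₂ * h) := by
    have h7 : h₂ * h = h * (n * h₁ * n⁻¹) := by
      have h8 : h₂ * h = (h₂ * h * (n * h₁ * n⁻¹)⁻¹ * h⁻¹) * (h * (n * h₁ * n⁻¹)) := by group
      rw [h8, hA1, one_mul]
    rw [h7]
    group
  rw [hc2, diag_comm D hD h₂ h h2 hh]
  group

end Cfsg.Agent.Lib.Helper36
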