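import Cfsg.Agent.Lib.Helper36.ChevHighCent2

set_option autoImplicit false
set_option maxRecDepth 1000000

namespace Cfsg.Agent.Lib.Helper36

open Cfsg Cfsg.Lie

theorem highChk_E6 : highChk chevE6 71 1 = true := by decide +kernel

theorem highChk_E7 : highChk chevE7 125 0 = true := by decide +kernel

theorem highChk_E8 : highChk chevE8 239 7 = true := by decide +kernel

theorem highChk_F4 : highChk chevF4 47 3 = true := by decide +kernel

theorem highChk_F4s : highChk chevF4 44 0 = true := by decide +kernel

theorem highChk_G2 : highChk chevG2 11 1 = true := by decide +kernel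

theorem listChk_E6 : listChk chevE6 1 [15, 29, 32, 34, 35] = true := by decide +kernel

theorem listChk_E7 : listChk chevE7 0 [47, 52, 56, 59, 61, 62] = true := by decide +kernel

theorem listChk_E8 : listChk chevE8 7 [77, 98, 104, 109, 113, 116, 118] = true := by
  decide +kernel

theorem listChk_F4 : listChk chevF4 3 [14, 20, 22] = true := by decide +kernel

theorem listChk_F4s : listChk chevF4 0 [20, 22, 23] = true := by decide +kernel

theorem listChk_G2 : listChk chevG2 1 [4] = true := by decide +kernel

end Cfsg.Agent.Lib.Helper36
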