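import Cfsg.Agent.Lib.Helper36.ChevCent
import Cfsg.Agent.Lib.Helper36.ChevConj

set_option autoImplicit false

namespace Cfsg.Agent.Lib.Helper36

open Cfsg Cfsg.Lie Cfsg.Agent.Lib.Helper18

universe u

variable {F : Type u} [Field F]

/-- the subgroup generated by the root elements with parameter fixed by `σ` -/
def fixL (D : ChevalleyDatum) (σ : F →+* F) : Subgroup (GL D.Idx F) :=
  Subgroup.closure {g : GL D.Idx F | ∃ (s : ℕ) (t : F), σ t = t ∧
    (g : Matrix D.Idx D.Idx F) = D.x F s t}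

theorem xU_mem_fixL (D : ChevalleyDatum)
    (hD : D ∈ [chevG2, chevB2, chevD4, chevF4, chevE6, chevE7, chevE8]) (σ : F →+* F) (s : ℕ)
    (t : F) (ht : σ t = t) : xU D hD s t ∈ fixL D σ :=
  Subgroup.subset_closure ⟨s, t, ht, coe_xU D hD s t⟩

/-- the canonical factors of a fixed element are fixed -/
theorem fixed_decomp (D : ChevalleyDatum)
    (hD : D ∈ [chevG2, chevB2, chevD4, chevF4, chevE6, chevE7, chevE8]) (σ : F →+* F)
    (g : GL D.Idx F) (hg : g ∈ D.group F) (hfix : glMap D σ g = g) :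
    ∃ u ∈ D.posUnipotent F, ∃ h ∈ D.diagonalSubgroup F, ∃ l : List (Fin D.rank),
      ∃ v ∈ D.posUnipotent F, glMap D σ u = u ∧ glMap D σ h = h ∧ glMap D σ v = v ∧
        g = u * h * (l.map (nU (F := F) D hD)).prod * v := by
  obtain ⟨b, hb, l, v, hv, rfl⟩ := canonical_word D hD g hg
  have hσb : glMap D σ b ∈ D.borelSubgroup F := glMap_borel D hD σ b hb
  have hσv : glMap D σ v ∈ uMinus D F (wordF D l) := glMap_uMinus D σ _ v hv
  rw [map_mul, map_mul, glMap_word] at hfix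
  obtain ⟨e1, e2⟩ := canonical_word_unique D hD l _ _ _ _ hσb hb hσv hv hfix
  obtain ⟨u, hu, h, hh, rfl⟩ := exists_mul_of_mem_sup _ _
    (diagonalSubgroup_le_normalizer_posUnipotent (F := F) D hD) b hb
  have hσu : glMap D σ u ∈ D.posUnipotent F := glMap_posUnipotent D σ u hu
  have hσh : glMap D σ h ∈ D.diagonalSubgroup F := glMap_diagonal D hD σ h hh
  rw [map_mul] at e1
  have e3 : u⁻¹ * glMap D σ u = h * (glMap D σ h)⁻¹ := by
    calc u⁻¹ * glMap D σ u = u⁻¹ * (glMap D σ u * glMap D σ h) * (glMap D σ h)⁻¹ := by group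
      _ = u⁻¹ * (u * h) * (glMap D σ h)⁻¹ := by rw [e1]
      _ = _ := by group
  have hHN : D.diagonalSubgroup F ≤ D.monomialSubgroup F := by
    unfold ChevalleyDatum.monomialSubgroup
    exact le_sup_left
  have hbot : u⁻¹ * glMap D σ u ∈ D.posUnipotent F ⊓ D.monomialSubgroup F := by
    refine ⟨Subgroup.mul_mem _ (Subgroup.inv_mem _ hu) hσu, ?_⟩
    rw [e3]
    exact hHN (Subgroup.mul_mem _ hh (Subgroup.inv_mem _ hσh))
  rw [unipotent_inf_monomial D hD (sgnOK_all D hD), Subgroup.mem_bot, inv_mul_eq_one] at hbot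
  have e4 : glMap D σ u = u := hbot.symm
  have e5 : glMap D σ h = h := by
    rw [e4] at e1
    exact mul_left_cancel e1
  exact ⟨u, hu, h, hh, l, v, uMinus_le_posUnipotent D _ hv, e4, e5, e2, rfl⟩

/-- a fixed element of `U` is a product of root elements with fixed parameters -/
theorem fixed_U_mem_fixL (D : ChevalleyDatum)
    (hD : D ∈ [chevG2, chevB2, chevD4, chevF4, chevE6, chevE7, chevE8]) (σ : F →+* F)
    (u : GL D.Idx F) (hu : u ∈ D.posUnipotent F) (hfix : glMap D σ u = u) : u ∈ fixL D σ := by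
  obtain ⟨t, ht0, ht⟩ := Cfsg.Agent.Lib.Helper17.uprod_exists D hD u hu
  have h1 : D.wordMat F (D.posRoots.map fun r => (r, σ (t r))) =
      D.wordMat F (D.posRoots.map fun r => (r, t r)) := by
    have h2 := congrArg (fun g : GL D.Idx F => (g : Matrix D.Idx D.Idx F)) hfix
    simp only [coe_glMap] at h2
    rw [ht, wordMat_map_hom, List.map_map] at h2
    exact h2
  have h3 : (fun r => σ (t r)) = t :=
    Cfsg.Agent.Lib.Helper17.uprod_unique D hD _ _ (fun r hr => by rw [ht0 r hr, map_zero]) ht0 h1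
  have h4 : u = wordU D hD (D.posRoots.map fun r => (r, t r)) :=
    Units.ext (by rw [coe_wordU, ht])
  rw [h4]
  unfold wordU
  apply Subgroup.list_prod_mem
  intro x hx
  simp only [List.map_map, List.mem_map, Function.comp] at hx
  obtain ⟨r, -, rfl⟩ := hx
  exact xU_mem_fixL D hD σ r (t r) (congrFun h3 r)

theorem word_mem_fixL (D : ChevalleyDatum)
    (hD : D ∈ [chevG2, chevB2, chevD4, chevF4, chevE6, chevE7, chevE8]) (σ : F →+* F)
    (l : List (Fin D.rank)) : (l.map (nU (F := F) D hD)).prod ∈ fixL D σ := by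
  apply Subgroup.list_prod_mem
  intro x hx
  obtain ⟨i, -, rfl⟩ := List.mem_map.mp hx
  rw [nU_eq_xU]
  exact Subgroup.mul_mem _ (Subgroup.mul_mem _ (xU_mem_fixL D hD σ _ _ (map_one σ))
    (xU_mem_fixL D hD σ _ _ (by rw [map_neg, map_inv₀, map_one])))
    (xU_mem_fixL D hD σ _ _ (map_one σ))

/-- a fixed element of `H` normalises the subgroup of the fixed root elements -/
theorem diag_conj_fixL (D : ChevalleyDatum)
    (hD : D ∈ [chevG2, chevB2, chevD4, chevF4, chevE6, chevE7, chevE8]) (σ : F →+* F)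
    (h : GL D.Idx F) (hh : h ∈ D.diagonalSubgroup F) (hfix : glMap D σ h = h) :
    ∀ x ∈ fixL D σ, h * x * h⁻¹ ∈ fixL D σ := by
  refine conj_mem_closure _ _ _ ?_
  rintro x ⟨s, t, ht, hx⟩
  by_cases hs : s < D.nroots
  · rw [eq_xU D hD s t x hx]
    obtain ⟨c, hc, hd⟩ := diagonalSubgroup_eq_dvecL D hD h hh
    have hl : ∀ i ∈ List.range D.rank, i < D.rank ∧ c i ≠ 0 :=
      fun i hi => ⟨List.mem_range.mp hi, hc i⟩
    have e1 : h * xU D hD s t = xU D hD s (chiL D c (List.range D.rank) s * t) * h := by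
      apply Units.ext
      rw [Units.val_mul, Units.val_mul, coe_xU, coe_xU, hd]
      exact dvecL_mul_x D hD c _ hl s hs t
    have e2 : h * xU D hD s t * h⁻¹ = xU D hD s (chiL D c (List.range D.rank) s * t) := by
      rw [e1]
      group
    rw [e2]
    apply xU_mem_fixL
    have h3 : σ (chiL D c (List.range D.rank) s) = chiL D c (List.range D.rank) s := by
      have h4 := congrArg (fun g : GL D.Idx F =>
        (g : Matrix D.Idx D.Idx F) (Sum.inr ⟨s, hs⟩) (Sum.inr ⟨s, hs⟩)) hfix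
      simp only [coe_glMap, Matrix.map_apply] at h4
      rw [hd, Matrix.diagonal_apply_eq, dvecL_inr] at h4
      exact h4
    rw [map_mul, h3, ht]
  · have h1 : x = 1 := by
      apply Units.ext
      rw [hx, Units.val_one]
      unfold ChevalleyDatum.x
      rw [dif_neg hs]
    rw [h1]
    have e : h * 1 * h⁻¹ = 1 := by group
    rw [e]
    exact Subgroup.one_mem _

/-- a fixed element of the Chevalley group is a fixed root product times a fixed diagonal
element -/
theorem fixed_mem_fixL_mul (D : ChevalleyDatum)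
    (hD : D ∈ [chevG2, chevB2, chevD4, chevF4, chevE6, chevE7, chevE8]) (σ : F →+* F)
    (g : GL D.Idx F) (hg : g ∈ D.group F) (hfix : glMap D σ g = g) :
    ∃ ℓ ∈ fixL D σ, ∃ h ∈ D.diagonalSubgroup F, glMap D σ h = h ∧ g = ℓ * h := by
  obtain ⟨u, hu, h, hh, l, v, hv, eu, eh, ev, rfl⟩ := fixed_decomp D hD σ g hg hfix
  refine ⟨u * (h * ((l.map (nU (F := F) D hD)).prod * v) * h⁻¹), ?_, h, hh, eh, by group⟩
  exact Subgroup.mul_mem _ (fixed_U_mem_fixL D hD σ u hu eu)
    (diag_conj_fixL D hD σ h hh eh _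
      (Subgroup.mul_mem _ (word_mem_fixL D hD σ l) (fixed_U_mem_fixL D hD σ v hv ev)))

/-- fixed elements normalise every group of fixed elements containing the fixed root
elements -/
theorem fixed_conj_mem (D : ChevalleyDatum)
    (hD : D ∈ [chevG2, chevB2, chevD4, chevF4, chevE6, chevE7, chevE8]) (σ : F →+* F)
    (K : Subgroup (GL D.Idx F)) (hKG : K ≤ D.group F) (hLK : fixL D σ ≤ K)
    (hK : ∀ x ∈ K, glMap D σ x = x) (g : GL D.Idx F) (hg : g ∈ D.group F)
    (hfix : glMap D σ g = g) (x : GL D.Idx F) (hx : x ∈ K) : g * x * g⁻¹ ∈ K := by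
  obtain ⟨ℓ, hℓ, h, hh, eh, rfl⟩ := fixed_mem_fixL_mul D hD σ g hg hfix
  obtain ⟨ℓ', hℓ', h', hh', -, ex⟩ := fixed_mem_fixL_mul D hD σ x (hKG hx) (hK x hx)
  have hc := diag_comm D hD h h' hh hh'
  have e1 : ℓ * h * x * (ℓ * h)⁻¹ = ℓ * ((h * ℓ' * h⁻¹) * ℓ'⁻¹ * x) * ℓ⁻¹ := by
    have e2 : h * x * h⁻¹ = (h * ℓ' * h⁻¹) * ℓ'⁻¹ * x := by
      have hc' : h' * h⁻¹ = h⁻¹ * h' := by
        calc h' * h⁻¹ = h⁻¹ * (h * h') * h⁻¹ := by group
          _ = h⁻¹ * (h' * h) * h⁻¹ := by rw [hc]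
          _ = h⁻¹ * h' := by group
      rw [ex]
      calc h * (ℓ' * h') * h⁻¹ = h * ℓ' * (h' * h⁻¹) := by group
        _ = h * ℓ' * (h⁻¹ * h') := by rw [hc']
        _ = _ := by group
    calc ℓ * h * x * (ℓ * h)⁻¹ = ℓ * (h * x * h⁻¹) * ℓ⁻¹ := by group
      _ = _ := by rw [e2]
  rw [e1]
  exact Subgroup.mul_mem _ (Subgroup.mul_mem _ (hLK hℓ) (Subgroup.mul_mem _
    (Subgroup.mul_mem _ (hLK (diag_conj_fixL D hD σ h hh eh ℓ' hℓ'))
      (Subgroup.inv_mem _ (hLK hℓ'))) hx)) (Subgroup.inv_mem _ (hLK hℓ))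

/-- centraliser and normaliser of a group of `σ`-fixed elements containing the fixed root
elements -/
theorem subfield_cent_norm (D : ChevalleyDatum)
    (hD : D ∈ [chevG2, chevB2, chevD4, chevF4, chevE6, chevE7, chevE8]) (σ : F →+* F)
    (K : Subgroup (GL D.Idx F)) (hKG : K ≤ D.group F) (hLK : fixL D σ ≤ K)
    (hK : ∀ x ∈ K, glMap D σ x = x) :
    D.group F ⊓ Subgroup.centralizer (K : Set (GL D.Idx F)) = ⊥ ∧
      ∀ g : GL D.Idx F, g ∈ D.group F →
        (g ∈ Subgroup.normalizer (K : Set (GL D.Idx F)) ↔ glMap D σ g = g) := by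
  have hcent : D.group F ⊓ Subgroup.centralizer (K : Set (GL D.Idx F)) = ⊥ := by
    rw [eq_bot_iff]
    rintro g ⟨hg, hgc⟩
    rw [Subgroup.mem_bot]
    apply eq_one_of_comm_root D hD g hg
    intro s _
    have h1 := Subgroup.mem_centralizer_iff.mp hgc (xU D hD s 1)
      (hLK (xU_mem_fixL D hD σ s 1 (map_one σ)))
    exact h1.symm
  refine ⟨hcent, ?_⟩
  intro g hg
  constructor
  · intro hn
    have hz : g⁻¹ * glMap D σ g ∈ D.group F ⊓ Subgroup.centralizer (K : Set (GL D.Idx F)) := by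
      refine ⟨Subgroup.mul_mem _ (Subgroup.inv_mem _ hg) (glMap_group D σ g hg), ?_⟩
      show g⁻¹ * glMap D σ g ∈ Subgroup.centralizer (K : Set (GL D.Idx F))
      rw [Subgroup.mem_centralizer_iff]
      intro x hx
      have h1 : g * x * g⁻¹ ∈ K := (Subgroup.mem_normalizer_iff.mp hn x).mp hx
      have h2 := hK _ h1
      rw [map_mul, map_mul, map_inv, hK x hx] at h2
      calc x * (g⁻¹ * glMap D σ g) = g⁻¹ * (g * x * g⁻¹) * glMap D σ g := by group
        _ = g⁻¹ * (glMap D σ g * x * (glMap D σ g)⁻¹) * glMap D σ g := by rw [h2]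
        _ = _ := by group
    rw [hcent, Subgroup.mem_bot, inv_mul_eq_one] at hz
    exact hz.symm
  · intro hfix
    rw [Subgroup.mem_normalizer_iff]
    intro x
    constructor
    · intro hx
      exact fixed_conj_mem D hD σ K hKG hLK hK g hg hfix x hx
    · intro hx
      have h1 := fixed_conj_mem D hD σ K hKG hLK hK g⁻¹ (Subgroup.inv_mem _ hg)
        (by rw [map_inv, hfix]) _ hx
      have e : g⁻¹ * (g * x * g⁻¹) * g⁻¹⁻¹ = x := by group
      rw [e] at h1
      exact h1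

end Cfsg.Agent.Lib.Helper36
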