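import Cfsg.Agent.Lib.Helper36.ChevHighCentData
import Cfsg.Agent.Lib.Helper17.ChevUProd
import Cfsg.Agent.S1037

set_option autoImplicit false

/-!
# Products of commuting root elements

For a list `S` of positive roots whose root subgroups commute pairwise, the products
`∏_{r ∈ S} x_r(a_r)` form an abelian group with unique parameters.  If a monomial element
conjugates one such product to another, then it maps the roots with non-zero parameter into `S`.
-/

namespace Cfsg.Agent.Lib.Helper36

open Cfsg Cfsg.Lie Cfsg.Agent.Lib.Helper18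

universe u

variable {F : Type u} [Field F]

/-- the product of the `x_r(a r)` for `r` in a list -/
def yp (D : ChevalleyDatum) (hD : D ∈ [chevG2, chevB2, chevD4, chevF4, chevE6, chevE7, chevE8])
    (S : List ℕ) (a : ℕ → F) : GL D.Idx F :=
  (S.map fun r => xU D hD r (a r)).prod

/-- the root elements of a list commute pairwise -/
def CommS (F : Type u) [Field F] (D : ChevalleyDatum)
    (hD : D ∈ [chevG2, chevB2, chevD4, chevF4, chevE6, chevE7, chevE8]) (S : List ℕ) : Prop :=
  ∀ r ∈ S, ∀ s ∈ S, ∀ t u : F, Commute (xU D hD r t) (xU D hD s u)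

theorem commute_conj {G : Type*} [Group G] (n a b : G) (h : Commute a b) :
    Commute (n * a * n⁻¹) (n * b * n⁻¹) := by
  show n * a * n⁻¹ * (n * b * n⁻¹) = n * b * n⁻¹ * (n * a * n⁻¹)
  calc n * a * n⁻¹ * (n * b * n⁻¹) = n * (a * b) * n⁻¹ := by group
    _ = n * (b * a) * n⁻¹ := by rw [h.eq]
    _ = n * b * n⁻¹ * (n * a * n⁻¹) := by group

/-- a product of pairwise commuting elements indexed by a list, reordered along another list -/
theorem prod_reorder {M : Type*} [Monoid M] (O L : List ℕ) (hO : O.Nodup) (hL : L.Nodup)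
    (e : ℕ → M) (hc : ∀ q ∈ L, ∀ q' ∈ L, Commute (e q) (e q')) (hsub : ∀ q ∈ L, q ∈ O) :
    (L.map e).prod = (O.map fun q => if q ∈ L then e q else 1).prod := by
  have ha : ∀ O' : List ℕ, (O'.map fun q => if q ∈ L then e q else 1).prod =
      ((O'.filter (fun q => decide (q ∈ L))).map e).prod := by
    intro O'
    induction O' with
    | nil => rfl
    | cons q O' ih =>
      rw [List.map_cons, List.prod_cons, ih]
      by_cases h : q ∈ L
      · rw [List.filter_cons_of_pos (by simpa using h), if_pos h, List.map_cons, List.prod_cons]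
      · rw [List.filter_cons_of_neg (by simpa using h), if_neg h, one_mul]
  rw [ha O]
  have hp : L.Perm (O.filter (fun q => decide (q ∈ L))) := by
    rw [List.perm_ext_iff_of_nodup hL (hO.filter _)]
    intro q
    simp only [List.mem_filter, decide_eq_true_eq]
    exact ⟨fun h => ⟨hsub q h, h⟩, fun h => h.2⟩
  apply List.Perm.prod_eq' (hp.map e)
  rw [List.pairwise_map]
  exact List.pairwise_of_forall_mem_list (fun q hq q' hq' => hc q hq q' hq')

section

variable (D : ChevalleyDatum) (hD : D ∈ [chevG2, chevB2, chevD4, chevF4, chevE6, chevE7, chevE8])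

theorem yp_nil (a : ℕ → F) : yp D hD [] a = 1 := rfl

theorem yp_cons (r : ℕ) (S : List ℕ) (a : ℕ → F) :
    yp D hD (r :: S) a = xU D hD r (a r) * yp D hD S a := by
  unfold yp
  rw [List.map_cons, List.prod_cons]

theorem yp_coe (S : List ℕ) (a : ℕ → F) :
    ((yp D hD S a : GL D.Idx F) : Matrix D.Idx D.Idx F) =
      D.wordMat F (S.map fun r => (r, a r)) := by
  rw [← coe_wordU D hD]
  congr 1
  unfold yp wordU
  rw [List.map_map]
  rfl

theorem yp_zero (S : List ℕ) : yp D hD S (fun _ => (0 : F)) = 1 := by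
  unfold yp
  apply List.prod_eq_one
  intro x hx
  obtain ⟨r, -, rfl⟩ := List.mem_map.mp hx
  exact xU_zero D hD r

theorem yp_congr (S : List ℕ) (a b : ℕ → F) (h : ∀ r ∈ S, a r = b r) :
    yp D hD S a = yp D hD S b := by
  unfold yp
  congr 1
  apply List.map_congr_left
  intro r hr
  rw [h r hr]

theorem CommS.tail {r : ℕ} {S : List ℕ} (hC : CommS F D hD (r :: S)) : CommS F D hD S :=
  fun r' hr' s hs t u => hC r' (List.mem_cons_of_mem _ hr') s (List.mem_cons_of_mem _ hs) t u

theorem yp_mul (S : List ℕ) (hC : CommS F D hD S) (a b : ℕ → F) :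
    yp D hD S a * yp D hD S b = yp D hD S (fun r => a r + b r) := by
  induction S with
  | nil => simp [yp]
  | cons r S ih =>
    have hc : Commute (yp D hD S a) (xU D hD r (b r)) := by
      unfold yp
      apply Commute.list_prod_left
      intro x hx
      obtain ⟨s, hs, rfl⟩ := List.mem_map.mp hx
      exact hC s (List.mem_cons_of_mem _ hs) r List.mem_cons_self _ _
    rw [yp_cons, yp_cons, yp_cons, ← ih hC.tail, ← xU_mul]
    calc xU D hD r (a r) * yp D hD S a * (xU D hD r (b r) * yp D hD S b)
        = xU D hD r (a r) * (yp D hD S a * xU D hD r (b r)) * yp D hD S b := by group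
      _ = xU D hD r (a r) * (xU D hD r (b r) * yp D hD S a) * yp D hD S b := by rw [hc.eq]
      _ = xU D hD r (a r) * xU D hD r (b r) * (yp D hD S a * yp D hD S b) := by group

theorem yp_filter (S : List ℕ) (P : ℕ → Prop) [DecidablePred P] (a : ℕ → F) :
    yp D hD S (fun r => if P r then a r else 0) =
      yp D hD (S.filter (fun r => decide (P r))) a := by
  induction S with
  | nil => rfl
  | cons r S ih =>
    rw [yp_cons, ih]
    by_cases h : P r
    · rw [List.filter_cons_of_pos (by simpa using h), yp_cons, if_pos h]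
    · rw [List.filter_cons_of_neg (by simpa using h), if_neg h, xU_zero, one_mul]

/-- conjugating a product of root elements by an element permuting the root subgroups -/
theorem yp_conj_smap {n : GL D.Idx F} {f : ℕ → ℕ} {ε : ℕ → F}
    (h : SMap D (n : Matrix D.Idx D.Idx F) f ε) (S : List ℕ) (hS : ∀ r ∈ S, r < D.nroots)
    (a : ℕ → F) :
    n * yp D hD S a * n⁻¹ = (S.map fun r => xU D hD (f r) (ε r * a r)).prod := by
  induction S with
  | nil => simp [yp]
  | cons r S ih =>
    have e1 := h.conjU hD r (hS r List.mem_cons_self) (a r)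
    have e2 := ih (fun r hr => hS r (List.mem_cons_of_mem _ hr))
    rw [yp_cons, List.map_cons, List.prod_cons, ← e2]
    calc n * (xU D hD r (a r) * yp D hD S a) * n⁻¹
        = (n * xU D hD r (a r)) * yp D hD S a * n⁻¹ := by group
      _ = xU D hD (f r) (ε r * a r) * (n * yp D hD S a * n⁻¹) := by rw [e1]; group

theorem mem_posRoots_iff (q : ℕ) : q ∈ D.posRoots ↔ D.IsPosRoot q := by
  unfold ChevalleyDatum.posRoots
  rw [List.mem_filter, List.mem_range, decide_eq_true_eq]
  exact ⟨fun h => h.2, fun h => ⟨h.1, h⟩⟩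

theorem posRoots_nodup : D.posRoots.Nodup := by
  unfold ChevalleyDatum.posRoots
  exact List.Nodup.filter _ List.nodup_range

/-- a product of commuting positive root elements, in the order of the positive roots -/
theorem yp_eq_posRoots (S : List ℕ) (hS : S.Nodup) (hpos : ∀ r ∈ S, D.IsPosRoot r)
    (hC : CommS F D hD S) (a : ℕ → F) :
    yp D hD S a = yp D hD D.posRoots (fun q => if q ∈ S then a q else 0) := by
  have h1 := prod_reorder D.posRoots S (posRoots_nodup D) hS (fun q => xU D hD q (a q))
    (fun q hq q' hq' => hC q hq q' hq' _ _) (fun q hq => (mem_posRoots_iff D q).mpr (hpos q hq))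
  unfold yp
  rw [h1]
  congr 1
  apply List.map_congr_left
  intro q _
  show (if q ∈ S then xU D hD q (a q) else 1) = xU D hD q (if q ∈ S then a q else 0)
  by_cases h : q ∈ S
  · rw [if_pos h, if_pos h]
  · rw [if_neg h, if_neg h, xU_zero]

/-- the parameters of a product of commuting positive root elements are unique -/
theorem yp_inj (S : List ℕ) (hS : S.Nodup) (hpos : ∀ r ∈ S, D.IsPosRoot r)
    (hC : CommS F D hD S) (a a' : ℕ → F) (h : yp D hD S a = yp D hD S a') :
    ∀ r ∈ S, a r = a' r := by
  rw [yp_eq_posRoots D hD S hS hpos hC a, yp_eq_posRoots D hD S hS hpos hC a'] at h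
  have h2 := congrArg (fun g : GL D.Idx F => (g : Matrix D.Idx D.Idx F)) h
  simp only [yp_coe] at h2
  have h3 := Cfsg.Agent.Lib.Helper17.uprod_unique D hD _ _
    (fun r hr => if_neg (fun hrS => hr (hpos r hrS)))
    (fun r hr => if_neg (fun hrS => hr (hpos r hrS))) h2
  intro r hr
  have h4 := congrFun h3 r
  simp only [if_pos hr] at h4
  exact h4

include hD in
theorem borel_inf_negU (g : GL D.Idx F) (hB : g ∈ D.borelSubgroup F)
    (hV : g ∈ D.negUnipotent F) : g = 1 := by
  have hm : g ∈ D.borelSubgroup F ⊓ D.negUnipotent F := ⟨hB, hV⟩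
  rw [(Cfsg.Agent.S1037.result (F := F) D hD).1] at hm
  exact Subgroup.mem_bot.mp hm

theorem yp_mem_unip (S : List ℕ) (hpos : ∀ r ∈ S, D.IsPosRoot r) (a : ℕ → F) :
    yp D hD S a ∈ D.posUnipotent F := by
  unfold yp
  apply Subgroup.list_prod_mem
  intro x hx
  obtain ⟨r, hr, rfl⟩ := List.mem_map.mp hx
  exact Subgroup.subset_closure ⟨r, a r, hpos r hr, coe_xU D hD r (a r)⟩

/-- if a monomial element conjugates a product of commuting positive root elements to another
such product, then it maps the roots with non-zero parameter into the list -/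
theorem yp_support (S : List ℕ) (hS : S.Nodup) (hpos : ∀ r ∈ S, D.IsPosRoot r)
    (hC : CommS F D hD S) {n : GL D.Idx F} {f : ℕ → ℕ} {ε : ℕ → F}
    (h : SMap D (n : Matrix D.Idx D.Idx F) f ε) (g : ℕ → ℕ) (hg : ∀ r < D.nroots, g (f r) = r)
    (a a' : ℕ → F) (e : n * yp D hD S a * n⁻¹ = yp D hD S a') :
    ∀ r ∈ S, a r ≠ 0 → f r ∈ S ∧ a' (f r) = ε r * a r := by
  classical
  have hSg := sgnOK_all D hD
  have hlt : ∀ r ∈ S, r < D.nroots := fun r hr => (hpos r hr).1
  -- the roots with negative image have parameter zero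
  have hsplit : yp D hD S a = yp D hD S (fun r => if D.IsNegRoot (f r) then 0 else a r) *
      yp D hD S (fun r => if D.IsNegRoot (f r) then a r else 0) := by
    rw [yp_mul D hD S hC]
    apply yp_congr
    intro r _
    by_cases hn : D.IsNegRoot (f r)
    · simp only [if_pos hn, zero_add]
    · simp only [if_neg hn, add_zero]
  have hB : n * yp D hD S (fun r => if D.IsNegRoot (f r) then 0 else a r) * n⁻¹ ∈
      D.borelSubgroup F := by
    rw [yp_conj_smap D hD h S hlt]
    apply Subgroup.list_prod_mem
    intro x hx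
    obtain ⟨r, hr, rfl⟩ := List.mem_map.mp hx
    by_cases hn : D.IsNegRoot (f r)
    · simp only [if_pos hn, mul_zero, xU_zero]
      exact one_mem _
    · rcases hSg.pos_or_neg (f r) (h.lt r (hlt r hr)) with hp | hn'
      · exact xU_mem_borel D hD _ hp _
      · exact absurd hn' hn
  have hV : n * yp D hD S (fun r => if D.IsNegRoot (f r) then a r else 0) * n⁻¹ ∈
      D.negUnipotent F := by
    rw [yp_conj_smap D hD h S hlt]
    apply Subgroup.list_prod_mem
    intro x hx
    obtain ⟨r, hr, rfl⟩ := List.mem_map.mp hx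
    by_cases hn : D.IsNegRoot (f r)
    · exact Subgroup.subset_closure ⟨f r, _, hn, coe_xU D hD _ _⟩
    · simp only [if_neg hn, mul_zero, xU_zero]
      exact one_mem _
  have hB' : n * yp D hD S (fun r => if D.IsNegRoot (f r) then a r else 0) * n⁻¹ ∈
      D.borelSubgroup F := by
    have e2 : n * yp D hD S (fun r => if D.IsNegRoot (f r) then a r else 0) * n⁻¹ =
        (n * yp D hD S (fun r => if D.IsNegRoot (f r) then 0 else a r) * n⁻¹)⁻¹ *
          yp D hD S a' := by
      rw [← e, hsplit]
      group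
    rw [e2]
    exact mul_mem (inv_mem hB)
      ((le_sup_left : D.posUnipotent F ≤ D.borelSubgroup F) (yp_mem_unip D hD S hpos a'))
  have h1 := borel_inf_negU D hD _ hB' hV
  have hneg1 : yp D hD S (fun r => if D.IsNegRoot (f r) then a r else 0) = 1 := by
    generalize yp D hD S (fun r => if D.IsNegRoot (f r) then a r else 0) = Y at h1 ⊢
    have h3 : Y = n⁻¹ * (n * Y * n⁻¹) * n := by group
    rw [h3, h1]
    group
  have hneg0 : ∀ r ∈ S, D.IsNegRoot (f r) → a r = 0 := by
    intro r hr hn
    have h2 := yp_inj D hD S hS hpos hC _ _ (hneg1.trans (yp_zero D hD S).symm) r hr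
    simpa only [if_pos hn] using h2
  -- the remaining product
  rw [hsplit, hneg1, mul_one] at e
  have hfil : yp D hD S (fun r => if D.IsNegRoot (f r) then 0 else a r) =
      yp D hD (S.filter (fun r => decide (¬ D.IsNegRoot (f r)))) a := by
    rw [← yp_filter D hD S (fun r => ¬ D.IsNegRoot (f r)) a]
    apply yp_congr
    intro r _
    by_cases hn : D.IsNegRoot (f r)
    · rw [if_pos hn, if_neg (not_not.mpr hn)]
    · rw [if_neg hn, if_pos hn]
  rw [hfil] at e
  have hmemP : ∀ r, r ∈ S.filter (fun r => decide (¬ D.IsNegRoot (f r))) ↔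
      r ∈ S ∧ ¬ D.IsNegRoot (f r) := by
    intro r
    rw [List.mem_filter, decide_eq_true_eq]
  have hltP : ∀ r ∈ S.filter (fun r => decide (¬ D.IsNegRoot (f r))), r < D.nroots :=
    fun r hr => hlt r ((hmemP r).mp hr).1
  rw [yp_conj_smap D hD h _ hltP] at e
  have hmap : ((S.filter (fun r => decide (¬ D.IsNegRoot (f r)))).map
      fun r => xU D hD (f r) (ε r * a r)) =
      (((S.filter (fun r => decide (¬ D.IsNegRoot (f r)))).map f).map
        fun q => xU D hD q (ε (g q) * a (g q))) := by
    rw [List.map_map]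
    apply List.map_congr_left
    intro r hr
    show _ = xU D hD (f r) (ε (g (f r)) * a (g (f r)))
    rw [hg r (hltP r hr)]
  rw [hmap] at e
  have hLnd : ((S.filter (fun r => decide (¬ D.IsNegRoot (f r)))).map f).Nodup := by
    apply List.Nodup.map_on _ (hS.filter _)
    intro x hx y hy hxy
    rw [← hg x (hltP x hx), ← hg y (hltP y hy), hxy]
  have hLpos : ∀ q ∈ (S.filter (fun r => decide (¬ D.IsNegRoot (f r)))).map f,
      D.IsPosRoot q := by
    intro q hq
    obtain ⟨r, hr, rfl⟩ := List.mem_map.mp hq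
    rcases hSg.pos_or_neg (f r) (h.lt r (hltP r hr)) with hp | hn'
    · exact hp
    · exact absurd hn' ((hmemP r).mp hr).2
  have hLc : ∀ q ∈ (S.filter (fun r => decide (¬ D.IsNegRoot (f r)))).map f,
      ∀ q' ∈ (S.filter (fun r => decide (¬ D.IsNegRoot (f r)))).map f,
      Commute (xU D hD q (ε (g q) * a (g q))) (xU D hD q' (ε (g q') * a (g q'))) := by
    intro q hq q' hq'
    obtain ⟨r, hr, rfl⟩ := List.mem_map.mp hq
    obtain ⟨r', hr', rfl⟩ := List.mem_map.mp hq'
    rw [hg r (hltP r hr), hg r' (hltP r' hr')]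
    have e1 := h.conjU hD r (hltP r hr) (a r)
    have e2 := h.conjU hD r' (hltP r' hr') (a r')
    have e1' : xU D hD (f r) (ε r * a r) = n * xU D hD r (a r) * n⁻¹ := by
      rw [e1]
      group
    have e2' : xU D hD (f r') (ε r' * a r') = n * xU D hD r' (a r') * n⁻¹ := by
      rw [e2]
      group
    rw [e1', e2']
    exact commute_conj n _ _ (hC r ((hmemP r).mp hr).1 r' ((hmemP r').mp hr').1 _ _)
  have h5 := prod_reorder D.posRoots _ (posRoots_nodup D) hLnd
    (fun q => xU D hD q (ε (g q) * a (g q))) hLc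
    (fun q hq => (mem_posRoots_iff D q).mpr (hLpos q hq))
  rw [h5, yp_eq_posRoots D hD S hS hpos hC a'] at e
  have h6 : (D.posRoots.map fun q =>
      if q ∈ (S.filter (fun r => decide (¬ D.IsNegRoot (f r)))).map f then
        xU D hD q (ε (g q) * a (g q)) else 1).prod =
      yp D hD D.posRoots (fun q =>
        if q ∈ (S.filter (fun r => decide (¬ D.IsNegRoot (f r)))).map f then
          ε (g q) * a (g q) else 0) := by
    unfold yp
    congr 1
    apply List.map_congr_left
    intro q _
    show (if q ∈ (S.filter (fun r => decide (¬ D.IsNegRoot (f r)))).map f then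
        xU D hD q (ε (g q) * a (g q)) else 1) =
      xU D hD q (if q ∈ (S.filter (fun r => decide (¬ D.IsNegRoot (f r)))).map f then
        ε (g q) * a (g q) else 0)
    by_cases hq : q ∈ (S.filter (fun r => decide (¬ D.IsNegRoot (f r)))).map f
    · rw [if_pos hq, if_pos hq]
    · rw [if_neg hq, if_neg hq, xU_zero]
  rw [h6] at e
  have h7 := congrArg (fun g : GL D.Idx F => (g : Matrix D.Idx D.Idx F)) e
  simp only [yp_coe] at h7
  have h8 := Cfsg.Agent.Lib.Helper17.uprod_unique D hD _ _
    (fun r hr => if_neg (fun hrL => hr (hLpos r hrL)))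
    (fun r hr => if_neg (fun hrS => hr (hpos r hrS))) h7
  intro r hr har
  have hnn : ¬ D.IsNegRoot (f r) := fun hn => har (hneg0 r hr hn)
  have hrP : r ∈ S.filter (fun r => decide (¬ D.IsNegRoot (f r))) := (hmemP r).mpr ⟨hr, hnn⟩
  have hfL : f r ∈ (S.filter (fun r => decide (¬ D.IsNegRoot (f r)))).map f :=
    List.mem_map.mpr ⟨r, hrP, rfl⟩
  have h9 := congrFun h8 (f r)
  simp only [if_pos hfL, hg r (hlt r hr)] at h9
  have hne : ε r * a r ≠ 0 := by
    rcases h.sign r (hlt r hr) with h1 | h1 <;> rw [h1] <;> simp [har]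
  by_cases hfS : f r ∈ S
  · rw [if_pos hfS] at h9
    exact ⟨hfS, h9.symm⟩
  · rw [if_neg hfS] at h9
    exact absurd h9 hne

end

end Cfsg.Agent.Lib.Helper36
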