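import Cfsg.Agent.Lib.Helper36.F4InvA

set_option autoImplicit false

/-!
# Root data of `F₄` for the mixed involutions in characteristic `2`

Commutation of root elements in characteristic `2` from the tables, the pairing of roots with
coroots and the root lengths of `F₄`, and their invariance under the Weyl group.
-/

namespace Cfsg.Agent.Lib.Helper36

open Cfsg Cfsg.Lie Cfsg.Agent.Lib.Helper18

universe u

variable {F : Type u} [Field F]

theorem f4m : chevF4 ∈ [chevG2, chevB2, chevD4, chevF4, chevE6, chevE7, chevE8] := by simp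

/-- root elements commute in characteristic `2` when all commutator coefficients are even -/
theorem xU_comm_even [CharP F 2] (D : ChevalleyDatum)
    (hD : D ∈ [chevG2, chevB2, chevD4, chevF4, chevE6, chevE7, chevE8]) (r s : ℕ)
    (hr : r < D.nroots) (hs : s < D.nroots) (hsr : s ≠ r) (hsn : s ≠ D.neg r)
    (h : ∀ c ∈ D.commTerms r s, c.2.1 % 2 = 0) (t u : F) :
    xU D hD s u * xU D hD r t = xU D hD r t * xU D hD s u := by
  apply Units.ext
  rw [Units.val_mul, Units.val_mul, coe_xU, coe_xU,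
    Cfsg.Agent.Lib.Helper17.cf_of_mem (F := F) D hD r s hr hs hsr hsn t u,
    wordMat_commWord_eq_one D r s t u h, mul_one]

/-- root elements with a single commutator term, of odd coefficient, in characteristic `2` -/
theorem xU_comm_single [CharP F 2] (D : ChevalleyDatum)
    (hD : D ∈ [chevG2, chevB2, chevD4, chevF4, chevE6, chevE7, chevE8]) (r s k : ℕ) (c : ℤ)
    (hr : r < D.nroots) (hs : s < D.nroots) (hsr : s ≠ r) (hsn : s ≠ D.neg r)
    (h : D.commTerms r s = [(k, c, 1, 1)]) (hc : c % 2 = 1) (t u : F) :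
    xU D hD s u * xU D hD r t = xU D hD r t * xU D hD s u * xU D hD k (t * u) := by
  apply Units.ext
  rw [Units.val_mul, Units.val_mul, Units.val_mul, coe_xU, coe_xU, coe_xU,
    Cfsg.Agent.Lib.Helper17.cf_of_mem (F := F) D hD r s hr hs hsr hsn t u]
  congr 1
  unfold ChevalleyDatum.commWord ChevalleyDatum.wordMat
  rw [h]
  simp only [List.map_cons, List.map_nil, List.prod_cons, List.prod_nil, mul_one, pow_one]
  have hc1 : ((c : ℤ) : F) = 1 := by
    have h2 : c = 2 * (c / 2) + 1 := by omega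
    rw [h2]
    push_cast
    rw [CharTwo.two_eq_zero]
    ring
  rw [hc1, one_mul, CharTwo.neg_eq]

/-- the table check for two commuting root subgroups in characteristic `2` -/
def evenChk (D : ChevalleyDatum) (r s : ℕ) : Bool :=
  decide (s = r) || (decide (s ≠ D.neg r) && (D.commTerms r s).all (fun c => decide (c.2.1 % 2 = 0)))

theorem xU_comm_of_chk [CharP F 2] (D : ChevalleyDatum)
    (hD : D ∈ [chevG2, chevB2, chevD4, chevF4, chevE6, chevE7, chevE8]) (r s : ℕ)
    (hr : r < D.nroots) (hs : s < D.nroots) (h : evenChk D r s = true) (t u : F) :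
    xU D hD s u * xU D hD r t = xU D hD r t * xU D hD s u := by
  simp only [evenChk, Bool.or_eq_true, Bool.and_eq_true, decide_eq_true_eq, List.all_eq_true] at h
  rcases h with rfl | ⟨h1, h2⟩
  · rw [xU_mul, xU_mul, add_comm]
  · by_cases hsr : s = r
    · subst hsr
      rw [xU_mul, xU_mul, add_comm]
    · exact xU_comm_even D hD r s hr hs hsr h1 h2 t u

/-- the conjugate of a root element by another root element -/
theorem xU_conj_comm (D : ChevalleyDatum)
    (hD : D ∈ [chevG2, chevB2, chevD4, chevF4, chevE6, chevE7, chevE8]) (r s : ℕ)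
    (hr : r < D.nroots) (hs : s < D.nroots) (hsr : s ≠ r) (hsn : s ≠ D.neg r) (t u : F) :
    xU D hD r t * xU D hD s u * (xU D hD r t)⁻¹ =
      xU D hD s u * wordU D hD (D.commWord F r s (-t) u) := by
  have h1 : xU D hD s u * xU D hD r (-t) =
      xU D hD r (-t) * xU D hD s u * wordU D hD (D.commWord F r s (-t) u) := by
    apply Units.ext
    rw [Units.val_mul, Units.val_mul, Units.val_mul, coe_xU, coe_xU, coe_wordU]
    exact Cfsg.Agent.Lib.Helper17.cf_of_mem D hD r s hr hs hsr hsn (-t) u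
  have h2 : xU D hD r t * xU D hD r (-t) = 1 := by rw [xU_mul, add_neg_cancel, xU_zero]
  rw [xU_inv]
  generalize wordU D hD (D.commWord F r s (-t) u) = W at h1 ⊢
  calc xU D hD r t * xU D hD s u * xU D hD r (-t)
      = xU D hD r t * (xU D hD s u * xU D hD r (-t)) := by group
    _ = xU D hD r t * (xU D hD r (-t) * xU D hD s u * W) := by rw [h1]
    _ = (xU D hD r t * xU D hD r (-t)) * xU D hD s u * W := by group
    _ = xU D hD s u * W := by rw [h2, one_mul]

/-- the right-hand side of the commutator formula lies in a subgroup containing its root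
subgroups -/
theorem commWord_mem (D : ChevalleyDatum)
    (hD : D ∈ [chevG2, chevB2, chevD4, chevF4, chevE6, chevE7, chevE8])
    (K : Subgroup (GL D.Idx F)) (r s : ℕ) (t u : F)
    (h : ∀ c ∈ D.commTerms r s, ∀ v : F, xU D hD c.1 v ∈ K) :
    wordU D hD (D.commWord F r s t u) ∈ K := by
  unfold wordU ChevalleyDatum.commWord
  apply Subgroup.list_prod_mem
  intro x hx
  simp only [List.map_map, List.mem_map, Function.comp] at hx
  obtain ⟨c, hc, rfl⟩ := hx
  exact h c hc _

/-- an element conjugating a generating set into its closure, in both directions, normalises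
the closure -/
theorem mem_normalizer_closure {G : Type*} [Group G] (A : Set G) (x : G)
    (h1 : ∀ a ∈ A, x * a * x⁻¹ ∈ Subgroup.closure A)
    (h2 : ∀ a ∈ A, x⁻¹ * a * x⁻¹⁻¹ ∈ Subgroup.closure A) :
    x ∈ Subgroup.normalizer (Subgroup.closure A : Set G) := by
  rw [Subgroup.mem_normalizer_iff]
  intro g
  constructor
  · intro hg
    exact conj_mem_closure A _ x h1 g hg
  · intro hg
    have h3 := conj_mem_closure A _ x⁻¹ h2 _ hg
    have e : x⁻¹ * (x * g * x⁻¹) * x⁻¹⁻¹ = g := by group
    rwa [e] at h3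

/-! ### The pairing and the root lengths of `F₄` -/

/-- the pairing `⟨g, d^∨⟩` of the roots of `F₄` -/
def f4pr (g d : ℕ) : ℤ :=
  ((List.range 4).map (fun i => (chevF4.coroot.getD d #[]).getD i 0 * chevF4.cartan i g)).sum

set_option maxRecDepth 100000 in
theorem f4pr_refl : ∀ i < 4, ∀ g < 48, ∀ d < 48,
    f4pr (chevF4.reflectRoot i g) (chevF4.reflectRoot i d) = f4pr g d := by
  decide +kernel

theorem f4pr_word (l : List (Fin chevF4.rank)) (g d : ℕ) (hg : g < 48) (hd : d < 48) :
    f4pr (wordF chevF4 l g) (wordF chevF4 l d) = f4pr g d := by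
  induction l with
  | nil => rfl
  | cons a l ih =>
    show f4pr (chevF4.reflectRoot a.val (wordF chevF4 l g))
      (chevF4.reflectRoot a.val (wordF chevF4 l d)) = f4pr g d
    rw [f4pr_refl a.val a.isLt _ (wordF_lt chevF4 f4m l g hg) _ (wordF_lt chevF4 f4m l d hd), ih]

/-- the root lengths of `F₄`: `1` for the short and `2` for the long roots -/
def f4len : List ℕ :=
  [2, 2, 2, 1, 2, 2, 2, 1, 1, 1, 1, 1, 1, 1, 1, 2, 2, 2, 1, 1, 1, 2, 2, 2, 2, 2, 2, 1, 1, 1, 2, 2,
   2, 1, 1, 1, 1, 1, 1, 1, 1, 2, 2, 2, 1, 2, 2, 2]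

theorem f4len_refl : ∀ i < 4, ∀ g < 48,
    f4len.getD (chevF4.reflectRoot i g) 0 = f4len.getD g 0 := by
  decide +kernel

theorem f4len_word (l : List (Fin chevF4.rank)) (g : ℕ) (hg : g < 48) :
    f4len.getD (wordF chevF4 l g) 0 = f4len.getD g 0 := by
  induction l with
  | nil => rfl
  | cons a l ih =>
    show f4len.getD (chevF4.reflectRoot a.val (wordF chevF4 l g)) 0 = f4len.getD g 0
    rw [f4len_refl a.val a.isLt _ (wordF_lt chevF4 f4m l g hg), ih]

/-- the highest root and the highest short root -/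
def f4S1 : List ℕ := [47, 44]

/-- the roots of the abelian normal subgroup of `U` containing `x₃₉(1) x₄₅(1)` -/
def f4S2 : List ℕ := [39, 40, 44, 45, 46, 47]

theorem f4S1_chk : ∀ r ∈ f4S1, ∀ s ∈ f4S1, evenChk chevF4 r s = true := by decide +kernel

theorem f4S2_chk : ∀ r ∈ f4S2, ∀ s ∈ f4S2, evenChk chevF4 r s = true := by decide +kernel

theorem f4S1_lt : ∀ r ∈ f4S1, r < chevF4.nroots := by decide

theorem f4S2_lt : ∀ r ∈ f4S2, r < chevF4.nroots := by decide

theorem f4S1_pos : ∀ r ∈ f4S1, chevF4.IsPosRoot r := by decide +kernel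

theorem f4S2_pos : ∀ r ∈ f4S2, chevF4.IsPosRoot r := by decide +kernel

theorem commS_f4S1 [CharP F 2] : CommS F chevF4 f4m f4S1 := fun r hr s hs t u =>
  (xU_comm_of_chk chevF4 f4m r s (f4S1_lt r hr) (f4S1_lt s hs) (f4S1_chk r hr s hs) t u).symm

theorem commS_f4S2 [CharP F 2] : CommS F chevF4 f4m f4S2 := fun r hr s hs t u =>
  (xU_comm_of_chk chevF4 f4m r s (f4S2_lt r hr) (f4S2_lt s hs) (f4S2_chk r hr s hs) t u).symm

theorem f4_fix1_aux : ∀ A ∈ f4S1, ∀ B ∈ f4S1, f4len.getD A 0 = 2 → f4len.getD B 0 = 1 →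
    A = 47 ∧ B = 44 := by
  decide

/-- a word mapping the highest root and the highest short root into their pair fixes both -/
theorem f4_fix1 (l : List (Fin chevF4.rank)) (h47 : wordF chevF4 l 47 ∈ f4S1)
    (h44 : wordF chevF4 l 44 ∈ f4S1) : wordF chevF4 l 47 = 47 ∧ wordF chevF4 l 44 = 44 :=
  f4_fix1_aux _ h47 _ h44 (f4len_word l 47 (by decide)) (f4len_word l 44 (by decide))

theorem f4_fix2_aux : ∀ A ∈ f4S2, ∀ B ∈ f4S2, f4len.getD A 0 = 1 → f4len.getD B 0 = 2 →
    f4pr A B = 0 → A = 39 ∧ B = 45 := by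
  decide +kernel

/-- a word mapping the roots `39` and `45` into the six roots fixes both -/
theorem f4_fix2 (l : List (Fin chevF4.rank)) (h39 : wordF chevF4 l 39 ∈ f4S2)
    (h45 : wordF chevF4 l 45 ∈ f4S2) : wordF chevF4 l 39 = 39 ∧ wordF chevF4 l 45 = 45 :=
  f4_fix2_aux _ h39 _ h45 (f4len_word l 39 (by decide)) (f4len_word l 45 (by decide))
    (by rw [f4pr_word l 39 45 (by decide) (by decide)]; decide +kernel)

/-- the sum of the coefficients of a root at the second and third fundamental roots -/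
def f4phi (g : ℕ) : ℤ := 2 * f4pr g 39 + 3 * f4pr g 45

theorem f4phi_word (l : List (Fin chevF4.rank)) (h39 : wordF chevF4 l 39 = 39)
    (h45 : wordF chevF4 l 45 = 45) (g : ℕ) (hg : g < 48) :
    f4phi (wordF chevF4 l g) = f4phi g := by
  have h1 := f4pr_word l g 39 hg (by decide)
  have h2 := f4pr_word l g 45 hg (by decide)
  rw [h39] at h1
  rw [h45] at h2
  unfold f4phi
  rw [h1, h2]

theorem f4phi_pos : ∀ g < 48, (0 < f4phi g ↔ (chevF4.IsPosRoot g ∧ g ≠ 33 ∧ g ≠ 24)) := by
  decide +kernel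

theorem posRoots_f4 : chevF4.posRoots =
    [24, 25, 26, 27, 28, 29, 30, 31, 32, 33, 34, 35, 36, 37, 38, 39, 40, 41, 42, 43, 44, 45, 46,
     47] := by
  decide +kernel

end Cfsg.Agent.Lib.Helper36
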