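import Cfsg.Agent.Lib.Helper36.F4InvB

set_option autoImplicit false

/-!
# The involution `x₄₇(1) x₄₄(1)` of `F₄` in characteristic `2`

Its centraliser in the Chevalley group is generated by `U`, `X_{-p₂}` and `X_{-p₃}`.
-/

namespace Cfsg.Agent.Lib.Helper36

open Cfsg Cfsg.Lie Cfsg.Agent.Lib.Helper18

universe u

variable {F : Type u} [Field F]

/-- the subgroup generated by the root subgroups of the roots with a given property -/
def rootCl (D : ChevalleyDatum) (F : Type u) [Field F] (P : ℕ → Prop) : Subgroup (GL D.Idx F) :=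
  Subgroup.closure {g | ∃ (s : ℕ) (t : F), P s ∧ (g : Matrix D.Idx D.Idx F) = D.x F s t}

theorem xU_mem_rootCl (D : ChevalleyDatum)
    (hD : D ∈ [chevG2, chevB2, chevD4, chevF4, chevE6, chevE7, chevE8]) (P : ℕ → Prop) (s : ℕ)
    (hs : P s) (t : F) : xU D hD s t ∈ rootCl D F P :=
  Subgroup.subset_closure ⟨s, t, hs, coe_xU D hD s t⟩

theorem rootCl_mono (D : ChevalleyDatum) (P Q : ℕ → Prop) (h : ∀ s, P s → Q s) :
    rootCl D F P ≤ rootCl D F Q := by
  apply Subgroup.closure_mono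
  rintro g ⟨s, t, hs, hg⟩
  exact ⟨s, t, h s hs, hg⟩

theorem rootCl_le (D : ChevalleyDatum)
    (hD : D ∈ [chevG2, chevB2, chevD4, chevF4, chevE6, chevE7, chevE8]) (P : ℕ → Prop)
    (K : Subgroup (GL D.Idx F)) (h : ∀ s, P s → ∀ t : F, xU D hD s t ∈ K) :
    rootCl D F P ≤ K := by
  unfold rootCl
  rw [Subgroup.closure_le]
  rintro x ⟨s, t, hs, hx⟩
  rw [eq_xU D hD s t x hx]
  exact h s hs t

theorem rootCl_le_group (D : ChevalleyDatum)
    (hD : D ∈ [chevG2, chevB2, chevD4, chevF4, chevE6, chevE7, chevE8]) (P : ℕ → Prop) :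
    rootCl D F P ≤ D.group F :=
  rootCl_le D hD P _ (fun s _ t => xU_mem_group D hD s t)

theorem diag_le_normalizer_rootCl (D : ChevalleyDatum)
    (hD : D ∈ [chevG2, chevB2, chevD4, chevF4, chevE6, chevE7, chevE8]) (P : ℕ → Prop)
    (hP : ∀ s, P s → s < D.nroots) :
    D.diagonalSubgroup F ≤ Subgroup.normalizer (rootCl D F P : Set (GL D.Idx F)) := by
  unfold rootCl
  rw [Subgroup.le_normalizer_closure_iff]
  rintro h hh g ⟨s, t, hs, hg⟩
  obtain ⟨t', e⟩ := diag_conjU D hD h hh s (hP s hs) t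
  have e' : h * g * h⁻¹ = xU D hD s t' := by
    rw [eq_xU D hD s t g hg, e]
    group
  rw [e']
  exact Subgroup.subset_closure ⟨s, t', hs, coe_xU D hD s t'⟩

/-- a word fixing a root normalises its root subgroup -/
theorem word_mem_normalizer_root (D : ChevalleyDatum)
    (hD : D ∈ [chevG2, chevB2, chevD4, chevF4, chevE6, chevE7, chevE8]) (l : List (Fin D.rank))
    (r : ℕ) (hr : r < D.nroots) (hfix : wordF D l r = r) :
    (l.map (nU (F := F) D hD)).prod ∈
      Subgroup.normalizer (D.rootSubgroup F r : Set (GL D.Idx F)) := by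
  obtain ⟨ε, hε⟩ := word_smap (F := F) D hD l
  have e1 := hε.conjU hD r hr
  rw [hfix] at e1
  have hε2 : ∀ t : F, ε r * (ε r * t) = t := by
    intro t
    rcases hε.sign r hr with h | h <;> rw [h] <;> ring
  rw [Subgroup.mem_normalizer_iff]
  intro x
  constructor
  · intro hx
    obtain ⟨t, rfl⟩ := (mem_rootSubgroup_iff D hD r _).mp hx
    refine (mem_rootSubgroup_iff D hD r _).mpr ⟨ε r * t, ?_⟩
    rw [e1 t]
    group
  · intro hx
    obtain ⟨t, ht⟩ := (mem_rootSubgroup_iff D hD r _).mp hx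
    refine (mem_rootSubgroup_iff D hD r _).mpr ⟨ε r * t, ?_⟩
    have e3 := e1 (ε r * t)
    rw [hε2 t, ← ht] at e3
    generalize (l.map (nU (F := F) D hD)).prod = n at e3 ⊢
    have e4 : n * xU D hD r (ε r * t) = n * x := by
      rw [e3]
      group
    exact (mul_left_cancel e4).symm

/-- a fundamental `n_p` normalising `X_r` is not the one that moves `r` -/
theorem nU_normalizer_ne (D : ChevalleyDatum)
    (hD : D ∈ [chevG2, chevB2, chevD4, chevF4, chevE6, chevE7, chevE8]) (r k : ℕ)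
    (hO : HighOK D F r k) (a : Fin D.rank)
    (haQ : nU (F := F) D hD a ∈ Subgroup.normalizer (D.rootSubgroup F r : Set (GL D.Idx F))) :
    a.val ≠ k := by
  have hr := hO.hr
  have hk1 : D.cartan (⟨k, hO.hk⟩ : Fin D.rank).val r = 1 := by
    have := hO.cart k hO.hk
    rwa [if_pos rfl] at this
  intro hak
  have h3 := conj_mem_of_mem_normalizer _ haQ ((mem_rootSubgroup_iff D hD r _).mpr ⟨1, rfl⟩)
  obtain ⟨c, hc⟩ := (mem_rootSubgroup_iff D hD r _).mp h3
  have hc0 : c ≠ 0 := conj_param_ne_zero D hD r hr _ c hc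
  obtain ⟨η, hη⟩ := nU_smap (F := F) D hD a
  have e5 := hη.conjU hD r hr 1
  have e6 : xU D hD (D.reflectRoot a.val r) (η r * 1) = xU D hD r c := by
    rw [← hc, e5]
    group
  have := (root_eq_of_xU_eq D hD r hr ⟨k, hO.hk⟩ hk1 _ _ _ hc0 e6).1
  rw [hak] at this
  exact hO.refl this

/-- conjugation of a root element by a torus element -/
theorem torus_mul_xU (D : ChevalleyDatum)
    (hD : D ∈ [chevG2, chevB2, chevD4, chevF4, chevE6, chevE7, chevE8]) (c : Fin D.rank → Fˣ)
    (r : ℕ) (hr : r < D.nroots) (t : F) :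
    torusHom (F := F) D c * xU D hD r t =
      xU D hD r (chiL D (cx D c) (List.range D.rank) r * t) * torusHom (F := F) D c := by
  have hl : ∀ i ∈ List.range D.rank, i < D.rank ∧ cx D c i ≠ 0 :=
    fun i hi => ⟨List.mem_range.mp hi, cx_ne_zero D c i⟩
  apply Units.ext
  rw [Units.val_mul, Units.val_mul, coe_xU, coe_xU, coe_torusHom]
  exact dvecL_mul_x D hD (cx D c) _ hl r hr t

/-- a torus element lies in a subgroup containing the fundamental root subgroups, and their
negatives, at which its parameter is not `1` -/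
theorem torus_mem_of (D : ChevalleyDatum)
    (hD : D ∈ [chevG2, chevB2, chevD4, chevF4, chevE6, chevE7, chevE8])
    (K : Subgroup (GL D.Idx F)) (c : Fin D.rank → Fˣ)
    (hK : ∀ i < D.rank, cx D c i = 1 ∨
      (∀ t : F, xU D hD (D.simple i) t ∈ K ∧ xU D hD (D.neg (D.simple i)) t ∈ K)) :
    torusHom (F := F) D c ∈ K := by
  refine mem_of_dvecL D _ (cx D c) (List.range D.rank) ?_ _ (coe_torusHom D c)
  intro i hi
  refine ⟨cx_ne_zero D c i, ?_⟩
  intro g hg
  have hirk := List.mem_range.mp hi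
  rcases hK i hirk with h1 | h2
  · have h1' : g = 1 := by
      apply Units.ext
      rw [hg, h1]
      ext a b
      simp [Matrix.one_apply, Matrix.diagonal_apply]
    rw [h1']
    exact one_mem _
  · have hM : (g : Matrix D.Idx D.Idx F) = D.hMat F (D.simple i) (cx D c i) := by
      rw [hg, Cfsg.Agent.S1033.result D hD i hirk (cx D c i) (cx_ne_zero D c i), ← diagonal_wt_eq]
    have hg' : g = xU D hD (D.simple i) (cx D c i) *
        xU D hD (D.neg (D.simple i)) (-(cx D c i)⁻¹) * xU D hD (D.simple i) (cx D c i) *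
        (xU D hD (D.simple i) (-1) * xU D hD (D.neg (D.simple i)) (-(-1 : F)⁻¹) *
          xU D hD (D.simple i) (-1)) := by
      apply Units.ext
      rw [hM]
      simp [ChevalleyDatum.hMat, ChevalleyDatum.hWord, ChevalleyDatum.nWord,
        ChevalleyDatum.wordMat, coe_xU, mul_assoc]
    rw [hg']
    exact mul_mem (mul_mem (mul_mem (h2 _).1 (h2 _).2) (h2 _).1)
      (mul_mem (mul_mem (h2 _).1 (h2 _).2) (h2 _).1)

/-! ### The centraliser of `x₄₇(1) x₄₄(1)` -/

/-- the subgroup generated by `U`, `X_{-p₂}` and `X_{-p₃}` -/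
def f4R1 (F : Type u) [Field F] : Subgroup (GL chevF4.Idx F) :=
  rootCl chevF4 F (fun s => chevF4.IsPosRoot s ∨ s = 20 ∨ s = 22)

theorem f4R1_le_highR3 : f4R1 F ≤ highR chevF4 F 3 := by
  apply Subgroup.closure_mono
  rintro g ⟨s, t, hs, hg⟩
  refine ⟨s, t, ?_, hg⟩
  rcases hs with hs | rfl | rfl
  · exact Or.inl hs
  · exact Or.inr ⟨⟨1, by decide⟩, by decide, by decide +kernel⟩
  · exact Or.inr ⟨⟨2, by decide⟩, by decide, by decide +kernel⟩

theorem f4R1_le_highR0 : f4R1 F ≤ highR chevF4 F 0 := by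
  apply Subgroup.closure_mono
  rintro g ⟨s, t, hs, hg⟩
  refine ⟨s, t, ?_, hg⟩
  rcases hs with hs | rfl | rfl
  · exact Or.inl hs
  · exact Or.inr ⟨⟨1, by decide⟩, by decide, by decide +kernel⟩
  · exact Or.inr ⟨⟨2, by decide⟩, by decide, by decide +kernel⟩

theorem f4R1_eq : f4R1 F =
    chevF4.posUnipotent F ⊔ chevF4.rootSubgroup F 20 ⊔ chevF4.rootSubgroup F 22 := by
  apply le_antisymm
  · unfold f4R1 rootCl
    rw [Subgroup.closure_le]
    rintro g ⟨s, t, hs, hg⟩
    rcases hs with hs | rfl | rfl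
    · exact Subgroup.mem_sup_left (Subgroup.mem_sup_left
        (Subgroup.subset_closure ⟨s, t, hs, hg⟩))
    · exact Subgroup.mem_sup_left (Subgroup.mem_sup_right (Subgroup.subset_closure ⟨t, hg⟩))
    · exact Subgroup.mem_sup_right (Subgroup.subset_closure ⟨t, hg⟩)
  · refine sup_le (sup_le ?_ ?_) ?_
    · apply Subgroup.closure_mono
      rintro g ⟨s, t, hs, hg⟩
      exact ⟨s, t, Or.inl hs, hg⟩
    · apply Subgroup.closure_mono
      rintro g ⟨t, hg⟩
      exact ⟨20, t, Or.inr (Or.inl rfl), hg⟩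
    · apply Subgroup.closure_mono
      rintro g ⟨t, hg⟩
      exact ⟨22, t, Or.inr (Or.inr rfl), hg⟩

theorem f4_yp1 (p q : F) : yp chevF4 f4m f4S1 (fun r => if r = 47 then p else q) =
    xU chevF4 f4m 47 p * xU chevF4 f4m 44 q := by
  simp [yp, f4S1]

/-- the conjugates of `x₄₇(1) x₄₄(1)` under `B` -/
theorem f4_borel_conj1 [CharP F 2] (b : GL chevF4.Idx F) (hb : b ∈ chevF4.borelSubgroup F) :
    ∃ a : ℕ → F, a 47 ≠ 0 ∧ a 44 ≠ 0 ∧
      b * (xU chevF4 f4m 47 1 * xU chevF4 f4m 44 1) * b⁻¹ = yp chevF4 f4m f4S1 a := by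
  have hO47 : HighOK chevF4 F 47 3 := highOK_of_chk chevF4 f4m 47 3 highChk_F4
  have hO44 : HighOK chevF4 F 44 0 := highOK_of_chk chevF4 f4m 44 0 highChk_F4s
  have h1 := conj_mem_of_mem_normalizer _ (borel_le_normalizer_root chevF4 f4m 47 3 hO47 hb)
    ((mem_rootSubgroup_iff chevF4 f4m 47 _).mpr ⟨1, rfl⟩)
  obtain ⟨c, hc⟩ := (mem_rootSubgroup_iff chevF4 f4m 47 _).mp h1
  have h2 := conj_mem_of_mem_normalizer _ (borel_le_normalizer_root chevF4 f4m 44 0 hO44 hb)
    ((mem_rootSubgroup_iff chevF4 f4m 44 _).mpr ⟨1, rfl⟩)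
  obtain ⟨d, hd⟩ := (mem_rootSubgroup_iff chevF4 f4m 44 _).mp h2
  refine ⟨fun r => if r = 47 then c else d, ?_, ?_, ?_⟩
  · simpa using conj_param_ne_zero chevF4 f4m 47 (by decide) _ c hc
  · simpa using conj_param_ne_zero chevF4 f4m 44 (by decide) _ d hd
  · rw [f4_yp1, ← hc, ← hd]
    group

/-- the centraliser of `x₄₇(1) x₄₄(1)` in the Chevalley group of type `F₄` in characteristic
`2` -/
theorem f4_mixed_cent1 [CharP F 2] (w : GL chevF4.Idx F)
    (hw : (w : Matrix chevF4.Idx chevF4.Idx F) = chevF4.x F 47 1 * chevF4.x F 44 1) :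
    chevF4.group F ⊓ Subgroup.centralizer {w} = f4R1 F := by
  have hwU : w = xU chevF4 f4m 47 1 * xU chevF4 f4m 44 1 :=
    Units.ext (by rw [hw, Units.val_mul, coe_xU, coe_xU])
  subst hwU
  have hO47 : HighOK chevF4 F 47 3 := highOK_of_chk chevF4 f4m 47 3 highChk_F4
  have hO44 : HighOK chevF4 F 44 0 := highOK_of_chk chevF4 f4m 44 0 highChk_F4s
  have hS := sgnOK_all chevF4 f4m
  have hRc : ∀ ρ ∈ f4R1 F, ρ * (xU chevF4 f4m 47 1 * xU chevF4 f4m 44 1) =
      (xU chevF4 f4m 47 1 * xU chevF4 f4m 44 1) * ρ := by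
    intro ρ hρ
    have c1 := highR_comm chevF4 f4m 47 3 hO47 ρ (f4R1_le_highR3 hρ) 1
    have c2 := highR_comm chevF4 f4m 44 0 hO44 ρ (f4R1_le_highR0 hρ) 1
    generalize xU chevF4 f4m 47 (1 : F) = z1 at c1 ⊢
    generalize xU chevF4 f4m 44 (1 : F) = z2 at c2 ⊢
    calc ρ * (z1 * z2) = (ρ * z1) * z2 := by group
      _ = z1 * (ρ * z2) := by rw [c1]; group
      _ = z1 * z2 * ρ := by rw [c2]; group
  have hxR : ∀ (s : ℕ) (t : F), (chevF4.IsPosRoot s ∨ s = 20 ∨ s = 22) →
      xU chevF4 f4m s t ∈ f4R1 F := fun s t hs => xU_mem_rootCl chevF4 f4m _ s hs t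
  apply le_antisymm
  · rintro g ⟨hgG, hgC⟩
    have hgz : g * (xU chevF4 f4m 47 1 * xU chevF4 f4m 44 1) =
        (xU chevF4 f4m 47 1 * xU chevF4 f4m 44 1) * g :=
      ((Subgroup.mem_centralizer_iff.mp hgC) _ rfl).symm
    obtain ⟨b₁, hb₁, l, b₂, hb₂, rfl⟩ := bruhat_word chevF4 f4m g hgG
    obtain ⟨a, ha47, ha44, ea⟩ := f4_borel_conj1 b₂ hb₂
    obtain ⟨a', -, -, ea'⟩ := f4_borel_conj1 b₁⁻¹ (inv_mem hb₁)
    obtain ⟨ε, hε⟩ := word_smap (F := F) chevF4 f4m l
    have hconj : (l.map (nU (F := F) chevF4 f4m)).prod * yp chevF4 f4m f4S1 a *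
        ((l.map (nU (F := F) chevF4 f4m)).prod)⁻¹ = yp chevF4 f4m f4S1 a' := by
      rw [← ea, ← ea']
      generalize (l.map (nU (F := F) chevF4 f4m)).prod = n at hgz ⊢
      generalize xU chevF4 f4m 47 (1 : F) * xU chevF4 f4m 44 1 = z at hgz ⊢
      have hz' : z = b₁ * n * b₂ * z * (b₁ * n * b₂)⁻¹ := by
        rw [hgz]
        group
      calc n * (b₂ * z * b₂⁻¹) * n⁻¹
          = b₁⁻¹ * (b₁ * n * b₂ * z * (b₁ * n * b₂)⁻¹) * b₁⁻¹⁻¹ := by group
        _ = b₁⁻¹ * z * b₁⁻¹⁻¹ := by rw [← hz']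
    have hsup := yp_support chevF4 f4m f4S1 (by decide) f4S1_pos commS_f4S1 hε
      (wordF chevF4 l.reverse) (fun r hr => wordF_reverse_cancel chevF4 f4m l r hr) a a' hconj
    obtain ⟨h47, h44⟩ := f4_fix1 l (hsup 47 (by decide) ha47).1 (hsup 44 (by decide) ha44).1
    have hBQ : chevF4.borelSubgroup F ≤
        Subgroup.normalizer (chevF4.rootSubgroup F 47 : Set (GL chevF4.Idx F)) ⊓
        Subgroup.normalizer (chevF4.rootSubgroup F 44 : Set (GL chevF4.Idx F)) :=
      le_inf (borel_le_normalizer_root chevF4 f4m 47 3 hO47)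
        (borel_le_normalizer_root chevF4 f4m 44 0 hO44)
    have hnQ : (l.map (nU (F := F) chevF4 f4m)).prod ∈
        Subgroup.normalizer (chevF4.rootSubgroup F 47 : Set (GL chevF4.Idx F)) ⊓
        Subgroup.normalizer (chevF4.rootSubgroup F 44 : Set (GL chevF4.Idx F)) :=
      ⟨word_mem_normalizer_root chevF4 f4m l 47 (by decide) h47,
        word_mem_normalizer_root chevF4 f4m l 44 (by decide) h44⟩
    have hnT := word_mem_of_overgroup chevF4 f4m _ hBQ l.length l le_rfl hnQ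
    have hcl : Subgroup.closure {g | ∃ a : Fin chevF4.rank, g = nU (F := F) chevF4 f4m a ∧
        g ∈ Subgroup.normalizer (chevF4.rootSubgroup F 47 : Set (GL chevF4.Idx F)) ⊓
          Subgroup.normalizer (chevF4.rootSubgroup F 44 : Set (GL chevF4.Idx F))} ≤
        f4R1 F := by
      rw [Subgroup.closure_le]
      rintro x ⟨a, rfl, haQ⟩
      have ha3 := nU_normalizer_ne chevF4 f4m 47 3 hO47 a haQ.1
      have ha0 := nU_normalizer_ne chevF4 f4m 44 0 hO44 a haQ.2
      show nU (F := F) chevF4 f4m a ∈ f4R1 F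
      rw [nU_eq_xU]
      have ha4 : a.val < 4 := a.isLt
      have ha12 : a.val = 1 ∨ a.val = 2 := by omega
      have hp : ∀ t : F, xU chevF4 f4m (chevF4.simple a.val) t ∈ f4R1 F :=
        fun t => hxR _ t (Or.inl (hS.pos_simple a.val a.isLt))
      have hn : ∀ t : F, xU chevF4 f4m (chevF4.neg (chevF4.simple a.val)) t ∈ f4R1 F := by
        intro t
        rcases ha12 with h | h
        · rw [h]
          exact hxR _ t (Or.inr (Or.inl (by decide +kernel)))
        · rw [h]
          exact hxR _ t (Or.inr (Or.inr (by decide +kernel)))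
      exact mul_mem (mul_mem (hp _) (hn _)) (hp _)
    have hUle : chevF4.posUnipotent F ≤ f4R1 F := by
      apply Subgroup.closure_mono
      rintro g ⟨s, t, hs, hg⟩
      exact ⟨s, t, Or.inl hs, hg⟩
    have hBle : chevF4.borelSubgroup F ≤ f4R1 F ⊔ chevF4.diagonalSubgroup F :=
      sup_le (le_sup_of_le_left hUle) le_sup_right
    have hnle : (l.map (nU (F := F) chevF4 f4m)).prod ∈ f4R1 F ⊔ chevF4.diagonalSubgroup F :=
      (sup_le le_sup_right (le_sup_of_le_left hcl)) hnT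
    have hgle : b₁ * (l.map (nU (F := F) chevF4 f4m)).prod * b₂ ∈
        f4R1 F ⊔ chevF4.diagonalSubgroup F :=
      mul_mem (mul_mem (hBle hb₁) hnle) (hBle hb₂)
    have hHn : chevF4.diagonalSubgroup F ≤
        Subgroup.normalizer (f4R1 F : Set (GL chevF4.Idx F)) := by
      apply diag_le_normalizer_rootCl chevF4 f4m
      rintro s (hs | rfl | rfl)
      · exact hs.1
      · decide
      · decide
    obtain ⟨ρ, hρ, h, hh, e⟩ := exists_mul_of_mem_sup _ _ hHn _ hgle
    rw [e] at hgz ⊢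
    have hρz := hRc ρ hρ
    have hhz : h * (xU chevF4 f4m 47 1 * xU chevF4 f4m 44 1) =
        (xU chevF4 f4m 47 1 * xU chevF4 f4m 44 1) * h := by
      generalize xU chevF4 f4m 47 (1 : F) * xU chevF4 f4m 44 1 = z at hgz hρz ⊢
      have e7 : ρ * (h * z) = ρ * (z * h) := by
        calc ρ * (h * z) = ρ * h * z := by group
          _ = z * (ρ * h) := hgz
          _ = (z * ρ) * h := by group
          _ = (ρ * z) * h := by rw [hρz]
          _ = ρ * (z * h) := by group
      exact mul_left_cancel e7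
    refine mul_mem hρ ?_
    rw [diagonalSubgroup_eq_range chevF4 f4m] at hh
    obtain ⟨c, rfl⟩ := hh
    have e47 := torus_mul_xU chevF4 f4m c 47 (by decide) (1 : F)
    have e44 := torus_mul_xU chevF4 f4m c 44 (by decide) (1 : F)
    rw [mul_one, chiL_single chevF4 (cx chevF4 c) 47 3 hO47.hk hO47.cart] at e47
    rw [mul_one, chiL_single chevF4 (cx chevF4 c) 44 0 hO44.hk hO44.cart] at e44
    have e3 : yp chevF4 f4m f4S1 (fun r => if r = 47 then cx chevF4 c 3 else cx chevF4 c 0) =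
        yp chevF4 f4m f4S1 (fun r => if r = 47 then 1 else 1) := by
      rw [f4_yp1, f4_yp1]
      generalize xU chevF4 f4m 47 (1 : F) = z1 at hhz e47 ⊢
      generalize xU chevF4 f4m 44 (1 : F) = z2 at hhz e44 ⊢
      generalize xU chevF4 f4m 47 (cx chevF4 c 3) = y1 at e47 ⊢
      generalize xU chevF4 f4m 44 (cx chevF4 c 0) = y2 at e44 ⊢
      generalize torusHom (F := F) chevF4 c = h at hhz e47 e44 ⊢
      have e5 : y1 * y2 * h = z1 * z2 * h := by
        calc y1 * y2 * h = y1 * (y2 * h) := by group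
          _ = y1 * (h * z2) := by rw [e44]
          _ = (y1 * h) * z2 := by group
          _ = (h * z1) * z2 := by rw [e47]
          _ = h * (z1 * z2) := by group
          _ = z1 * z2 * h := hhz
      exact mul_right_cancel e5
    have e4 := yp_inj chevF4 f4m f4S1 (by decide) f4S1_pos commS_f4S1 _ _ e3
    have c3 : cx chevF4 c 3 = 1 := by simpa using e4 47 (by decide)
    have c0 : cx chevF4 c 0 = 1 := by simpa using e4 44 (by decide)
    apply torus_mem_of chevF4 f4m
    intro i hi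
    have hi4 : i < 4 := hi
    interval_cases i
    · exact Or.inl c0
    · exact Or.inr (fun t => ⟨hxR _ t (Or.inl (by decide +kernel)),
        hxR _ t (Or.inr (Or.inl (by decide +kernel)))⟩)
    · exact Or.inr (fun t => ⟨hxR _ t (Or.inl (by decide +kernel)),
        hxR _ t (Or.inr (Or.inr (by decide +kernel)))⟩)
    · exact Or.inl c3
  · intro g hg
    refine ⟨rootCl_le_group chevF4 f4m _ hg, ?_⟩
    show g ∈ Subgroup.centralizer _
    rw [Subgroup.mem_centralizer_iff]
    intro y hy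
    rw [Set.mem_singleton_iff.mp hy]
    exact (hRc g hg).symm

end Cfsg.Agent.Lib.Helper36
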