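import Cfsg.Agent.Lib.Helper36.F4InvC

set_option autoImplicit false

/-!
# The involution `x₃₉(1) x₄₅(1)` of `F₄` in characteristic `2`: conjugates under `B`

The six root subgroups `X₃₉ X₄₀ X₄₄ X₄₅ X₄₆ X₄₇` form an abelian normal subgroup of `B`; the
conjugates of `x₃₉(1) x₄₅(1)` under `U` keep the parameters at `39` and `45`.
-/

namespace Cfsg.Agent.Lib.Helper36

open Cfsg Cfsg.Lie Cfsg.Agent.Lib.Helper18

universe u

variable {F : Type u} [Field F]

/-- the positive roots of `F₄` -/
def f4P : List ℕ :=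
  [24, 25, 26, 27, 28, 29, 30, 31, 32, 33, 34, 35, 36, 37, 38, 39, 40, 41, 42, 43, 44, 45, 46, 47]

/-- the positive roots of `F₄` other than `p₁` and `p₄` -/
def f4T : List ℕ :=
  [25, 26, 27, 28, 29, 30, 31, 32, 34, 35, 36, 37, 38, 39, 40, 41, 42, 43, 44, 45, 46, 47]

/-- the roots `±p₁`, `±p₄` -/
def f4Lr : List ℕ := [33, 14, 24, 23]

/-- the positive roots whose root subgroups do not centralise `x₃₉(1) x₄₅(1)` -/
def f4bad : List ℕ := [27, 25, 34, 26]

theorem mem_f4P (r : ℕ) (hr : chevF4.IsPosRoot r) : r ∈ f4P := by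
  have h := (mem_posRoots_iff chevF4 r).mpr hr
  rwa [posRoots_f4] at h

theorem f4phi_T : ∀ g < 48, (0 < f4phi g ↔ g ∈ f4T) := by decide +kernel

theorem f4T_pos : ∀ s ∈ f4T, chevF4.IsPosRoot s := by decide +kernel

theorem f4T_comm : ∀ r ∈ f4P, ∀ s ∈ f4T,
    s = r ∨ (s ≠ chevF4.neg r ∧ ∀ c ∈ chevF4.commTerms r s, c.1 ∈ f4T) := by
  decide +kernel

theorem f4P_notT : ∀ r ∈ f4P, r ∉ f4T → r = 33 ∨ r = 24 := by decide

theorem f4R2_chk : ∀ s < 48, (s ∈ f4Lr ∨ (chevF4.IsPosRoot s ∧ s ∉ f4bad)) →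
    evenChk chevF4 39 s = true ∧ evenChk chevF4 45 s = true := by
  decide +kernel

theorem f4_gen_chk : ∀ r ∈ f4P, r ∉ [27, 34, 33, 25, 26, 24] →
    ∀ s ∈ f4S2, evenChk chevF4 s r = true := by
  decide +kernel

/-- the product with a single non-trivial parameter -/
theorem yp_single (D : ChevalleyDatum)
    (hD : D ∈ [chevG2, chevB2, chevD4, chevF4, chevE6, chevE7, chevE8]) (S : List ℕ)
    (hS : S.Nodup) (k : ℕ) (hk : k ∈ S) (c : F) :
    yp D hD S (fun s => if s = k then c else 0) = xU D hD k c := by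
  induction S with
  | nil => simp at hk
  | cons s L ih =>
    have hnd := List.nodup_cons.mp hS
    rw [yp_cons]
    by_cases hs : s = k
    · subst hs
      have h1 : yp D hD L (fun s' => if s' = s then c else 0) = yp D hD L (fun _ => (0 : F)) := by
        apply yp_congr
        intro r hr
        have : r ≠ s := fun h => hnd.1 (h ▸ hr)
        rw [if_neg this]
      rw [h1, yp_zero, mul_one, if_pos rfl]
    · have hkL : k ∈ L := by
        rcases List.mem_cons.mp hk with h | h
        · exact absurd h.symm hs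
        · exact h
      rw [if_neg hs, xU_zero, one_mul, ih hnd.2 hkL]

/-- moving an element past a product of root elements, when it commutes with all but one of
them -/
theorem mul_yp_single (D : ChevalleyDatum)
    (hD : D ∈ [chevG2, chevB2, chevD4, chevF4, chevE6, chevE7, chevE8]) (L : List ℕ)
    (hnd : L.Nodup) (x : GL D.Idx F) (a : ℕ → F) (r₀ : ℕ) (z : GL D.Idx F)
    (hz : ∀ s ∈ L, Commute z (xU D hD s (a s)))
    (h0 : x * xU D hD r₀ (a r₀) = xU D hD r₀ (a r₀) * x * z)
    (h1 : ∀ s ∈ L, s ≠ r₀ → x * xU D hD s (a s) = xU D hD s (a s) * x) :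
    x * yp D hD L a = yp D hD L a * x * (if r₀ ∈ L then z else 1) := by
  induction L with
  | nil => simp [yp]
  | cons s L ih =>
    have hnd' := List.nodup_cons.mp hnd
    have ih' := ih hnd'.2 (fun s' hs' => hz s' (List.mem_cons_of_mem _ hs'))
      (fun s' hs' => h1 s' (List.mem_cons_of_mem _ hs'))
    rw [yp_cons]
    by_cases hs : s = r₀
    · subst hs
      rw [if_neg hnd'.1] at ih'
      rw [if_pos List.mem_cons_self]
      have hzL : Commute z (yp D hD L a) := by
        unfold yp
        apply Commute.list_prod_right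
        intro y hy
        obtain ⟨s', hs', rfl⟩ := List.mem_map.mp hy
        exact hz s' (List.mem_cons_of_mem _ hs')
      generalize xU D hD s (a s) = xs at h0 ⊢
      generalize yp D hD L a = P at ih' hzL ⊢
      calc x * (xs * P) = (x * xs) * P := by group
        _ = xs * x * (z * P) := by rw [h0]; group
        _ = xs * (x * P) * z := by rw [hzL.eq]; group
        _ = xs * P * x * z := by rw [ih']; group
    · have e1 := h1 s List.mem_cons_self hs
      have hif : (if r₀ ∈ s :: L then z else 1) = (if r₀ ∈ L then z else 1) := by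
        by_cases hm : r₀ ∈ L
        · rw [if_pos hm, if_pos (List.mem_cons_of_mem _ hm)]
        · rw [if_neg hm, if_neg]
          intro h
          rcases List.mem_cons.mp h with h | h
          · exact hs h.symm
          · exact hm h
      rw [hif]
      generalize (if r₀ ∈ L then z else 1) = E at ih' ⊢
      generalize xU D hD s (a s) = xs at e1 ⊢
      generalize yp D hD L a = P at ih' ⊢
      calc x * (xs * P) = (x * xs) * P := by group
        _ = xs * (x * P) := by rw [e1]; group
        _ = xs * P * x * E := by rw [ih']; group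

/-- conjugation of the six-root product by a root element with one non-trivial commutator -/
theorem f4_special [CharP F 2] (r r₀ k : ℕ) (cc : ℤ) (hr : r < chevF4.nroots)
    (hr₀ : r₀ ∈ f4S2) (hk : k ∈ f4S2) (hkr : k ≠ r₀)
    (hT : chevF4.commTerms r₀ r = [(k, cc, 1, 1)]) (hcc : cc % 2 = 1) (hne : r ≠ r₀)
    (hnn : r ≠ chevF4.neg r₀) (hchk : ∀ s ∈ f4S2, s ≠ r₀ → evenChk chevF4 s r = true)
    (t : F) (a : ℕ → F) :
    xU chevF4 f4m r t * yp chevF4 f4m f4S2 a * (xU chevF4 f4m r t)⁻¹ =
      yp chevF4 f4m f4S2 (fun s => a s + if s = k then a r₀ * t else 0) := by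
  have h0 := xU_comm_single (F := F) chevF4 f4m r₀ r k cc (f4S2_lt r₀ hr₀) hr hne hnn hT hcc
    (a r₀) t
  have h1 : ∀ s ∈ f4S2, s ≠ r₀ →
      xU chevF4 f4m r t * xU chevF4 f4m s (a s) = xU chevF4 f4m s (a s) * xU chevF4 f4m r t :=
    fun s hs hsr => xU_comm_of_chk chevF4 f4m s r (f4S2_lt s hs) hr (hchk s hs hsr) (a s) t
  have h2 := mul_yp_single chevF4 f4m f4S2 (by decide) (xU chevF4 f4m r t) a r₀
    (xU chevF4 f4m k (a r₀ * t)) (fun s hs => commS_f4S2 k hk s hs _ _) h0 h1
  rw [if_pos hr₀] at h2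
  have h3 : xU chevF4 f4m r t * xU chevF4 f4m k (a r₀ * t) =
      xU chevF4 f4m k (a r₀ * t) * xU chevF4 f4m r t :=
    xU_comm_of_chk chevF4 f4m k r (f4S2_lt k hk) hr (hchk k hk hkr) (a r₀ * t) t
  rw [← yp_mul chevF4 f4m f4S2 commS_f4S2, yp_single chevF4 f4m f4S2 (by decide) k hk]
  generalize xU chevF4 f4m r t = x at h2 h3 ⊢
  generalize xU chevF4 f4m k (a r₀ * t) = z at h2 h3 ⊢
  generalize yp chevF4 f4m f4S2 a = Y at h2 ⊢
  calc x * Y * x⁻¹ = Y * (x * z) * x⁻¹ := by rw [h2]; group
    _ = Y * z := by rw [h3]; group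

/-- conjugation of the six-root product by a positive root element -/
theorem f4_gen_conj2 [CharP F 2] (r : ℕ) (hr : chevF4.IsPosRoot r) (t : F) (a : ℕ → F) :
    ∃ a' : ℕ → F, a' 39 = a 39 ∧ a' 45 = a 45 ∧
      xU chevF4 f4m r t * yp chevF4 f4m f4S2 a * (xU chevF4 f4m r t)⁻¹ =
        yp chevF4 f4m f4S2 a' := by
  by_cases hsp : r ∈ [27, 34, 33, 25, 26, 24]
  · simp only [List.mem_cons, List.not_mem_nil, or_false] at hsp
    rcases hsp with rfl | rfl | rfl | rfl | rfl | rfl
    · exact ⟨_, by simp, by simp, f4_special 27 39 40 (-1) (by decide) (by decide) (by decide)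
        (by decide) (by decide +kernel) (by decide) (by decide) (by decide +kernel)
        (by decide +kernel) t a⟩
    · exact ⟨_, by simp, by simp, f4_special 34 39 44 (-1) (by decide) (by decide) (by decide)
        (by decide) (by decide +kernel) (by decide) (by decide) (by decide +kernel)
        (by decide +kernel) t a⟩
    · exact ⟨_, by simp, by simp, f4_special 33 40 44 (-1) (by decide) (by decide) (by decide)
        (by decide) (by decide +kernel) (by decide) (by decide) (by decide +kernel)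
        (by decide +kernel) t a⟩
    · exact ⟨_, by simp, by simp, f4_special 25 45 46 (-1) (by decide) (by decide) (by decide)
        (by decide) (by decide +kernel) (by decide) (by decide) (by decide +kernel)
        (by decide +kernel) t a⟩
    · exact ⟨_, by simp, by simp, f4_special 26 45 47 (-1) (by decide) (by decide) (by decide)
        (by decide) (by decide +kernel) (by decide) (by decide) (by decide +kernel)
        (by decide +kernel) t a⟩
    · exact ⟨_, by simp, by simp, f4_special 24 46 47 (-1) (by decide) (by decide) (by decide)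
        (by decide) (by decide +kernel) (by decide) (by decide) (by decide +kernel)
        (by decide +kernel) t a⟩
  · refine ⟨a, rfl, rfl, ?_⟩
    have hc : Commute (xU chevF4 f4m r t) (yp chevF4 f4m f4S2 a) := by
      unfold yp
      apply Commute.list_prod_right
      intro y hy
      obtain ⟨s, hs, rfl⟩ := List.mem_map.mp hy
      exact xU_comm_of_chk chevF4 f4m s r (f4S2_lt s hs) hr.1
        (f4_gen_chk r (mem_f4P r hr) hsp s hs) (a s) t
    rw [hc.eq]
    group

/-- the conjugates of the six-root products under `U` keep the parameters at `39` and `45` -/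
theorem f4_unip_conj2 [CharP F 2] (u : GL chevF4.Idx F) (hu : u ∈ chevF4.posUnipotent F) :
    ∀ a : ℕ → F, ∃ a' : ℕ → F, a' 39 = a 39 ∧ a' 45 = a 45 ∧
      u * yp chevF4 f4m f4S2 a * u⁻¹ = yp chevF4 f4m f4S2 a' := by
  unfold ChevalleyDatum.posUnipotent at hu
  induction hu using Subgroup.closure_induction'' with
  | mem x hx =>
    obtain ⟨r, t, hr, hx⟩ := hx
    rw [eq_xU chevF4 f4m r t x hx]
    exact f4_gen_conj2 r hr t
  | inv_mem x hx =>
    obtain ⟨r, t, hr, hx⟩ := hx
    rw [eq_xU chevF4 f4m r t x hx, xU_inv]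
    exact f4_gen_conj2 r hr (-t)
  | one =>
    intro a
    exact ⟨a, rfl, rfl, by group⟩
  | mul x y _ _ hx hy =>
    intro a
    obtain ⟨a₁, h39, h45, e₁⟩ := hy a
    obtain ⟨a₂, h39', h45', e₂⟩ := hx a₁
    refine ⟨a₂, h39'.trans h39, h45'.trans h45, ?_⟩
    rw [← e₂, ← e₁]
    group

/-- the parameters of `x₃₉(p) x₄₅(q)` -/
def f4a (p q : F) : ℕ → F := fun r => if r = 39 then p else if r = 45 then q else 0

theorem f4_yp2 (p q : F) : yp chevF4 f4m f4S2 (f4a p q) =
    xU chevF4 f4m 39 p * xU chevF4 f4m 45 q := by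
  simp [yp, f4S2, f4a, xU_zero]

/-- the conjugates of `x₃₉(1) x₄₅(1)` under `B` -/
theorem f4_borel_conj2 [CharP F 2] (b : GL chevF4.Idx F) (hb : b ∈ chevF4.borelSubgroup F) :
    ∃ a : ℕ → F, a 39 ≠ 0 ∧ a 45 ≠ 0 ∧
      b * (xU chevF4 f4m 39 1 * xU chevF4 f4m 45 1) * b⁻¹ = yp chevF4 f4m f4S2 a := by
  obtain ⟨u, hu, h, hh, rfl⟩ := exists_mul_of_mem_sup _ _
    (diagonalSubgroup_le_normalizer_posUnipotent (F := F) chevF4 f4m) b hb
  obtain ⟨p, e1⟩ := diag_conjU chevF4 f4m h hh 39 (by decide) (1 : F)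
  obtain ⟨q, e2⟩ := diag_conjU chevF4 f4m h hh 45 (by decide) (1 : F)
  have hp : p ≠ 0 := by
    apply conj_param_ne_zero chevF4 f4m 39 (by decide) h p
    rw [e1]
    group
  have hq : q ≠ 0 := by
    apply conj_param_ne_zero chevF4 f4m 45 (by decide) h q
    rw [e2]
    group
  obtain ⟨a', h39, h45, e3⟩ := f4_unip_conj2 u hu (f4a p q)
  refine ⟨a', ?_, ?_, ?_⟩
  · rw [h39]
    simpa [f4a] using hp
  · rw [h45]
    simpa [f4a] using hq
  · rw [← e3, f4_yp2]
    generalize xU chevF4 f4m 39 (1 : F) = z1 at e1 ⊢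
    generalize xU chevF4 f4m 45 (1 : F) = z2 at e2 ⊢
    generalize xU chevF4 f4m 39 p = y1 at e1 ⊢
    generalize xU chevF4 f4m 45 q = y2 at e2 ⊢
    calc u * h * (z1 * z2) * (u * h)⁻¹ = u * (h * z1) * z2 * h⁻¹ * u⁻¹ := by group
      _ = u * y1 * (h * z2) * h⁻¹ * u⁻¹ := by rw [e1]; group
      _ = u * (y1 * y2) * u⁻¹ := by rw [e2]; group

end Cfsg.Agent.Lib.Helper36
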