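import Cfsg.Agent.Lib.Helper36.F4InvD
import Cfsg.Agent.Lib.Helper36.FoldU

set_option autoImplicit false

/-!
# The involution `x₃₉(1) x₄₅(1)` of `F₄` in characteristic `2`: the centraliser

The words of the elements centralising `x₃₉(1) x₄₅(1)` normalise the subgroup generated by the
root subgroups of the positive roots other than `p₁`, `p₄`; the centraliser is generated by
`X_{±p₁}`, `X_{±p₄}` and the root subgroups of the positive roots other than `p₂`, `p₃`,
`p₁ + p₂`, `p₃ + p₄`.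
-/

namespace Cfsg.Agent.Lib.Helper36

open Cfsg Cfsg.Lie Cfsg.Agent.Lib.Helper18

universe u

variable {F : Type u} [Field F]

/-- the subgroup generated by the root subgroups of the positive roots other than `p₁`, `p₄` -/
def f4UP (F : Type u) [Field F] : Subgroup (GL chevF4.Idx F) :=
  rootCl chevF4 F (fun s => s ∈ f4T)

/-- the subgroup generated by `X_{±p₁}`, `X_{±p₄}` -/
def f4L (F : Type u) [Field F] : Subgroup (GL chevF4.Idx F) :=
  rootCl chevF4 F (fun s => s ∈ f4Lr)

/-- the centraliser of `x₃₉(1) x₄₅(1)` -/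
def f4R2 (F : Type u) [Field F] : Subgroup (GL chevF4.Idx F) :=
  rootCl chevF4 F (fun s => s ∈ f4Lr ∨ (chevF4.IsPosRoot s ∧ s ∉ f4bad))

theorem f4Lr_lt : ∀ s ∈ f4Lr, s < 48 := by decide

theorem f4L_le_R2 : f4L F ≤ f4R2 F := rootCl_mono chevF4 _ _ (fun _ hs => Or.inl hs)

theorem f4UP_le_unip : f4UP F ≤ chevF4.posUnipotent F :=
  rootCl_mono chevF4 _ _ (fun s hs => f4T_pos s hs)

/-- the generators of the centraliser commute with `x₃₉(1) x₄₅(1)` -/
theorem f4R2_comm [CharP F 2] (g : GL chevF4.Idx F) (hg : g ∈ f4R2 F) :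
    g * (xU chevF4 f4m 39 1 * xU chevF4 f4m 45 1) =
      (xU chevF4 f4m 39 1 * xU chevF4 f4m 45 1) * g := by
  have h1 : f4R2 F ≤ Subgroup.centralizer {xU chevF4 f4m 39 (1 : F) * xU chevF4 f4m 45 1} := by
    apply rootCl_le chevF4 f4m
    intro s hs t
    have hs48 : s < 48 := by
      rcases hs with hs | hs
      · exact f4Lr_lt s hs
      · exact hs.1.1
    obtain ⟨c1, c2⟩ := f4R2_chk s hs48 hs
    show _ ∈ Subgroup.centralizer _
    rw [Subgroup.mem_centralizer_iff]
    intro y hy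
    rw [Set.mem_singleton_iff.mp hy]
    have e1 := xU_comm_of_chk (F := F) chevF4 f4m 39 s (by decide) hs48 c1 1 t
    have e2 := xU_comm_of_chk (F := F) chevF4 f4m 45 s (by decide) hs48 c2 1 t
    generalize xU chevF4 f4m 39 (1 : F) = z1 at e1 ⊢
    generalize xU chevF4 f4m 45 (1 : F) = z2 at e2 ⊢
    generalize xU chevF4 f4m s t = xs at e1 e2 ⊢
    calc z1 * z2 * xs = z1 * (z2 * xs) := by group
      _ = (z1 * xs) * z2 := by rw [← e2]; group
      _ = xs * (z1 * z2) := by rw [← e1]; group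
  exact ((Subgroup.mem_centralizer_iff.mp (h1 hg)) _ rfl).symm

/-! ### The overgroup `N(U_P)` -/

theorem f4_borel_le_normalizer_UP :
    chevF4.borelSubgroup F ≤ Subgroup.normalizer (f4UP F : Set (GL chevF4.Idx F)) := by
  refine sup_le ?_ (diag_le_normalizer_rootCl chevF4 f4m _ (fun s hs => (f4T_pos s hs).1))
  unfold ChevalleyDatum.posUnipotent
  rw [Subgroup.closure_le]
  rintro x ⟨r, t, hr, hx⟩
  rw [eq_xU chevF4 f4m r t x hx]
  have key : ∀ t : F, ∀ g ∈ {g : GL chevF4.Idx F | ∃ (s : ℕ) (u : F), s ∈ f4T ∧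
      (g : Matrix chevF4.Idx chevF4.Idx F) = chevF4.x F s u},
      xU chevF4 f4m r t * g * (xU chevF4 f4m r t)⁻¹ ∈ f4UP F := by
    rintro t g ⟨s, u, hs, hg⟩
    rw [eq_xU chevF4 f4m s u g hg]
    by_cases hsr : s = r
    · subst hsr
      have e : xU chevF4 f4m s t * xU chevF4 f4m s u * (xU chevF4 f4m s t)⁻¹ =
          xU chevF4 f4m s u := by
        rw [xU_mul, add_comm, ← xU_mul]
        group
      rw [e]
      exact xU_mem_rootCl chevF4 f4m _ s hs u
    · rcases f4T_comm r (mem_f4P r hr) s hs with h | ⟨hsn, hc⟩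
      · exact absurd h hsr
      · rw [xU_conj_comm chevF4 f4m r s hr.1 (f4T_pos s hs).1 hsr hsn t u]
        exact mul_mem (xU_mem_rootCl chevF4 f4m _ s hs u)
          (commWord_mem chevF4 f4m _ r s (-t) u
            (fun c hc' v => xU_mem_rootCl chevF4 f4m _ c.1 (hc c hc') v))
  show xU chevF4 f4m r t ∈ Subgroup.normalizer (Subgroup.closure
    {g : GL chevF4.Idx F | ∃ (s : ℕ) (u : F), s ∈ f4T ∧
      (g : Matrix chevF4.Idx chevF4.Idx F) = chevF4.x F s u} : Set (GL chevF4.Idx F))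
  apply mem_normalizer_closure
  · exact key t
  · intro g hg
    rw [xU_inv]
    exact key (-t) g hg

/-- a word fixing `39` and `45` permutes the positive roots other than `p₁`, `p₄` -/
theorem f4_word_T (l : List (Fin chevF4.rank)) (h39 : wordF chevF4 l 39 = 39)
    (h45 : wordF chevF4 l 45 = 45) : ∀ s ∈ f4T, wordF chevF4 l s ∈ f4T := by
  intro s hs
  have hs48 : s < 48 := (f4T_pos s hs).1
  have h1 := f4phi_word l h39 h45 s hs48
  have h2 := (f4phi_T s hs48).mpr hs
  exact (f4phi_T _ (wordF_lt chevF4 f4m l s hs48)).mp (by rw [h1]; exact h2)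

theorem f4_word_T' (l : List (Fin chevF4.rank)) (h39 : wordF chevF4 l 39 = 39)
    (h45 : wordF chevF4 l 45 = 45) : ∀ s ∈ f4T, wordF chevF4 l.reverse s ∈ f4T ∧
      wordF chevF4 l (wordF chevF4 l.reverse s) = s := by
  intro s hs
  have hs48 : s < 48 := (f4T_pos s hs).1
  have hs' : wordF chevF4 l.reverse s < 48 := wordF_lt chevF4 f4m l.reverse s hs48
  have hcancel : wordF chevF4 l (wordF chevF4 l.reverse s) = s := by
    have h := wordF_reverse_cancel chevF4 f4m l.reverse s hs48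
    rwa [List.reverse_reverse] at h
  refine ⟨?_, hcancel⟩
  have h1 := f4phi_word l h39 h45 _ hs'
  rw [hcancel] at h1
  exact (f4phi_T _ hs').mp (by rw [← h1]; exact (f4phi_T s hs48).mpr hs)

theorem f4_word_mem_normalizer_UP (l : List (Fin chevF4.rank)) (h39 : wordF chevF4 l 39 = 39)
    (h45 : wordF chevF4 l 45 = 45) :
    (l.map (nU (F := F) chevF4 f4m)).prod ∈
      Subgroup.normalizer (f4UP F : Set (GL chevF4.Idx F)) := by
  obtain ⟨ε, hε⟩ := word_smap (F := F) chevF4 f4m l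
  show _ ∈ Subgroup.normalizer (Subgroup.closure
    {g : GL chevF4.Idx F | ∃ (s : ℕ) (u : F), s ∈ f4T ∧
      (g : Matrix chevF4.Idx chevF4.Idx F) = chevF4.x F s u} : Set (GL chevF4.Idx F))
  apply mem_normalizer_closure
  · rintro g ⟨s, u, hs, hg⟩
    rw [eq_xU chevF4 f4m s u g hg]
    have e1 := hε.conjU f4m s (f4T_pos s hs).1 u
    have e2 : (l.map (nU (F := F) chevF4 f4m)).prod * xU chevF4 f4m s u *
        ((l.map (nU (F := F) chevF4 f4m)).prod)⁻¹ = xU chevF4 f4m (wordF chevF4 l s) (ε s * u) := by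
      rw [e1]
      group
    rw [e2]
    exact xU_mem_rootCl chevF4 f4m _ _ (f4_word_T l h39 h45 s hs) _
  · rintro g ⟨s, u, hs, hg⟩
    rw [eq_xU chevF4 f4m s u g hg]
    obtain ⟨hs'T, hcancel⟩ := f4_word_T' l h39 h45 s hs
    have hs'lt := (f4T_pos _ hs'T).1
    have e1 := hε.conjU f4m (wordF chevF4 l.reverse s) hs'lt (ε (wordF chevF4 l.reverse s) * u)
    have hε2 : ε (wordF chevF4 l.reverse s) * (ε (wordF chevF4 l.reverse s) * u) = u := by
      rcases hε.sign _ hs'lt with h | h <;> rw [h] <;> ring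
    rw [hcancel, hε2] at e1
    have e2 : ((l.map (nU (F := F) chevF4 f4m)).prod)⁻¹ * xU chevF4 f4m s u *
        ((l.map (nU (F := F) chevF4 f4m)).prod)⁻¹⁻¹ =
        xU chevF4 f4m (wordF chevF4 l.reverse s) (ε (wordF chevF4 l.reverse s) * u) := by
      generalize (l.map (nU (F := F) chevF4 f4m)).prod = n at e1 ⊢
      generalize xU chevF4 f4m (wordF chevF4 l.reverse s) (ε (wordF chevF4 l.reverse s) * u) = x'
        at e1 ⊢
      calc n⁻¹ * xU chevF4 f4m s u * n⁻¹⁻¹ = n⁻¹ * (xU chevF4 f4m s u * n) := by group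
        _ = n⁻¹ * (n * x') := by rw [e1]
        _ = x' := by group
    rw [e2]
    exact xU_mem_rootCl chevF4 f4m _ _ hs'T _

theorem xU_eq_one (D : ChevalleyDatum)
    (hD : D ∈ [chevG2, chevB2, chevD4, chevF4, chevE6, chevE7, chevE8]) (r : ℕ)
    (hr : r < D.nroots) (t : F) (h : xU D hD r t = 1) : t = 0 := by
  have h2 : D.x F r t = 1 := by
    have := congrArg (fun g : GL D.Idx F => (g : Matrix D.Idx D.Idx F)) h
    simpa only [coe_xU, Units.val_one] using this
  exact (Cfsg.Agent.S1024.result D hD r hr t).mp h2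

/-- the fundamental `n_p` normalising `U_P` are `n_{p₁}` and `n_{p₄}` -/
theorem f4_nU_normalizer_UP (a : Fin chevF4.rank)
    (ha : nU (F := F) chevF4 f4m a ∈ Subgroup.normalizer (f4UP F : Set (GL chevF4.Idx F))) :
    a.val = 0 ∨ a.val = 3 := by
  by_contra hcon
  have ha4 : a.val < 4 := a.isLt
  have hpT : chevF4.simple a.val ∈ f4T := by
    have h12 : a.val = 1 ∨ a.val = 2 := by omega
    rcases h12 with h | h <;> rw [h] <;> decide +kernel
  have hS := sgnOK_all chevF4 f4m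
  have hplt := simple_lt chevF4 f4m a.val a.isLt
  have h1 := conj_mem_of_mem_normalizer _ ha (xU_mem_rootCl chevF4 f4m _ _ hpT (1 : F))
  obtain ⟨η, hη⟩ := nU_smap (F := F) chevF4 f4m a
  have e5 := hη.conjU f4m _ hplt (1 : F)
  have hrefl : chevF4.reflectRoot a.val (chevF4.simple a.val) =
      chevF4.neg (chevF4.simple a.val) := by
    unfold ChevalleyDatum.reflectRoot
    simp
  rw [hrefl] at e5
  have e6 : nU (F := F) chevF4 f4m a * xU chevF4 f4m (chevF4.simple a.val) 1 *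
      (nU (F := F) chevF4 f4m a)⁻¹ =
      xU chevF4 f4m (chevF4.neg (chevF4.simple a.val)) (η (chevF4.simple a.val) * 1) := by
    rw [e5]
    group
  rw [e6] at h1
  have hB : xU chevF4 f4m (chevF4.neg (chevF4.simple a.val)) (η (chevF4.simple a.val) * 1) ∈
      chevF4.borelSubgroup F :=
    (le_sup_left : chevF4.posUnipotent F ≤ chevF4.borelSubgroup F) (f4UP_le_unip h1)
  have hV : xU chevF4 f4m (chevF4.neg (chevF4.simple a.val)) (η (chevF4.simple a.val) * 1) ∈
      chevF4.negUnipotent F :=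
    Subgroup.subset_closure ⟨_, _, hS.neg_simple a.val a.isLt, coe_xU chevF4 f4m _ _⟩
  have h2 := borel_inf_negU chevF4 f4m _ hB hV
  rw [h2] at e6
  have h3 : xU chevF4 f4m (chevF4.simple a.val) (1 : F) = 1 := by
    generalize nU (F := F) chevF4 f4m a = n at e6
    generalize xU chevF4 f4m (chevF4.simple a.val) (1 : F) = z at e6 ⊢
    have h4 : z = n⁻¹ * (n * z * n⁻¹) * n := by group
    rw [h4, e6]
    group
  exact one_ne_zero (xU_eq_one chevF4 f4m _ hplt (1 : F) h3)

/-- the last factor of the canonical form of an element whose word fixes `39` and `45` lies in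
`X_{p₁} X_{p₄}` -/
theorem f4_tail_mem (h₀ : GL chevF4.Idx F) (hh₀ : h₀ ∈ chevF4.diagonalSubgroup F)
    (l : List (Fin chevF4.rank)) (h39 : wordF chevF4 l 39 = 39) (h45 : wordF chevF4 l 45 = 45)
    (u : GL chevF4.Idx F)
    (hu : u ∈ Subgroup.closure {x : GL chevF4.Idx F | ∃ (r : ℕ) (t : F), chevF4.IsPosRoot r ∧
      (chevF4.rootSubgroup F r).map
        (MulAut.conj (h₀ * (l.map (nU (F := F) chevF4 f4m)).prod)).toMonoidHom ≤
          chevF4.negUnipotent F ∧
      (x : Matrix chevF4.Idx chevF4.Idx F) = chevF4.x F r t}) :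
    u ∈ f4L F := by
  refine (Subgroup.closure_le _).mpr ?_ hu
  rintro x ⟨r, t, hr, hle, hx⟩
  have hr' : r = 33 ∨ r = 24 := by
    apply f4P_notT r (mem_f4P r hr)
    intro hrT
    obtain ⟨ε, hε⟩ := word_smap (F := F) chevF4 f4m l
    have e1 := hε.conjU f4m r hr.1 1
    obtain ⟨c, e2⟩ := diag_conjU chevF4 f4m h₀ hh₀ (wordF chevF4 l r) (hε.lt r hr.1) (ε r * 1)
    have hpos : chevF4.IsPosRoot (wordF chevF4 l r) := f4T_pos _ (f4_word_T l h39 h45 r hrT)
    have hmemV : (h₀ * (l.map (nU (F := F) chevF4 f4m)).prod) * xU chevF4 f4m r 1 *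
        (h₀ * (l.map (nU (F := F) chevF4 f4m)).prod)⁻¹ ∈ chevF4.negUnipotent F :=
      hle (Subgroup.mem_map.mpr ⟨xU chevF4 f4m r 1,
        (mem_rootSubgroup_iff chevF4 f4m r _).mpr ⟨1, rfl⟩, rfl⟩)
    have e3 : (h₀ * (l.map (nU (F := F) chevF4 f4m)).prod) * xU chevF4 f4m r 1 *
        (h₀ * (l.map (nU (F := F) chevF4 f4m)).prod)⁻¹ = xU chevF4 f4m (wordF chevF4 l r) c := by
      generalize (l.map (nU (F := F) chevF4 f4m)).prod = n at e1 ⊢
      generalize xU chevF4 f4m r (1 : F) = x₁ at e1 ⊢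
      generalize xU chevF4 f4m (wordF chevF4 l r) (ε r * 1) = x₂ at e1 e2 ⊢
      generalize xU chevF4 f4m (wordF chevF4 l r) c = x₃ at e2 ⊢
      calc h₀ * n * x₁ * (h₀ * n)⁻¹ = h₀ * (n * x₁) * n⁻¹ * h₀⁻¹ := by group
        _ = (h₀ * x₂) * h₀⁻¹ := by rw [e1]; group
        _ = x₃ := by rw [e2]; group
    have h1 : xU chevF4 f4m (wordF chevF4 l r) c = 1 := by
      apply borel_inf_negU chevF4 f4m
      · exact xU_mem_borel chevF4 f4m _ hpos c
      · rw [← e3]
        exact hmemV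
    have h2 : xU chevF4 f4m r (1 : F) = 1 := by
      rw [h1] at e3
      generalize h₀ * (l.map (nU (F := F) chevF4 f4m)).prod = n at e3
      generalize xU chevF4 f4m r (1 : F) = x₁ at e3 ⊢
      have h3 : x₁ = n⁻¹ * (n * x₁ * n⁻¹) * n := by group
      rw [h3, e3]
      group
    exact one_ne_zero (xU_eq_one chevF4 f4m r hr.1 (1 : F) h2)
  rw [eq_xU chevF4 f4m r t x hx]
  rcases hr' with rfl | rfl
  · exact xU_mem_rootCl chevF4 f4m _ 33 (by decide) t
  · exact xU_mem_rootCl chevF4 f4m _ 24 (by decide) t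

end Cfsg.Agent.Lib.Helper36
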