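import Cfsg.Agent.Lib.Helper36.F4InvE

set_option autoImplicit false

/-!
# The involution `x₃₉(1) x₄₅(1)` of `F₄` in characteristic `2`: the centraliser in `B`, and
the centraliser
-/

namespace Cfsg.Agent.Lib.Helper36

open Cfsg Cfsg.Lie Cfsg.Agent.Lib.Helper18

universe u

variable {F : Type u} [Field F]

theorem f4_chi39 (c : ℕ → F) :
    chiL chevF4 c (List.range chevF4.rank) 39 = (c 1)⁻¹ * c 2 := by
  have hr : List.range chevF4.rank = [0, 1, 2, 3] := by decide
  have h0 : chevF4.cartan 0 39 = 0 := by decide +kernel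
  have h1 : chevF4.cartan 1 39 = -1 := by decide +kernel
  have h2 : chevF4.cartan 2 39 = 1 := by decide +kernel
  have h3 : chevF4.cartan 3 39 = 0 := by decide +kernel
  unfold chiL
  rw [hr]
  simp [h0, h1, h2, h3]

theorem f4_chi45 (c : ℕ → F) :
    chiL chevF4 c (List.range chevF4.rank) 45 = c 1 ^ 2 * (c 2)⁻¹ := by
  have hr : List.range chevF4.rank = [0, 1, 2, 3] := by decide
  have h0 : chevF4.cartan 0 45 = 0 := by decide +kernel
  have h1 : chevF4.cartan 1 45 = 2 := by decide +kernel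
  have h2 : chevF4.cartan 2 45 = -1 := by decide +kernel
  have h3 : chevF4.cartan 3 45 = 0 := by decide +kernel
  unfold chiL
  rw [hr]
  simp [h0, h1, h2, h3]

/-- the torus elements centralising `x₃₉(1) x₄₅(1)` -/
theorem f4_torus_cent2 (c : Fin chevF4.rank → Fˣ)
    (h1 : chiL chevF4 (cx chevF4 c) (List.range chevF4.rank) 39 = 1)
    (h2 : chiL chevF4 (cx chevF4 c) (List.range chevF4.rank) 45 = 1) :
    torusHom (F := F) chevF4 c ∈ f4R2 F := by
  rw [f4_chi39] at h1
  rw [f4_chi45] at h2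
  have hc1 := cx_ne_zero chevF4 c 1
  have hc2 := cx_ne_zero chevF4 c 2
  have e12 : cx chevF4 c 1 = cx chevF4 c 2 := (inv_mul_eq_one₀ hc1).mp h1
  have e1 : cx chevF4 c 2 = 1 := by
    rw [e12] at h2
    field_simp at h2
    exact h2
  apply torus_mem_of chevF4 f4m
  intro i hi
  have hi4 : i < 4 := hi
  interval_cases i
  · exact Or.inr (fun t => ⟨xU_mem_rootCl chevF4 f4m _ _ (Or.inl (by decide +kernel)) t,
      xU_mem_rootCl chevF4 f4m _ _ (Or.inl (by decide +kernel)) t⟩)
  · exact Or.inl (e12.trans e1)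
  · exact Or.inl e1
  · exact Or.inr (fun t => ⟨xU_mem_rootCl chevF4 f4m _ _ (Or.inl (by decide +kernel)) t,
      xU_mem_rootCl chevF4 f4m _ _ (Or.inl (by decide +kernel)) t⟩)

/-! ### The centraliser in `U` -/

/-- the weight `p₁ + 2 p₂ + 2 p₃ + p₄` on the roots of `F₄` -/
def f4mu : List ℤ :=
  [-18, -17, -15, -13, -11, -9, -8, -12, -10, -8, -7, -6, -5, -3, -1, -9, -7, -6, -5, -4, -2, -3,
   -2, -1, 1, 2, 3, 2, 4, 5, 6, 7, 9, 1, 3, 5, 6, 7, 8, 10, 12, 8, 9, 11, 13, 15, 17, 18]

/-- the positive roots of weight at least `4`, by increasing weight -/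
def f4O' : List ℕ := [28, 29, 35, 30, 36, 31, 37, 38, 41, 32, 42, 39, 43, 40, 44, 45, 46, 47]

/-- the positive roots by increasing weight -/
def f4O : List ℕ := [33, 24, 27, 25, 34, 26] ++ f4O'

theorem f4mu_wtH : WtH chevF4 (fun r => f4mu.getD r 0) 18 :=
  wtH_of_chk chevF4 f4mu 18 (by decide) (by decide +kernel) (by decide +kernel)
    (by decide +kernel)

theorem f4O_pos : ∀ r ∈ f4O, chevF4.IsPosRoot r ∧ 0 < f4mu.getD r 0 := by decide +kernel

theorem f4O_ord : f4O.Pairwise (fun r r' => r ≠ r' ∧ f4mu.getD r 0 ≤ f4mu.getD r' 0) := by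
  decide +kernel

theorem f4O_all : ∀ r, chevF4.IsPosRoot r → r ∈ f4O := by
  have h : ∀ r ∈ f4P, r ∈ f4O := by decide
  exact fun r hr => h r (mem_f4P r hr)

theorem f4O'_good : ∀ r ∈ f4O', chevF4.IsPosRoot r ∧ r ∉ f4bad := by decide +kernel

theorem yp_append (D : ChevalleyDatum)
    (hD : D ∈ [chevG2, chevB2, chevD4, chevF4, chevE6, chevE7, chevE8]) (A B : List ℕ)
    (a : ℕ → F) : yp D hD (A ++ B) a = yp D hD A a * yp D hD B a := by
  unfold yp
  rw [List.map_append, List.prod_append]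

section special

variable [CharP F 2] (t : F) (a : ℕ → F)

theorem f4_sp26 : xU chevF4 f4m 26 t * yp chevF4 f4m f4S2 a * (xU chevF4 f4m 26 t)⁻¹ =
    yp chevF4 f4m f4S2 (fun s => a s + if s = 47 then a 45 * t else 0) :=
  f4_special 26 45 47 (-1) (by decide) (by decide) (by decide)
    (by decide) (by decide +kernel) (by decide) (by decide) (by decide +kernel)
    (by decide +kernel) t a

theorem f4_sp34 : xU chevF4 f4m 34 t * yp chevF4 f4m f4S2 a * (xU chevF4 f4m 34 t)⁻¹ =
    yp chevF4 f4m f4S2 (fun s => a s + if s = 44 then a 39 * t else 0) :=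
  f4_special 34 39 44 (-1) (by decide) (by decide) (by decide)
    (by decide) (by decide +kernel) (by decide) (by decide) (by decide +kernel)
    (by decide +kernel) t a

theorem f4_sp25 : xU chevF4 f4m 25 t * yp chevF4 f4m f4S2 a * (xU chevF4 f4m 25 t)⁻¹ =
    yp chevF4 f4m f4S2 (fun s => a s + if s = 46 then a 45 * t else 0) :=
  f4_special 25 45 46 (-1) (by decide) (by decide) (by decide)
    (by decide) (by decide +kernel) (by decide) (by decide) (by decide +kernel)
    (by decide +kernel) t a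

theorem f4_sp27 : xU chevF4 f4m 27 t * yp chevF4 f4m f4S2 a * (xU chevF4 f4m 27 t)⁻¹ =
    yp chevF4 f4m f4S2 (fun s => a s + if s = 40 then a 39 * t else 0) :=
  f4_special 27 39 40 (-1) (by decide) (by decide) (by decide)
    (by decide) (by decide +kernel) (by decide) (by decide) (by decide +kernel)
    (by decide +kernel) t a

end special

/-- the elements of `U` centralising `x₃₉(1) x₄₅(1)` -/
theorem f4_unip_cent2 [Fintype F] [CharP F 2] (u : GL chevF4.Idx F)
    (hu : u ∈ chevF4.posUnipotent F)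
    (hc : u * (xU chevF4 f4m 39 1 * xU chevF4 f4m 45 1) =
      (xU chevF4 f4m 39 1 * xU chevF4 f4m 45 1) * u) : u ∈ f4R2 F := by
  obtain ⟨lam, L⟩ := Cfsg.Agent.Lib.Helper17.exists_lamH chevF4 f4m
  obtain ⟨a, ha⟩ := oword_surj (F := F) f4m f4mu_wtH L f4O f4O_pos f4O_ord f4O_all u hu
  have e1 : u = yp chevF4 f4m f4O a := Units.ext (by rw [ha, yp_coe])
  have e2 : yp chevF4 f4m f4O a = xU chevF4 f4m 33 (a 33) * xU chevF4 f4m 24 (a 24) *
      (xU chevF4 f4m 27 (a 27) * (xU chevF4 f4m 25 (a 25) * (xU chevF4 f4m 34 (a 34) *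
        xU chevF4 f4m 26 (a 26)))) * yp chevF4 f4m f4O' a := by
    unfold f4O
    rw [yp_append]
    simp only [yp, List.map_cons, List.map_nil, List.prod_cons, List.prod_nil, mul_one, mul_assoc]
  have hA : xU chevF4 f4m 33 (a 33) * xU chevF4 f4m 24 (a 24) ∈ f4R2 F :=
    mul_mem (xU_mem_rootCl chevF4 f4m _ 33 (Or.inl (by decide)) _)
      (xU_mem_rootCl chevF4 f4m _ 24 (Or.inl (by decide)) _)
  have hN : yp chevF4 f4m f4O' a ∈ f4R2 F := by
    unfold yp
    apply Subgroup.list_prod_mem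
    intro x hx
    obtain ⟨r, hr, rfl⟩ := List.mem_map.mp hx
    exact xU_mem_rootCl chevF4 f4m _ r (Or.inr (f4O'_good r hr)) _
  have cA := f4R2_comm _ hA
  have cN := f4R2_comm _ hN
  rw [e1, e2] at hc
  -- the middle factor centralises
  have hM : xU chevF4 f4m 27 (a 27) * (xU chevF4 f4m 25 (a 25) * (xU chevF4 f4m 34 (a 34) *
      xU chevF4 f4m 26 (a 26))) * yp chevF4 f4m f4S2 (f4a 1 1) *
      (xU chevF4 f4m 27 (a 27) * (xU chevF4 f4m 25 (a 25) * (xU chevF4 f4m 34 (a 34) *
        xU chevF4 f4m 26 (a 26))))⁻¹ = yp chevF4 f4m f4S2 (f4a 1 1) := by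
    rw [f4_yp2]
    generalize xU chevF4 f4m 33 (a 33) * xU chevF4 f4m 24 (a 24) = A at hc cA
    generalize yp chevF4 f4m f4O' a = N at hc cN
    generalize xU chevF4 f4m 27 (a 27) * (xU chevF4 f4m 25 (a 25) * (xU chevF4 f4m 34 (a 34) *
      xU chevF4 f4m 26 (a 26))) = M at hc ⊢
    generalize xU chevF4 f4m 39 (1 : F) * xU chevF4 f4m 45 1 = z at hc cA cN ⊢
    have h3 : A * (M * z) * N = A * (z * M) * N := by
      calc A * (M * z) * N = A * M * (z * N) := by group
        _ = A * M * N * z := by rw [← cN]; group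
        _ = z * (A * M * N) := hc
        _ = (z * A) * M * N := by group
        _ = A * (z * M) * N := by rw [← cA]; group
    have h4 : M * z = z * M := mul_left_cancel (mul_right_cancel h3)
    rw [h4]
    group
  have hM2 : xU chevF4 f4m 27 (a 27) * (xU chevF4 f4m 25 (a 25) * (xU chevF4 f4m 34 (a 34) *
      xU chevF4 f4m 26 (a 26))) * yp chevF4 f4m f4S2 (f4a 1 1) *
      (xU chevF4 f4m 27 (a 27) * (xU chevF4 f4m 25 (a 25) * (xU chevF4 f4m 34 (a 34) *
        xU chevF4 f4m 26 (a 26))))⁻¹ =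
      yp chevF4 f4m f4S2 (fun s => (fun s => (fun s => (fun s => f4a (1 : F) 1 s +
        if s = 47 then f4a (1 : F) 1 45 * a 26 else 0) s +
        if s = 44 then (fun s => f4a (1 : F) 1 s +
          if s = 47 then f4a (1 : F) 1 45 * a 26 else 0) 39 * a 34 else 0) s +
        if s = 46 then (fun s => (fun s => f4a (1 : F) 1 s +
          if s = 47 then f4a (1 : F) 1 45 * a 26 else 0) s +
          if s = 44 then (fun s => f4a (1 : F) 1 s +
            if s = 47 then f4a (1 : F) 1 45 * a 26 else 0) 39 * a 34 else 0) 45 * a 25 else 0) s +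
        if s = 40 then (fun s => (fun s => (fun s => f4a (1 : F) 1 s +
          if s = 47 then f4a (1 : F) 1 45 * a 26 else 0) s +
          if s = 44 then (fun s => f4a (1 : F) 1 s +
            if s = 47 then f4a (1 : F) 1 45 * a 26 else 0) 39 * a 34 else 0) s +
          if s = 46 then (fun s => (fun s => f4a (1 : F) 1 s +
            if s = 47 then f4a (1 : F) 1 45 * a 26 else 0) s +
            if s = 44 then (fun s => f4a (1 : F) 1 s +
              if s = 47 then f4a (1 : F) 1 45 * a 26 else 0) 39 * a 34 else 0) 45 * a 25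
            else 0) 39 * a 27 else 0) := by
    rw [← f4_sp27, ← f4_sp25, ← f4_sp34, ← f4_sp26]
    group
  rw [hM] at hM2
  have e5 := yp_inj chevF4 f4m f4S2 (by decide) f4S2_pos commS_f4S2 _ _ hM2
  have h27 : a 27 = 0 := by
    have := e5 40 (by decide)
    simpa [f4a] using this.symm
  have h34 : a 34 = 0 := by
    have := e5 44 (by decide)
    simpa [f4a] using this.symm
  have h25 : a 25 = 0 := by
    have := e5 46 (by decide)
    simpa [f4a] using this.symm
  have h26 : a 26 = 0 := by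
    have := e5 47 (by decide)
    simpa [f4a] using this.symm
  rw [e1, e2, h27, h34, h25, h26]
  simp only [xU_zero, mul_one]
  exact mul_mem hA hN

/-- the elements of `B` centralising `x₃₉(1) x₄₅(1)` -/
theorem f4_borel_cent2 [Fintype F] [CharP F 2] (b : GL chevF4.Idx F)
    (hb : b ∈ chevF4.borelSubgroup F)
    (hc : b * (xU chevF4 f4m 39 1 * xU chevF4 f4m 45 1) =
      (xU chevF4 f4m 39 1 * xU chevF4 f4m 45 1) * b) : b ∈ f4R2 F := by
  obtain ⟨u, hu, h, hh, rfl⟩ := exists_mul_of_mem_sup _ _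
    (diagonalSubgroup_le_normalizer_posUnipotent (F := F) chevF4 f4m) b hb
  rw [diagonalSubgroup_eq_range chevF4 f4m] at hh
  obtain ⟨c, rfl⟩ := hh
  have e39 := torus_mul_xU chevF4 f4m c 39 (by decide) (1 : F)
  have e45 := torus_mul_xU chevF4 f4m c 45 (by decide) (1 : F)
  rw [mul_one] at e39 e45
  generalize hp : chiL chevF4 (cx chevF4 c) (List.range chevF4.rank) 39 = p at e39
  generalize hq : chiL chevF4 (cx chevF4 c) (List.range chevF4.rank) 45 = q at e45
  obtain ⟨a', h39, h45, e3⟩ := f4_unip_conj2 u hu (f4a p q)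
  have e4 : yp chevF4 f4m f4S2 a' = yp chevF4 f4m f4S2 (f4a 1 1) := by
    rw [← e3, f4_yp2, f4_yp2]
    generalize xU chevF4 f4m 39 (1 : F) = z1 at e39 hc ⊢
    generalize xU chevF4 f4m 45 (1 : F) = z2 at e45 hc ⊢
    generalize xU chevF4 f4m 39 p = y1 at e39 ⊢
    generalize xU chevF4 f4m 45 q = y2 at e45 ⊢
    generalize torusHom (F := F) chevF4 c = h at e39 e45 hc ⊢
    have h5 : u * (y1 * y2) * u⁻¹ * (u * h) = z1 * z2 * (u * h) := by
      calc u * (y1 * y2) * u⁻¹ * (u * h) = u * y1 * (y2 * h) := by group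
        _ = u * (y1 * h) * z2 := by rw [← e45]; group
        _ = u * h * (z1 * z2) := by rw [← e39]; group
        _ = z1 * z2 * (u * h) := hc
    exact mul_right_cancel h5
  have e5 := yp_inj chevF4 f4m f4S2 (by decide) f4S2_pos commS_f4S2 _ _ e4
  have hp1 : p = 1 := by
    have := e5 39 (by decide)
    rw [h39] at this
    simpa [f4a] using this
  have hq1 : q = 1 := by
    have := e5 45 (by decide)
    rw [h45] at this
    simpa [f4a] using this
  rw [hp1] at e39 hp
  rw [hq1] at e45 hq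
  have hh' := f4_torus_cent2 c hp hq
  have hu' : u * (xU chevF4 f4m 39 1 * xU chevF4 f4m 45 1) =
      (xU chevF4 f4m 39 1 * xU chevF4 f4m 45 1) * u := by
    generalize xU chevF4 f4m 39 (1 : F) = z1 at e39 hc ⊢
    generalize xU chevF4 f4m 45 (1 : F) = z2 at e45 hc ⊢
    generalize torusHom (F := F) chevF4 c = h at e39 e45 hc ⊢
    have hhv : h * (z1 * z2) = (z1 * z2) * h := by
      calc h * (z1 * z2) = (h * z1) * z2 := by group
        _ = z1 * (h * z2) := by rw [e39]; group
        _ = z1 * z2 * h := by rw [e45]; group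
    have h6 : u * (z1 * z2) * h = (z1 * z2) * u * h := by
      calc u * (z1 * z2) * h = u * ((z1 * z2) * h) := by group
        _ = u * h * (z1 * z2) := by rw [← hhv]; group
        _ = z1 * z2 * (u * h) := hc
        _ = z1 * z2 * u * h := by group
    exact mul_right_cancel h6
  exact mul_mem (f4_unip_cent2 u hu hu') hh'

/-- the centraliser of `x₃₉(1) x₄₅(1)` in the Chevalley group of type `F₄` in characteristic
`2` -/
theorem f4_mixed_cent2 [Fintype F] [CharP F 2] (v : GL chevF4.Idx F)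
    (hv : (v : Matrix chevF4.Idx chevF4.Idx F) = chevF4.x F 39 1 * chevF4.x F 45 1) :
    chevF4.group F ⊓ Subgroup.centralizer {v} = f4R2 F := by
  have hvU : v = xU chevF4 f4m 39 1 * xU chevF4 f4m 45 1 :=
    Units.ext (by rw [hv, Units.val_mul, coe_xU, coe_xU])
  subst hvU
  apply le_antisymm
  · rintro g ⟨hgG, hgC⟩
    have hgz : g * (xU chevF4 f4m 39 1 * xU chevF4 f4m 45 1) =
        (xU chevF4 f4m 39 1 * xU chevF4 f4m 45 1) * g :=
      ((Subgroup.mem_centralizer_iff.mp hgC) _ rfl).symm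
    obtain ⟨b, hb, n, hn, u, hu, rfl⟩ := canonical_exists chevF4 f4m g hgG
    obtain ⟨h₀, hh₀, l, rfl⟩ := exists_word_of_mem_sup (chevF4.diagonalSubgroup F)
      (nU (F := F) chevF4 f4m) (nU_mem_normalizer chevF4 f4m) (nU_sq_mem chevF4 f4m) n
      (monomial_le_words chevF4 f4m hn)
    have hHB : chevF4.diagonalSubgroup F ≤ chevF4.borelSubgroup F := le_sup_right
    have huB : u ∈ chevF4.borelSubgroup F := by
      refine (le_sup_left : chevF4.posUnipotent F ≤ _) ((Subgroup.closure_mono ?_) hu)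
      rintro x ⟨r, t, hr, -, hx⟩
      exact ⟨r, t, hr, hx⟩
    obtain ⟨a, ha39, ha45, e1⟩ := f4_borel_conj2 u huB
    have hb₁ : (b * h₀)⁻¹ ∈ chevF4.borelSubgroup F := inv_mem (mul_mem hb (hHB hh₀))
    obtain ⟨a', -, -, e2⟩ := f4_borel_conj2 _ hb₁
    have e : (l.map (nU (F := F) chevF4 f4m)).prod * yp chevF4 f4m f4S2 a *
        ((l.map (nU (F := F) chevF4 f4m)).prod)⁻¹ = yp chevF4 f4m f4S2 a' := by
      generalize (l.map (nU (F := F) chevF4 f4m)).prod = N at hgz ⊢
      generalize xU chevF4 f4m 39 (1 : F) * xU chevF4 f4m 45 1 = z at hgz e1 e2 ⊢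
      generalize yp chevF4 f4m f4S2 a = Y at e1 ⊢
      generalize yp chevF4 f4m f4S2 a' = Y' at e2 ⊢
      have s2 : b * h₀ * (N * Y) = z * (b * h₀) * N := by
        have s1 : b * h₀ * (N * Y) * u = z * (b * h₀) * N * u := by
          calc b * h₀ * (N * Y) * u = b * (h₀ * N) * (Y * u) := by group
            _ = b * (h₀ * N) * u * z := by rw [← e1]; group
            _ = z * (b * (h₀ * N) * u) := hgz
            _ = z * (b * h₀) * N * u := by group
        exact mul_right_cancel s1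
      calc N * Y * N⁻¹ = (b * h₀)⁻¹ * (b * h₀ * (N * Y)) * N⁻¹ := by group
        _ = ((b * h₀)⁻¹ * z) * (b * h₀) := by rw [s2]; group
        _ = Y' := by rw [← e2]; group
    obtain ⟨ε, hε⟩ := word_smap (F := F) chevF4 f4m l
    have hsup := yp_support chevF4 f4m f4S2 (by decide) f4S2_pos commS_f4S2 hε
      (wordF chevF4 l.reverse) (fun r hr => wordF_reverse_cancel chevF4 f4m l r hr) a a' e
    obtain ⟨h39, h45⟩ := f4_fix2 l (hsup 39 (by decide) ha39).1 (hsup 45 (by decide) ha45).1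
    have huL : u ∈ f4L F := f4_tail_mem h₀ hh₀ l h39 h45 u hu
    have hnQ := f4_word_mem_normalizer_UP (F := F) l h39 h45
    have hnT := word_mem_of_overgroup chevF4 f4m _ f4_borel_le_normalizer_UP l.length l le_rfl hnQ
    have hcl : Subgroup.closure {g | ∃ a : Fin chevF4.rank, g = nU (F := F) chevF4 f4m a ∧
        g ∈ Subgroup.normalizer (f4UP F : Set (GL chevF4.Idx F))} ≤ f4L F := by
      rw [Subgroup.closure_le]
      rintro x ⟨a, rfl, haQ⟩
      show nU (F := F) chevF4 f4m a ∈ f4L F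
      rw [nU_eq_xU]
      rcases f4_nU_normalizer_UP a haQ with h | h
      · rw [h]
        exact mul_mem (mul_mem (xU_mem_rootCl chevF4 f4m _ _ (by decide +kernel) _)
          (xU_mem_rootCl chevF4 f4m _ _ (by decide +kernel) _))
          (xU_mem_rootCl chevF4 f4m _ _ (by decide +kernel) _)
      · rw [h]
        exact mul_mem (mul_mem (xU_mem_rootCl chevF4 f4m _ _ (by decide +kernel) _)
          (xU_mem_rootCl chevF4 f4m _ _ (by decide +kernel) _))
          (xU_mem_rootCl chevF4 f4m _ _ (by decide +kernel) _)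
    have hnle : (l.map (nU (F := F) chevF4 f4m)).prod ∈ f4L F ⊔ chevF4.diagonalSubgroup F :=
      (sup_le le_sup_right (le_sup_of_le_left hcl)) hnT
    have hHn : chevF4.diagonalSubgroup F ≤
        Subgroup.normalizer (f4L F : Set (GL chevF4.Idx F)) :=
      diag_le_normalizer_rootCl chevF4 f4m _ f4Lr_lt
    obtain ⟨lam, hlam, h', hh', eN⟩ := exists_mul_of_mem_sup _ _ hHn _ (inv_mem hnle)
    have eN' : (l.map (nU (F := F) chevF4 f4m)).prod = h'⁻¹ * lam⁻¹ := by
      rw [← inv_inv (l.map (nU (F := F) chevF4 f4m)).prod, eN]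
      group
    have hmL : lam⁻¹ * u ∈ f4L F := mul_mem (inv_mem hlam) huL
    have hmR : lam⁻¹ * u ∈ f4R2 F := f4L_le_R2 hmL
    have hcm := f4R2_comm _ hmR
    have hb₀ : b * h₀ * h'⁻¹ ∈ chevF4.borelSubgroup F :=
      mul_mem (mul_mem hb (hHB hh₀)) (hHB (inv_mem hh'))
    have eg : b * (h₀ * (l.map (nU (F := F) chevF4 f4m)).prod) * u =
        (b * h₀ * h'⁻¹) * (lam⁻¹ * u) := by
      rw [eN']
      group
    rw [eg] at hgz ⊢
    have hc₀ : b * h₀ * h'⁻¹ * (xU chevF4 f4m 39 1 * xU chevF4 f4m 45 1) =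
        (xU chevF4 f4m 39 1 * xU chevF4 f4m 45 1) * (b * h₀ * h'⁻¹) := by
      generalize b * h₀ * h'⁻¹ = b₀ at hgz ⊢
      generalize lam⁻¹ * u = m at hgz hcm ⊢
      generalize xU chevF4 f4m 39 (1 : F) * xU chevF4 f4m 45 1 = z at hgz hcm ⊢
      have h5 : b₀ * z * m = z * b₀ * m := by
        calc b₀ * z * m = b₀ * (z * m) := by group
          _ = b₀ * m * z := by rw [← hcm]; group
          _ = z * (b₀ * m) := hgz
          _ = z * b₀ * m := by group
      exact mul_right_cancel h5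
    exact mul_mem (f4_borel_cent2 _ hb₀ hc₀) hmR
  · intro g hg
    refine ⟨rootCl_le_group chevF4 f4m _ hg, ?_⟩
    show g ∈ Subgroup.centralizer _
    rw [Subgroup.mem_centralizer_iff]
    intro y hy
    rw [Set.mem_singleton_iff.mp hy]
    exact (f4R2_comm g hg).symm

theorem f4R2_eq : f4R2 F = chevF4.rootSubgroup F 33 ⊔ chevF4.rootSubgroup F 14 ⊔
    chevF4.rootSubgroup F 24 ⊔ chevF4.rootSubgroup F 23 ⊔
    Subgroup.closure {g : GL chevF4.Idx F | ∃ (r : ℕ) (c : F), chevF4.IsPosRoot r ∧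
      r ∉ [27, 25, 34, 26] ∧ (g : Matrix chevF4.Idx chevF4.Idx F) = chevF4.x F r c} := by
  apply le_antisymm
  · unfold f4R2 rootCl
    rw [Subgroup.closure_le]
    rintro g ⟨s, t, hs, hg⟩
    rcases hs with hs | ⟨hs1, hs2⟩
    · simp only [f4Lr, List.mem_cons, List.not_mem_nil, or_false] at hs
      rcases hs with rfl | rfl | rfl | rfl
      · exact Subgroup.mem_sup_left (Subgroup.mem_sup_left (Subgroup.mem_sup_left
          (Subgroup.mem_sup_left (Subgroup.subset_closure ⟨t, hg⟩))))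
      · exact Subgroup.mem_sup_left (Subgroup.mem_sup_left (Subgroup.mem_sup_left
          (Subgroup.mem_sup_right (Subgroup.subset_closure ⟨t, hg⟩))))
      · exact Subgroup.mem_sup_left (Subgroup.mem_sup_left
          (Subgroup.mem_sup_right (Subgroup.subset_closure ⟨t, hg⟩)))
      · exact Subgroup.mem_sup_left (Subgroup.mem_sup_right (Subgroup.subset_closure ⟨t, hg⟩))
    · exact Subgroup.mem_sup_right (Subgroup.subset_closure ⟨s, t, hs1, hs2, hg⟩)
  · refine sup_le (sup_le (sup_le (sup_le ?_ ?_) ?_) ?_) ?_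
    · apply Subgroup.closure_mono
      rintro g ⟨t, hg⟩
      exact ⟨33, t, Or.inl (by decide), hg⟩
    · apply Subgroup.closure_mono
      rintro g ⟨t, hg⟩
      exact ⟨14, t, Or.inl (by decide), hg⟩
    · apply Subgroup.closure_mono
      rintro g ⟨t, hg⟩
      exact ⟨24, t, Or.inl (by decide), hg⟩
    · apply Subgroup.closure_mono
      rintro g ⟨t, hg⟩
      exact ⟨23, t, Or.inl (by decide), hg⟩
    · apply Subgroup.closure_mono
      rintro g ⟨r, c, hr, hr2, hg⟩
      exact ⟨r, c, Or.inr ⟨hr, hr2⟩, hg⟩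

end Cfsg.Agent.Lib.Helper36
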