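import Cfsg.Agent.Lib.Helper36.G2ShortD

set_option autoImplicit false

/-!
# Involutions of `G₂` in characteristic `2`: the group `U` modulo `X₉ X₁₀ X₁₁`

The product of two elements of `U` written as `x₆(a) x₇(b) x₈(c) y` with `y ∈ X₉ X₁₀ X₁₁`.
-/

namespace Cfsg.Agent.Lib.Helper36

open Cfsg Cfsg.Lie Cfsg.Agent.Lib.Helper18

universe u

variable {F : Type u} [Field F]

/-- the commutator formula for two root elements of `G₂`, in the group -/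
theorem g2_commL (r s : ℕ) (hr : r < chevG2.nroots) (hs : s < chevG2.nroots) (hsr : s ≠ r)
    (hsn : s ≠ chevG2.neg r) (t u : F) :
    xU chevG2 g2m s u * xU chevG2 g2m r t =
      xU chevG2 g2m r t * xU chevG2 g2m s u * wordU chevG2 g2m (chevG2.commWord F r s t u) := by
  apply Units.ext
  rw [Units.val_mul, Units.val_mul, Units.val_mul, coe_xU, coe_xU, coe_wordU,
    Cfsg.Agent.Lib.Helper17.cf_of_mem (F := F) chevG2 g2m r s hr hs hsr hsn t u]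

theorem commTerms_6_7 : chevG2.commTerms 6 7 =
    [(8, 1, 1, 1), (9, 1, 1, 2), (10, -1, 1, 3), (11, -2, 2, 3)] := by decide +kernel

theorem commTerms_7_8 : chevG2.commTerms 7 8 =
    [(9, -2, 1, 1), (10, -3, 2, 1), (11, 3, 1, 2)] := by decide +kernel

/-- `x₇(u) x₆(t) = x₆(t) x₇(u) x₈(tu) x₉(tu²) x₁₀(tu³)` in characteristic `2` -/
theorem r_6_7 [CharP F 2] (t u : F) : xU chevG2 g2m 7 u * xU chevG2 g2m 6 t =
    xU chevG2 g2m 6 t * xU chevG2 g2m 7 u * xU chevG2 g2m 8 (t * u) *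
      yel (t * u ^ 2) (t * u ^ 3) 0 := by
  have h2 : (2 : F) = 0 := CharTwo.two_eq_zero
  have hneg : ∀ x : F, -x = x := fun x => CharTwo.neg_eq x
  rw [g2_commL 6 7 (by decide) (by decide) (by decide) (by decide +kernel) t u]
  unfold ChevalleyDatum.commWord wordU yel
  rw [commTerms_6_7]
  simp only [List.map_cons, List.map_nil, List.prod_cons, List.prod_nil, mul_one, pow_one,
    Int.cast_one, Int.cast_neg, Int.cast_ofNat, hneg, h2, one_mul, zero_mul, xU_zero, mul_assoc]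

/-- `x₈(u) x₇(t) = x₇(t) x₈(u) x₁₀(t²u) x₁₁(tu²)` in characteristic `2` -/
theorem r_7_8 [CharP F 2] (t u : F) : xU chevG2 g2m 8 u * xU chevG2 g2m 7 t =
    xU chevG2 g2m 7 t * xU chevG2 g2m 8 u * yel 0 (t ^ 2 * u) (t * u ^ 2) := by
  have h2 : (2 : F) = 0 := CharTwo.two_eq_zero
  have h3 : (3 : F) = 1 := by
    have : (3 : F) = 2 + 1 := by norm_num
    rw [this, h2, zero_add]
  have hneg : ∀ x : F, -x = x := fun x => CharTwo.neg_eq x
  rw [g2_commL 7 8 (by decide) (by decide) (by decide) (by decide +kernel) t u]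
  unfold ChevalleyDatum.commWord wordU yel
  rw [commTerms_7_8]
  simp only [List.map_cons, List.map_nil, List.prod_cons, List.prod_nil, mul_one, pow_one,
    Int.cast_one, Int.cast_neg, Int.cast_ofNat, hneg, h2, h3, one_mul, zero_mul, xU_zero,
    mul_assoc]

/-- the subgroup `X₉ X₁₀ X₁₁` -/
def g2Y (F : Type u) [Field F] [CharP F 2] : Subgroup (GL chevG2.Idx F) where
  carrier := {g | ∃ p q r : F, g = yel p q r}
  mul_mem' := by
    rintro _ _ ⟨p, q, r, rfl⟩ ⟨p', q', r', rfl⟩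
    exact ⟨_, _, _, yel_mul p q r p' q' r'⟩
  one_mem' := ⟨0, 0, 0, yel_zero.symm⟩
  inv_mem' := by
    rintro _ ⟨p, q, r, rfl⟩
    refine ⟨p, q, r, ?_⟩
    have h : yel p q r * yel p q r = 1 := by
      rw [yel_mul, CharTwo.add_self_eq_zero, CharTwo.add_self_eq_zero, CharTwo.add_self_eq_zero,
        yel_zero]
    exact inv_eq_of_mul_eq_one_left h

theorem mem_g2Y [CharP F 2] (g : GL chevG2.Idx F) : g ∈ g2Y F ↔ ∃ p q r : F, g = yel p q r :=
  Iff.rfl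

theorem yel_mem_g2Y [CharP F 2] (p q r : F) : yel p q r ∈ g2Y F := ⟨p, q, r, rfl⟩

/-- `U` normalises `X₉ X₁₀ X₁₁` -/
theorem g2Y_normal [CharP F 2] (g : GL chevG2.Idx F) (hg : g ∈ chevG2.posUnipotent F)
    (n : GL chevG2.Idx F) (hn : n ∈ g2Y F) : g⁻¹ * n * g ∈ g2Y F := by
  obtain ⟨p, q, r, rfl⟩ := hn
  obtain ⟨q', r', e⟩ := (unip_conj_yel g hg).2 p q r
  refine ⟨p, q', r', ?_⟩
  rw [e]
  group

theorem heis_mul {G : Type*} [Group G] (N U : Subgroup G)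
    (hN : ∀ g ∈ U, ∀ n ∈ N, g⁻¹ * n * g ∈ N)
    (A B C A' B' C' E y₁ y₂ n₁ n₂ : G) (hA' : A' ∈ U) (hB' : B' ∈ U) (hC' : C' ∈ U) (hC : C ∈ U)
    (h1 : C * A' = A' * C) (h2 : B * A' = A' * B * E * n₁) (h3 : E * C * B' = B' * (E * C) * n₂)
    (hy₁ : y₁ ∈ N) (hy₂ : y₂ ∈ N) (hn₁ : n₁ ∈ N) (hn₂ : n₂ ∈ N) :
    ∃ n ∈ N, A * B * C * y₁ * (A' * B' * C' * y₂) = A * A' * (B * B') * (E * C * C') * n := by
  refine ⟨C'⁻¹ * n₂ * C' * ((C * B' * C')⁻¹ * n₁ * (C * B' * C')) *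
    ((A' * B' * C')⁻¹ * y₁ * (A' * B' * C')) * y₂, ?_, ?_⟩
  · exact N.mul_mem (N.mul_mem (N.mul_mem (hN _ hC' _ hn₂)
      (hN _ (U.mul_mem (U.mul_mem hC hB') hC') _ hn₁))
      (hN _ (U.mul_mem (U.mul_mem hA' hB') hC') _ hy₁)) hy₂
  · calc A * B * C * y₁ * (A' * B' * C' * y₂)
        = A * B * (C * A') * B' * C' * ((A' * B' * C')⁻¹ * y₁ * (A' * B' * C')) * y₂ := by group
      _ = A * (B * A') * C * B' * C' * ((A' * B' * C')⁻¹ * y₁ * (A' * B' * C')) * y₂ := by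
          rw [h1]; group
      _ = A * A' * B * (E * C * B') * C' * ((C * B' * C')⁻¹ * n₁ * (C * B' * C')) *
            ((A' * B' * C')⁻¹ * y₁ * (A' * B' * C')) * y₂ := by
          rw [h2]; group
      _ = A * A' * (B * B') * (E * C * C') * (C'⁻¹ * n₂ * C' *
            ((C * B' * C')⁻¹ * n₁ * (C * B' * C')) *
            ((A' * B' * C')⁻¹ * y₁ * (A' * B' * C')) * y₂) := by
          rw [h3]; group

theorem xU_mem_unip (s : ℕ) (hs : chevG2.IsPosRoot s) (t : F) :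
    xU chevG2 g2m s t ∈ chevG2.posUnipotent F :=
  Subgroup.subset_closure ⟨s, t, hs, coe_xU chevG2 g2m s t⟩

/-- multiplication in `U` modulo `X₉ X₁₀ X₁₁` -/
theorem g2_mul_modY [CharP F 2] (a b c a' b' c' : F) (y₁ y₂ : GL chevG2.Idx F)
    (hy₁ : y₁ ∈ g2Y F) (hy₂ : y₂ ∈ g2Y F) :
    ∃ y ∈ g2Y F, xU chevG2 g2m 6 a * xU chevG2 g2m 7 b * xU chevG2 g2m 8 c * y₁ *
        (xU chevG2 g2m 6 a' * xU chevG2 g2m 7 b' * xU chevG2 g2m 8 c' * y₂) =
      xU chevG2 g2m 6 (a + a') * xU chevG2 g2m 7 (b + b') * xU chevG2 g2m 8 (a' * b + c + c') *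
        y := by
  obtain ⟨n, hn, e⟩ := heis_mul (g2Y F) (chevG2.posUnipotent F) g2Y_normal
    (xU chevG2 g2m 6 a) (xU chevG2 g2m 7 b) (xU chevG2 g2m 8 c)
    (xU chevG2 g2m 6 a') (xU chevG2 g2m 7 b') (xU chevG2 g2m 8 c')
    (xU chevG2 g2m 8 (a' * b)) y₁ y₂ (yel (a' * b ^ 2) (a' * b ^ 3) 0)
    (yel 0 (b' ^ 2 * (a' * b + c)) (b' * (a' * b + c) ^ 2))
    (xU_mem_unip 6 (by decide +kernel) _) (xU_mem_unip 7 (by decide +kernel) _)
    (xU_mem_unip 8 (by decide +kernel) _) (xU_mem_unip 8 (by decide +kernel) _)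
    (c_6_8 a' c) (r_6_7 a' b)
    (by rw [xU_mul]; exact r_7_8 b' (a' * b + c))
    hy₁ hy₂ (yel_mem_g2Y _ _ _) (yel_mem_g2Y _ _ _)
  refine ⟨n, hn, ?_⟩
  rw [e, xU_mul, xU_mul, xU_mul, xU_mul]

end Cfsg.Agent.Lib.Helper36
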