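import Cfsg.Agent.Lib.Helper36.G2InvA
import Cfsg.Agent.Lib.Helper36.ChevAutA

set_option autoImplicit false

/-!
# Involutions of `G₂` in characteristic `2`: conjugacy

Every involution of `U` is conjugate in the Chevalley group of type `G₂` over a finite field of
characteristic `2` to `x_{3a+2b}(1)` or to `x_{2a+b}(1)`, and these two are not conjugate.
-/

namespace Cfsg.Agent.Lib.Helper36

open Cfsg Cfsg.Lie Cfsg.Agent.Lib.Helper18

universe u

variable {F : Type u} [Field F]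

/-- conjugacy in the Chevalley group of type `G₂` -/
def Cj (g₁ g₂ : GL chevG2.Idx F) : Prop := ∃ h ∈ chevG2.group F, h * g₁ * h⁻¹ = g₂

theorem Cj.refl (g : GL chevG2.Idx F) : Cj g g := ⟨1, one_mem _, by group⟩

theorem Cj.trans {g₁ g₂ g₃ : GL chevG2.Idx F} (h₁ : Cj g₁ g₂) (h₂ : Cj g₂ g₃) : Cj g₁ g₃ := by
  obtain ⟨h, hh, rfl⟩ := h₁
  obtain ⟨k, hk, rfl⟩ := h₂
  exact ⟨k * h, mul_mem hk hh, by group⟩

theorem Cj.of_eq {k g g' : GL chevG2.Idx F} (hk : k ∈ chevG2.group F) (e : k * g = g' * k) :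
    Cj g g' := ⟨k, hk, by rw [e]; group⟩

theorem swap_comm {G : Type*} [Group G] (a b e : G) (h : a * b = b * a * e) (he : e * e = 1) :
    b * a = a * b * e := by
  have h1 : e⁻¹ = e := inv_eq_of_mul_eq_one_left he
  have h2 : b * a = a * b * e⁻¹ := by rw [h]; group
  rw [h2, h1]

section char2

variable [CharP F 2]

theorem xU_sq (r : ℕ) (t : F) : xU chevG2 g2m r t * xU chevG2 g2m r t = 1 := by
  rw [xU_mul, CharTwo.add_self_eq_zero, xU_zero]

theorem xU_inv2 (r : ℕ) (t : F) : (xU chevG2 g2m r t)⁻¹ = xU chevG2 g2m r t :=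
  inv_eq_of_mul_eq_one_left (xU_sq r t)

theorem yel_sq (p q r : F) : yel p q r * yel p q r = 1 := by
  rw [yel_mul, CharTwo.add_self_eq_zero, CharTwo.add_self_eq_zero, CharTwo.add_self_eq_zero,
    yel_zero]

theorem yel_0 (q r : F) : yel 0 q r = xU chevG2 g2m 10 q * xU chevG2 g2m 11 r := by
  unfold yel
  rw [xU_zero, one_mul]

theorem yel_11 (r : F) : yel 0 0 r = xU chevG2 g2m 11 r := by
  rw [yel_0, xU_zero, one_mul]

theorem yel_10 (q : F) : yel 0 q 0 = xU chevG2 g2m 10 q := by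
  rw [yel_0, xU_zero, mul_one]

theorem yel_conj6 (v p q r : F) :
    xU chevG2 g2m 6 v * yel p q r = yel p q (q * v + r) * xU chevG2 g2m 6 v := by
  unfold yel
  rw [grp_conjD _ _ _ _ _ (c_9_6 p v) (c_10_6 q v) (c_11_6 r v) (c_11_6 (q * v) v), xU_mul]

theorem yel_conj7 (v p q r : F) :
    xU chevG2 g2m 7 v * yel p q r = yel p (p * v + q) r * xU chevG2 g2m 7 v := by
  unfold yel
  rw [grp_conjB _ _ _ _ _ (c_9_7 p v) (c_10_7 q v) (c_11_7 r v) (c_10_7 (p * v) v), xU_mul]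

theorem yel_conj8 (v p q r : F) :
    xU chevG2 g2m 8 v * yel p q r = yel p q (p * v + r) * xU chevG2 g2m 8 v := by
  unfold yel
  rw [grp_conjC _ _ _ _ _ (c_9_8 p v) (c_10_8 q v) (c_11_8 r v) (c_11_8 (p * v) v)
    (c_10_11 q (p * v)), xU_mul]

theorem yel_conj9 (v p q r : F) :
    xU chevG2 g2m 9 v * yel p q r = yel p q r * xU chevG2 g2m 9 v := by
  rw [← yel_9, yel_comm]

theorem yel_conj10 (v p q r : F) :
    xU chevG2 g2m 10 v * yel p q r = yel p q r * xU chevG2 g2m 10 v := by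
  rw [← yel_10, yel_comm]

/-- `x₉(t) x₈(u) = x₈(u) x₉(t) x₁₁(tu)` -/
theorem c_8_9' (t u : F) : xU chevG2 g2m 9 t * xU chevG2 g2m 8 u =
    xU chevG2 g2m 8 u * xU chevG2 g2m 9 t * xU chevG2 g2m 11 (t * u) :=
  swap_comm _ _ _ (c_9_8 t u) (xU_sq 11 _)

/-- `x₁₀(t) x₆(u) = x₆(u) x₁₀(t) x₁₁(tu)` -/
theorem c_6_10' (t u : F) : xU chevG2 g2m 10 t * xU chevG2 g2m 6 u =
    xU chevG2 g2m 6 u * xU chevG2 g2m 10 t * xU chevG2 g2m 11 (t * u) :=
  swap_comm _ _ _ (c_10_6 t u) (xU_sq 11 _)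

/-- `x₇(t) x₈(u) = x₈(u) x₇(t) x₁₀(t²u) x₁₁(tu²)` -/
theorem r_8_7' (t u : F) : xU chevG2 g2m 7 t * xU chevG2 g2m 8 u =
    xU chevG2 g2m 8 u * xU chevG2 g2m 7 t * yel 0 (t ^ 2 * u) (t * u ^ 2) :=
  swap_comm _ _ _ (r_7_8 t u) (yel_sq _ _ _)

/-- the action of `n_p` on the root elements -/
theorem nU_conj_xU (i : Fin chevG2.rank) (s : ℕ) (hs : s < chevG2.nroots) (t : F) :
    nU (F := F) chevG2 g2m i * xU chevG2 g2m s t =
      xU chevG2 g2m (chevG2.reflectRoot i.val s) t * nU chevG2 g2m i := by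
  obtain ⟨η, hη⟩ := nU_smap (F := F) chevG2 g2m i
  have e := hη.conjU g2m s hs t
  have h1 : η s * t = t := by
    rcases hη.sign s hs with h | h
    · rw [h, one_mul]
    · rw [h, neg_one_mul, CharTwo.neg_eq]
  rw [h1] at e
  exact e

theorem cj_nU (i : Fin chevG2.rank) (s : ℕ) (hs : s < chevG2.nroots) (t : F) :
    Cj (xU chevG2 g2m s t) (xU chevG2 g2m (chevG2.reflectRoot i.val s) t) :=
  Cj.of_eq (nU_mem_group chevG2 g2m i) (nU_conj_xU i s hs t)

/-- scaling a root element by the torus -/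
theorem cj_torus (r k : ℕ) (hr : r < chevG2.nroots) (hk : k < chevG2.rank)
    (hcart : ∀ i < chevG2.rank, chevG2.cartan i r = if i = k then 1 else 0) (c : F)
    (hc : c ≠ 0) : Cj (xU chevG2 g2m r c) (xU chevG2 g2m r 1) := by
  obtain ⟨cc, hcc⟩ : ∃ cc : Fin chevG2.rank → Fˣ, cx chevG2 cc k = c⁻¹ :=
    ⟨fun i => if i.val = k then Units.mk0 c⁻¹ (inv_ne_zero hc) else 1, by
      unfold cx
      rw [dif_pos hk]
      simp⟩
  have hl : ∀ i ∈ List.range chevG2.rank, i < chevG2.rank ∧ cx chevG2 cc i ≠ 0 :=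
    fun i hi => ⟨List.mem_range.mp hi, cx_ne_zero chevG2 cc i⟩
  refine Cj.of_eq (k := torusHom (F := F) chevG2 cc) ?_ ?_
  · apply diagonalSubgroup_le_group chevG2 g2m
    rw [diagonalSubgroup_eq_range chevG2 g2m]
    exact ⟨cc, rfl⟩
  · apply Units.ext
    rw [Units.val_mul, Units.val_mul, coe_xU, coe_xU, coe_torusHom,
      dvecL_mul_x chevG2 g2m (cx chevG2 cc) _ hl r hr c,
      chiL_single chevG2 (cx chevG2 cc) r k hk hcart, hcc, inv_mul_cancel₀ hc]

theorem cj_9 (c : F) (hc : c ≠ 0) : Cj (xU chevG2 g2m 9 c) (xU chevG2 g2m 9 1) :=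
  cj_torus 9 0 (by decide) (by decide) (by decide +kernel) c hc

theorem cj_11 (c : F) (hc : c ≠ 0) : Cj (xU chevG2 g2m 11 c) (xU chevG2 g2m 11 1) :=
  cj_torus 11 1 (by decide) (by decide) (by decide +kernel) c hc

/-- long root elements -/
theorem cj_10 (c : F) (hc : c ≠ 0) : Cj (xU chevG2 g2m 10 c) (xU chevG2 g2m 11 1) :=
  (cj_nU ⟨1, by decide⟩ 10 (by decide) c).trans (cj_11 c hc)

theorem cj_6 (c : F) (hc : c ≠ 0) : Cj (xU chevG2 g2m 6 c) (xU chevG2 g2m 11 1) :=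
  (cj_nU ⟨0, by decide⟩ 6 (by decide) c).trans (cj_10 c hc)

/-- short root elements -/
theorem cj_8 (c : F) (hc : c ≠ 0) : Cj (xU chevG2 g2m 8 c) (xU chevG2 g2m 9 1) :=
  (cj_nU ⟨0, by decide⟩ 8 (by decide) c).trans (cj_9 c hc)

/-- the elements `x₁₀(e) x₁₁(f)` -/
theorem cj_long (e f : F) (h : e ≠ 0 ∨ f ≠ 0) : Cj (yel 0 e f) (xU chevG2 g2m 11 1) := by
  by_cases he : e = 0
  · subst he
    rw [yel_11]
    exact cj_11 f (h.resolve_left (fun h' => h' rfl))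
  · have h1 : Cj (yel 0 e f) (xU chevG2 g2m 10 e) := by
      refine Cj.of_eq (k := xU chevG2 g2m 6 (f / e)) (xU_mem_group chevG2 g2m _ _) ?_
      rw [yel_conj6, ← yel_10]
      congr 2
      have : e * (f / e) = f := by field_simp
      rw [this, CharTwo.add_self_eq_zero]
    exact h1.trans (cj_10 e he)

/-- the elements `x₉(d) x₁₀(e) x₁₁(f)` with `d ≠ 0` -/
theorem cj_short (d e f : F) (hd : d ≠ 0) : Cj (yel d e f) (xU chevG2 g2m 9 1) := by
  have h1 : Cj (yel d e f) (yel d 0 f) := by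
    refine Cj.of_eq (k := xU chevG2 g2m 7 (e / d)) (xU_mem_group chevG2 g2m _ _) ?_
    rw [yel_conj7]
    congr 2
    have : d * (e / d) = e := by field_simp
    rw [this, CharTwo.add_self_eq_zero]
  have h2 : Cj (yel d 0 f) (yel d 0 0) := by
    refine Cj.of_eq (k := xU chevG2 g2m 8 (f / d)) (xU_mem_group chevG2 g2m _ _) ?_
    rw [yel_conj8]
    congr 2
    have : d * (f / d) = f := by field_simp
    rw [this, CharTwo.add_self_eq_zero]
  rw [yel_9] at h2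
  exact (h1.trans h2).trans (cj_9 d hd)

/-- the elements `x₈(c) x₁₀(e) x₁₁(f)` with `c ≠ 0` -/
theorem cj_ctype [Fintype F] (c e f : F) (hc : c ≠ 0) :
    Cj (xU chevG2 g2m 8 c * yel 0 e f) (xU chevG2 g2m 9 1) := by
  obtain ⟨v, hv⟩ := FiniteField.isSquare_of_char_two (ringChar.eq F 2) (e / c)
  have hv' : v ^ 2 * c = e := by
    rw [pow_two, ← hv]
    field_simp
  have h1 : Cj (xU chevG2 g2m 8 c * yel 0 e f) (xU chevG2 g2m 8 c * yel 0 0 (v * c ^ 2 + f)) := by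
    refine Cj.of_eq (k := xU chevG2 g2m 7 v) (xU_mem_group chevG2 g2m _ _) ?_
    have a1 := r_8_7' v c
    have a2 := yel_conj7 v 0 (v ^ 2 * c + e) (v * c ^ 2 + f)
    rw [zero_mul, zero_add] at a2
    have a3 : yel 0 (v ^ 2 * c) (v * c ^ 2) * yel 0 e f = yel 0 (v ^ 2 * c + e) (v * c ^ 2 + f) := by
      rw [yel_mul, add_zero]
    have a4 : v ^ 2 * c + e = 0 := by rw [hv', CharTwo.add_self_eq_zero]
    rw [a4] at a2 a3
    generalize xU chevG2 g2m 7 v = x at a1 a2 ⊢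
    generalize xU chevG2 g2m 8 c = a at a1 ⊢
    generalize yel 0 (v ^ 2 * c) (v * c ^ 2) = d at a1 a3
    generalize yel 0 e f = y at a3 ⊢
    generalize yel 0 0 (v * c ^ 2 + f) = y' at a2 a3 ⊢
    calc x * (a * y) = (x * a) * y := by group
      _ = a * x * (d * y) := by rw [a1]; group
      _ = a * (x * y') := by rw [a3]; group
      _ = a * y' * x := by rw [a2]; group
  have h2 : Cj (xU chevG2 g2m 8 c * yel 0 0 (v * c ^ 2 + f)) (xU chevG2 g2m 8 c) := by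
    refine Cj.of_eq (k := xU chevG2 g2m 9 ((v * c ^ 2 + f) / c)) (xU_mem_group chevG2 g2m _ _) ?_
    have a1 := c_8_9' ((v * c ^ 2 + f) / c) c
    have a2 : (v * c ^ 2 + f) / c * c = v * c ^ 2 + f := by field_simp
    rw [a2, ← yel_11] at a1
    have a3 := yel_conj9 ((v * c ^ 2 + f) / c) 0 0 (v * c ^ 2 + f)
    have a4 := yel_sq (0 : F) 0 (v * c ^ 2 + f)
    generalize xU chevG2 g2m 9 ((v * c ^ 2 + f) / c) = x at a1 a3 ⊢
    generalize xU chevG2 g2m 8 c = a at a1 ⊢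
    generalize yel 0 0 (v * c ^ 2 + f) = y at a1 a3 a4 ⊢
    calc x * (a * y) = (x * a) * y := by group
      _ = a * x * (y * y) := by rw [a1]; group
      _ = a * x := by rw [a4, mul_one]
  exact (h1.trans h2).trans (cj_8 c hc)

end char2

end Cfsg.Agent.Lib.Helper36
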