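import Cfsg.Agent.Lib.Helper36.G2InvB

set_option autoImplicit false

/-!
# Involutions of `G₂` in characteristic `2`: the classification

Every involution of `U` is conjugate to `x_{3a+2b}(1)` or to `x_{2a+b}(1)`; these two elements
are not conjugate.
-/

namespace Cfsg.Agent.Lib.Helper36

open Cfsg Cfsg.Lie Cfsg.Agent.Lib.Helper18

universe u

variable {F : Type u} [Field F] [CharP F 2]

theorem cj_sq {g g' : GL chevG2.Idx F} (h : Cj g g') (hg : g * g = 1) : g' * g' = 1 := by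
  obtain ⟨k, -, rfl⟩ := h
  have e : k * g * k⁻¹ * (k * g * k⁻¹) = k * (g * g) * k⁻¹ := by group
  rw [e, hg]
  group

theorem sq_of_conj {G : Type*} [Group G] (x y y' : G) (hx : x * x = 1) (h : x * y = y' * x) :
    x * y * (x * y) = y' * y := by
  calc x * y * (x * y) = (x * y) * x * y := by group
    _ = y' * (x * x) * y := by rw [h]; group
    _ = y' * y := by rw [hx, mul_one]

/-- conjugation by `x₆(v)` modulo `X₉ X₁₀ X₁₁` -/
theorem conj6 (v a b c : F) (y₁ : GL chevG2.Idx F) (hy₁ : y₁ ∈ g2Y F) :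
    ∃ y ∈ g2Y F, xU chevG2 g2m 6 v *
        (xU chevG2 g2m 6 a * xU chevG2 g2m 7 b * xU chevG2 g2m 8 c * y₁) *
        (xU chevG2 g2m 6 v)⁻¹ =
      xU chevG2 g2m 6 a * xU chevG2 g2m 7 b * xU chevG2 g2m 8 (v * b + c) * y := by
  obtain ⟨y₂, hy₂, e1⟩ := g2_mul_modY v 0 0 a b c 1 y₁ (one_mem _) hy₁
  obtain ⟨y₃, hy₃, e2⟩ := g2_mul_modY (v + a) (0 + b) (a * 0 + 0 + c) v 0 0 y₂ 1 hy₂
    (one_mem _)
  refine ⟨y₃, hy₃, ?_⟩
  rw [xU_inv2]
  have e3 : xU chevG2 g2m 6 v *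
      (xU chevG2 g2m 6 a * xU chevG2 g2m 7 b * xU chevG2 g2m 8 c * y₁) * xU chevG2 g2m 6 v =
      (xU chevG2 g2m 6 v * xU chevG2 g2m 7 0 * xU chevG2 g2m 8 0 * 1) *
        (xU chevG2 g2m 6 a * xU chevG2 g2m 7 b * xU chevG2 g2m 8 c * y₁) *
        (xU chevG2 g2m 6 v * xU chevG2 g2m 7 0 * xU chevG2 g2m 8 0 * 1) := by
    rw [xU_zero, xU_zero, mul_one, mul_one, mul_one]
  rw [e3, e1, e2]
  have h6 : v + a + v = a := by
    rw [add_comm v a, add_assoc, CharTwo.add_self_eq_zero, add_zero]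
  have h7 : 0 + b + 0 = b := by ring
  have h8 : v * (0 + b) + (a * 0 + 0 + c) + 0 = v * b + c := by ring
  rw [h6, h7, h8]

/-- conjugation by `x₇(v)` modulo `X₉ X₁₀ X₁₁` -/
theorem conj7 (v a b c : F) (y₁ : GL chevG2.Idx F) (hy₁ : y₁ ∈ g2Y F) :
    ∃ y ∈ g2Y F, xU chevG2 g2m 7 v *
        (xU chevG2 g2m 6 a * xU chevG2 g2m 7 b * xU chevG2 g2m 8 c * y₁) *
        (xU chevG2 g2m 7 v)⁻¹ =
      xU chevG2 g2m 6 a * xU chevG2 g2m 7 b * xU chevG2 g2m 8 (a * v + c) * y := by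
  obtain ⟨y₂, hy₂, e1⟩ := g2_mul_modY 0 v 0 a b c 1 y₁ (one_mem _) hy₁
  obtain ⟨y₃, hy₃, e2⟩ := g2_mul_modY (0 + a) (v + b) (a * v + 0 + c) 0 v 0 y₂ 1 hy₂
    (one_mem _)
  refine ⟨y₃, hy₃, ?_⟩
  rw [xU_inv2]
  have e3 : xU chevG2 g2m 7 v *
      (xU chevG2 g2m 6 a * xU chevG2 g2m 7 b * xU chevG2 g2m 8 c * y₁) * xU chevG2 g2m 7 v =
      (xU chevG2 g2m 6 0 * xU chevG2 g2m 7 v * xU chevG2 g2m 8 0 * 1) *
        (xU chevG2 g2m 6 a * xU chevG2 g2m 7 b * xU chevG2 g2m 8 c * y₁) *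
        (xU chevG2 g2m 6 0 * xU chevG2 g2m 7 v * xU chevG2 g2m 8 0 * 1) := by
    rw [xU_zero, xU_zero, mul_one, mul_one, one_mul]
  rw [e3, e1, e2]
  have h6 : 0 + a + 0 = a := by ring
  have h7 : v + b + v = b := by
    rw [add_comm v b, add_assoc, CharTwo.add_self_eq_zero, add_zero]
  have h8 : 0 * (v + b) + (a * v + 0 + c) + 0 = a * v + c := by ring
  rw [h6, h7, h8]

theorem rr_0 : chevG2.reflectRoot 0 6 = 10 ∧ chevG2.reflectRoot 0 9 = 8 ∧
    chevG2.reflectRoot 0 11 = 11 := by decide +kernel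

theorem rr_1 : chevG2.reflectRoot 1 7 = 8 ∧ chevG2.reflectRoot 1 10 = 11 ∧
    chevG2.reflectRoot 1 11 = 10 ∧ chevG2.reflectRoot 1 9 = 9 := by decide +kernel

/-- the involutions `x₈(c) x₉(d) x₁₀(e) x₁₁(f)` -/
theorem case_c [Fintype F] (c d e f : F)
    (h2 : xU chevG2 g2m 8 c * yel d e f * (xU chevG2 g2m 8 c * yel d e f) = 1)
    (h1 : xU chevG2 g2m 8 c * yel d e f ≠ 1) :
    Cj (xU chevG2 g2m 8 c * yel d e f) (xU chevG2 g2m 11 1) ∨
      Cj (xU chevG2 g2m 8 c * yel d e f) (xU chevG2 g2m 9 1) := by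
  by_cases hc : c = 0
  · subst hc
    rw [xU_zero, one_mul] at h1 ⊢
    by_cases hd : d = 0
    · subst hd
      left
      apply cj_long
      by_contra hcon
      push Not at hcon
      apply h1
      rw [hcon.1, hcon.2, yel_zero]
    · exact Or.inr (cj_short d e f hd)
  · have e1 := sq_of_conj _ _ _ (xU_sq 8 c) (yel_conj8 c d e f)
    rw [h2, yel_mul, ← yel_zero] at e1
    have hd : d = 0 := by
      have h3 := (yel_inj _ _ _ _ _ _ e1).2.2
      rw [add_assoc, CharTwo.add_self_eq_zero, add_zero] at h3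
      rcases mul_eq_zero.mp h3.symm with h | h
      · exact h
      · exact absurd h hc
    subst hd
    exact Or.inr (cj_ctype c e f hc)

/-- the involutions `x₆(a) x₈(c) x₉(d) x₁₀(e) x₁₁(f)` with `a ≠ 0` -/
theorem case_a [Fintype F] (a c d e f : F) (ha : a ≠ 0)
    (h2 : xU chevG2 g2m 6 a * xU chevG2 g2m 7 0 * xU chevG2 g2m 8 c * yel d e f *
      (xU chevG2 g2m 6 a * xU chevG2 g2m 7 0 * xU chevG2 g2m 8 c * yel d e f) = 1) :
    Cj (xU chevG2 g2m 6 a * xU chevG2 g2m 7 0 * xU chevG2 g2m 8 c * yel d e f)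
        (xU chevG2 g2m 11 1) ∨
      Cj (xU chevG2 g2m 6 a * xU chevG2 g2m 7 0 * xU chevG2 g2m 8 c * yel d e f)
        (xU chevG2 g2m 9 1) := by
  obtain ⟨y, hy, e1⟩ := conj7 (c / a) a 0 c (yel d e f) (yel_mem_g2Y d e f)
  obtain ⟨d', e', f', rfl⟩ := hy
  have h0 : a * (c / a) + c = 0 := by
    have : a * (c / a) = c := by field_simp
    rw [this, CharTwo.add_self_eq_zero]
  rw [h0, xU_zero, xU_zero, mul_one, mul_one] at e1
  have hcj : Cj (xU chevG2 g2m 6 a * xU chevG2 g2m 7 0 * xU chevG2 g2m 8 c * yel d e f)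
      (xU chevG2 g2m 6 a * yel d' e' f') := by
    refine ⟨xU chevG2 g2m 7 (c / a), xU_mem_group chevG2 g2m _ _, ?_⟩
    rw [← e1, xU_zero, mul_one]
  have h3 := cj_sq hcj h2
  have e2 := sq_of_conj _ _ _ (xU_sq 6 a) (yel_conj6 a d' e' f')
  rw [h3, yel_mul, ← yel_zero] at e2
  have he' : e' = 0 := by
    have h4 := (yel_inj _ _ _ _ _ _ e2).2.2
    rw [add_assoc, CharTwo.add_self_eq_zero, add_zero] at h4
    rcases mul_eq_zero.mp h4.symm with h | h
    · exact h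
    · exact absurd h ha
  subst he'
  by_cases hd' : d' = 0
  · subst hd'
    left
    have h5 : Cj (xU chevG2 g2m 6 a * yel 0 0 f') (xU chevG2 g2m 6 a) := by
      refine Cj.of_eq (k := xU chevG2 g2m 10 (f' / a)) (xU_mem_group chevG2 g2m _ _) ?_
      have a1 := c_6_10' (f' / a) a
      have a2 : f' / a * a = f' := by field_simp
      rw [a2, ← yel_11] at a1
      have a4 := yel_sq (0 : F) 0 f'
      generalize xU chevG2 g2m 10 (f' / a) = x at a1 ⊢
      generalize xU chevG2 g2m 6 a = A at a1 ⊢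
      generalize yel 0 0 f' = y at a1 a4 ⊢
      calc x * (A * y) = (x * A) * y := by group
        _ = A * x * (y * y) := by rw [a1]; group
        _ = A * x := by rw [a4, mul_one]
    exact (hcj.trans h5).trans (cj_6 a ha)
  · right
    have h5 : Cj (xU chevG2 g2m 6 a * yel d' 0 f') (xU chevG2 g2m 8 d' * yel 0 a f') := by
      refine Cj.of_eq (k := nU (F := F) chevG2 g2m ⟨0, by decide⟩) (nU_mem_group chevG2 g2m _) ?_
      have a1 := nU_conj_xU (F := F) ⟨0, by decide⟩ 6 (by decide) a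
      have a2 := nU_conj_xU (F := F) ⟨0, by decide⟩ 9 (by decide) d'
      have a3 := nU_conj_xU (F := F) ⟨0, by decide⟩ 11 (by decide) f'
      rw [rr_0.1] at a1
      rw [rr_0.2.1] at a2
      rw [rr_0.2.2] at a3
      have a4 := c_10_8 a d'
      unfold yel
      rw [xU_zero, xU_zero, mul_one, one_mul]
      generalize nU (F := F) chevG2 g2m ⟨0, by decide⟩ = n at a1 a2 a3 ⊢
      generalize xU chevG2 g2m 6 a = x6 at a1 ⊢
      generalize xU chevG2 g2m 9 d' = x9 at a2 ⊢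
      generalize xU chevG2 g2m 11 f' = x11 at a3 ⊢
      generalize xU chevG2 g2m 10 a = x10 at a1 a4 ⊢
      generalize xU chevG2 g2m 8 d' = x8 at a2 a4 ⊢
      calc n * (x6 * (x9 * x11)) = (n * x6) * x9 * x11 := by group
        _ = x10 * (n * x9) * x11 := by rw [a1]; group
        _ = x10 * x8 * (n * x11) := by rw [a2]; group
        _ = (x10 * x8) * x11 * n := by rw [a3]; group
        _ = x8 * (x10 * x11) * n := by rw [← a4]; group
    exact (hcj.trans h5).trans (cj_ctype d' a f' hd')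

/-- the involutions `x₇(b) x₈(c) x₉(d) x₁₀(e) x₁₁(f)` with `b ≠ 0` -/
theorem case_b [Fintype F] (b c d e f : F) (hb : b ≠ 0)
    (h2 : xU chevG2 g2m 6 0 * xU chevG2 g2m 7 b * xU chevG2 g2m 8 c * yel d e f *
      (xU chevG2 g2m 6 0 * xU chevG2 g2m 7 b * xU chevG2 g2m 8 c * yel d e f) = 1) :
    Cj (xU chevG2 g2m 6 0 * xU chevG2 g2m 7 b * xU chevG2 g2m 8 c * yel d e f)
      (xU chevG2 g2m 9 1) := by
  obtain ⟨y, hy, e1⟩ := conj6 (c / b) 0 b c (yel d e f) (yel_mem_g2Y d e f)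
  obtain ⟨d', e', f', rfl⟩ := hy
  have h0 : c / b * b + c = 0 := by
    have : c / b * b = c := by field_simp
    rw [this, CharTwo.add_self_eq_zero]
  rw [h0] at e1
  have hcj : Cj (xU chevG2 g2m 6 0 * xU chevG2 g2m 7 b * xU chevG2 g2m 8 c * yel d e f)
      (xU chevG2 g2m 7 b * yel d' e' f') := by
    refine ⟨xU chevG2 g2m 6 (c / b), xU_mem_group chevG2 g2m _ _, ?_⟩
    rw [e1, xU_zero, xU_zero, one_mul, mul_one]
  have h3 := cj_sq hcj h2
  have e2 := sq_of_conj _ _ _ (xU_sq 7 b) (yel_conj7 b d' e' f')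
  rw [h3, yel_mul, ← yel_zero] at e2
  have hd' : d' = 0 := by
    have h4 := (yel_inj _ _ _ _ _ _ e2).2.1
    rw [add_assoc, CharTwo.add_self_eq_zero, add_zero] at h4
    rcases mul_eq_zero.mp h4.symm with h | h
    · exact h
    · exact absurd h hb
  subst hd'
  have h5 : Cj (xU chevG2 g2m 7 b * yel 0 e' f') (xU chevG2 g2m 8 b * yel 0 f' e') := by
    refine Cj.of_eq (k := nU (F := F) chevG2 g2m ⟨1, by decide⟩) (nU_mem_group chevG2 g2m _) ?_
    have a1 := nU_conj_xU (F := F) ⟨1, by decide⟩ 7 (by decide) b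
    have a2 := nU_conj_xU (F := F) ⟨1, by decide⟩ 10 (by decide) e'
    have a3 := nU_conj_xU (F := F) ⟨1, by decide⟩ 11 (by decide) f'
    rw [rr_1.1] at a1
    rw [rr_1.2.1] at a2
    rw [rr_1.2.2.1] at a3
    have a4 := c_10_11 f' e'
    rw [yel_0, yel_0]
    generalize nU (F := F) chevG2 g2m ⟨1, by decide⟩ = n at a1 a2 a3 ⊢
    generalize xU chevG2 g2m 7 b = x7 at a1 ⊢
    generalize xU chevG2 g2m 10 e' = x10 at a2 ⊢
    generalize xU chevG2 g2m 11 f' = x11 at a3 ⊢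
    generalize xU chevG2 g2m 8 b = x8 at a1 ⊢
    generalize xU chevG2 g2m 11 e' = y11 at a2 a4 ⊢
    generalize xU chevG2 g2m 10 f' = y10 at a3 a4 ⊢
    calc n * (x7 * (x10 * x11)) = (n * x7) * x10 * x11 := by group
      _ = x8 * (n * x10) * x11 := by rw [a1]; group
      _ = x8 * y11 * (n * x11) := by rw [a2]; group
      _ = x8 * (y11 * y10) * n := by rw [a3]; group
      _ = x8 * (y10 * y11) * n := by rw [a4]
  exact (hcj.trans h5).trans (cj_ctype b f' e' hb)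

/-- every involution of `U` is conjugate to `x₁₁(1)` or to `x₉(1)` -/
theorem inv_class [Fintype F] (g : GL chevG2.Idx F) (hg : g ∈ chevG2.posUnipotent F)
    (hg2 : g * g = 1) (hg1 : g ≠ 1) :
    Cj g (xU chevG2 g2m 11 1) ∨ Cj g (xU chevG2 g2m 9 1) := by
  obtain ⟨t, -, ht⟩ := Cfsg.Agent.Lib.Helper17.uprod_exists chevG2 g2m g hg
  rw [coe_prod6] at ht
  have e0 : g = xU chevG2 g2m 6 (t 6) * xU chevG2 g2m 7 (t 7) * xU chevG2 g2m 8 (t 8) *
      yel (t 9) (t 10) (t 11) := by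
    rw [Units.ext ht]
    unfold yel
    simp only [mul_assoc]
  generalize t 6 = a at e0
  generalize t 7 = b at e0
  generalize t 8 = c at e0
  generalize t 9 = d at e0
  generalize t 10 = e at e0
  generalize t 11 = f at e0
  subst e0
  have hab : a * b = 0 := by
    obtain ⟨y, hy, e1⟩ := g2_mul_modY a b c a b c _ _ (yel_mem_g2Y d e f) (yel_mem_g2Y d e f)
    rw [hg2] at e1
    obtain ⟨p, q, r, rfl⟩ := hy
    rw [CharTwo.add_self_eq_zero, CharTwo.add_self_eq_zero, xU_zero, xU_zero, one_mul,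
      one_mul] at e1
    have h8 : a * b + c + c = a * b := by rw [add_assoc, CharTwo.add_self_eq_zero, add_zero]
    rw [h8] at e1
    have e2' : xU chevG2 g2m 8 (a * b) * xU chevG2 g2m 9 p * xU chevG2 g2m 10 q *
        xU chevG2 g2m 11 r = 1 := by
      rw [e1]
      unfold yel
      simp only [mul_assoc]
    have e2 : xU chevG2 g2m 6 0 * xU chevG2 g2m 7 0 * xU chevG2 g2m 8 (a * b) *
        xU chevG2 g2m 9 p * xU chevG2 g2m 10 q * xU chevG2 g2m 11 r =
        xU chevG2 g2m 6 0 * xU chevG2 g2m 7 0 * xU chevG2 g2m 8 0 * xU chevG2 g2m 9 0 *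
          xU chevG2 g2m 10 0 * xU chevG2 g2m 11 0 := by
      simp only [xU_zero, one_mul, mul_one]
      exact e2'
    exact (prod6_inj _ _ _ _ _ _ _ _ _ _ _ _ e2).2.2.1
  by_cases hb : b = 0
  · subst hb
    by_cases ha : a = 0
    · subst ha
      rw [xU_zero, xU_zero, one_mul, one_mul] at hg2 hg1 ⊢
      exact case_c c d e f hg2 hg1
    · exact case_a a c d e f ha hg2
  · have ha : a = 0 := by
      rcases mul_eq_zero.mp hab with h | h
      · exact h
      · exact absurd h hb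
    subst ha
    exact Or.inr (case_b b c d e f hb hg2)

/-- conjugation of `X₁₀ X₁₁` by `B` -/
theorem borel_conj_yel0 (b : GL chevG2.Idx F) (hb : b ∈ chevG2.borelSubgroup F) (q r : F) :
    ∃ q' r' : F, b * yel 0 q r = yel 0 q' r' * b := by
  obtain ⟨u, hu, h, hh, rfl⟩ := exists_mul_of_mem_sup _ _
    (diagonalSubgroup_le_normalizer_posUnipotent (F := F) chevG2 g2m) b hb
  obtain ⟨q', e2⟩ := diag_conjU chevG2 g2m h hh 10 (by decide) q
  obtain ⟨r', e3⟩ := diag_conjU chevG2 g2m h hh 11 (by decide) r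
  have e1 : h * yel 0 q r = yel 0 q' r' * h := by
    rw [yel_0, yel_0]
    generalize xU chevG2 g2m 10 q = x at e2 ⊢
    generalize xU chevG2 g2m 11 r = y at e3 ⊢
    generalize xU chevG2 g2m 10 q' = x' at e2 ⊢
    generalize xU chevG2 g2m 11 r' = y' at e3 ⊢
    calc h * (x * y) = (h * x) * y := by group
      _ = x' * (h * y) := by rw [e2]; group
      _ = x' * y' * h := by rw [e3]; group
  obtain ⟨q'', r'', e4⟩ := (unip_conj_yel u hu).1 0 q' r'
  exact ⟨q'', r'', by rw [mul_assoc, e1, ← mul_assoc, e4, mul_assoc]⟩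

/-- `x₉(1)` and `x₁₁(1)` are not conjugate -/
theorem not_cj_9_11 : ¬ Cj (xU chevG2 g2m 9 (1 : F)) (xU chevG2 g2m 11 1) := by
  rintro ⟨h, hh, e⟩
  obtain ⟨b₁, hb₁, l, b₂, hb₂, rfl⟩ := bruhat_word chevG2 g2m h hh
  obtain ⟨p, q, r, hp, e1⟩ := borel_conj_yel b₂ hb₂ 1 0 0 one_ne_zero
  obtain ⟨q', r', e2⟩ := borel_conj_yel0 b₁⁻¹ (inv_mem hb₁) 0 1
  rw [yel_9] at e1
  rw [yel_11] at e2
  have e3 : (l.map (nU (F := F) chevG2 g2m)).prod * yel p q r *
      ((l.map (nU (F := F) chevG2 g2m)).prod)⁻¹ = yel 0 q' r' := by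
    generalize (l.map (nU (F := F) chevG2 g2m)).prod = N at e ⊢
    generalize xU chevG2 g2m 9 (1 : F) = z9 at e e1
    generalize xU chevG2 g2m 11 (1 : F) = z11 at e e2
    generalize yel p q r = Y at e1 ⊢
    generalize yel 0 q' r' = Y' at e2 ⊢
    calc N * Y * N⁻¹ = b₁⁻¹ * (b₁ * N * (Y * b₂) * (b₁ * N * b₂)⁻¹) * b₁ := by group
      _ = b₁⁻¹ * (b₁ * N * b₂ * z9 * (b₁ * N * b₂)⁻¹) * b₁ := by rw [← e1]; group
      _ = (b₁⁻¹ * z11) * b₁ := by rw [e]
      _ = Y' := by rw [e2]; group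
  obtain ⟨ε, hε⟩ := word_smap (F := F) chevG2 g2m l
  have hεne : ε 9 * p ≠ 0 := by
    rcases hε.sign 9 (by decide) with h | h <;> rw [h] <;> simp [hp]
  have e4 := smap_conj3 hε p q r
  rw [e3] at e4
  rcases word_cls l p q r 0 q' r' hp e3 with hid | hsb
  · rw [hid 9 (by decide), hid 10 (by decide), hid 11 (by decide)] at e4
    have e5 : yel 0 q' r' = yel (ε 9 * p) (ε 10 * q) (ε 11 * r) := e4
    exact hεne (yel_inj _ _ _ _ _ _ e5).1.symm
  · rw [hsb 9 (by decide), hsb 10 (by decide), hsb 11 (by decide), rr_1.2.2.2, rr_1.2.1,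
      rr_1.2.2.1] at e4
    have e5 : yel 0 q' r' = yel (ε 9 * p) (ε 11 * r) (ε 10 * q) := by
      rw [e4]
      unfold yel
      rw [mul_assoc, mul_assoc, c_10_11 (ε 11 * r) (ε 10 * q)]
    exact hεne (yel_inj _ _ _ _ _ _ e5).1.symm

end Cfsg.Agent.Lib.Helper36
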