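import Cfsg.Agent.Lib.Helper36.G2ShortA

set_option autoImplicit false

/-!
# The short root involution of `G₂` in characteristic `2`: the group `X₉ X₁₀ X₁₁`

The elements `x₉(p) x₁₀(q) x₁₁(r)`, their uniqueness, and their conjugates under `B`.
-/

namespace Cfsg.Agent.Lib.Helper36

open Cfsg Cfsg.Lie Cfsg.Agent.Lib.Helper18

universe u

variable {F : Type u} [Field F]

theorem grp_abel3 {G : Type*} [Group G] (a b c a' b' c' : G) (h1 : c * a' = a' * c)
    (h2 : b * a' = a' * b) (h3 : c * b' = b' * c) :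
    a * b * c * (a' * b' * c') = (a * a') * (b * b') * (c * c') := by
  calc a * b * c * (a' * b' * c') = a * b * (c * a') * b' * c' := by group
    _ = a * (b * a') * (c * b') * c' := by rw [h1]; group
    _ = (a * a') * (b * b') * (c * c') := by rw [h2, h3]; group

theorem grp_conjA {G : Type*} [Group G] (x a b c : G) (ha : x * a = a * x) (hb : x * b = b * x)
    (hc : x * c = c * x) : x * (a * b * c) = a * b * c * x := by
  calc x * (a * b * c) = (x * a) * b * c := by group
    _ = a * (x * b) * c := by rw [ha]; group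
    _ = a * b * (x * c) := by rw [hb]; group
    _ = a * b * c * x := by rw [hc]; group

theorem grp_conjB {G : Type*} [Group G] (x a b c d : G) (ha : x * a = a * x * d)
    (hb : x * b = b * x) (hc : x * c = c * x) (hd : x * d = d * x) :
    x * (a * b * c) = a * (d * b) * c * x := by
  calc x * (a * b * c) = (x * a) * b * c := by group
    _ = a * (x * d) * b * c := by rw [ha]; group
    _ = a * d * (x * b) * c := by rw [hd]; group
    _ = a * d * b * (x * c) := by rw [hb]; group
    _ = a * (d * b) * c * x := by rw [hc]; group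

theorem grp_conjC {G : Type*} [Group G] (x a b c d : G) (ha : x * a = a * x * d)
    (hb : x * b = b * x) (hc : x * c = c * x) (hd : x * d = d * x) (hdb : d * b = b * d) :
    x * (a * b * c) = a * b * (d * c) * x := by
  rw [grp_conjB x a b c d ha hb hc hd, hdb]
  group

theorem grp_conjD {G : Type*} [Group G] (x a b c d : G) (ha : x * a = a * x)
    (hb : x * b = b * x * d) (hc : x * c = c * x) (hd : x * d = d * x) :
    x * (a * b * c) = a * b * (d * c) * x := by
  calc x * (a * b * c) = (x * a) * b * c := by group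
    _ = a * (x * b) * c := by rw [ha]; group
    _ = a * b * (x * d) * c := by rw [hb]; group
    _ = a * b * d * (x * c) := by rw [hd]; group
    _ = a * b * (d * c) * x := by rw [hc]; group

theorem g2_xU_eq_one (r : ℕ) (hr : r < chevG2.nroots) (a : F) (h : xU chevG2 g2m r a = 1) :
    a = 0 := by
  have h2 := congrArg Units.val h
  rw [coe_xU, Units.val_one] at h2
  exact (Cfsg.Agent.S1024.result chevG2 g2m r hr a).mp h2

/-- the elements of `X₉ X₁₀ X₁₁` -/
noncomputable def yel (p q r : F) : GL chevG2.Idx F :=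
  xU chevG2 g2m 9 p * xU chevG2 g2m 10 q * xU chevG2 g2m 11 r

theorem yel_zero : yel (0 : F) 0 0 = 1 := by
  unfold yel
  rw [xU_zero, xU_zero, xU_zero, one_mul, one_mul]

theorem yel_9 (p : F) : yel p 0 0 = xU chevG2 g2m 9 p := by
  unfold yel
  rw [xU_zero, xU_zero, mul_one, mul_one]

theorem yel_mul [CharP F 2] (p q r p' q' r' : F) :
    yel p q r * yel p' q' r' = yel (p + p') (q + q') (r + r') := by
  unfold yel
  rw [grp_abel3 _ _ _ _ _ _ (c_9_11 p' r) (c_9_10 p' q) (c_10_11 q' r), xU_mul, xU_mul, xU_mul]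

theorem yel_comm [CharP F 2] (p q r p' q' r' : F) :
    yel p q r * yel p' q' r' = yel p' q' r' * yel p q r := by
  rw [yel_mul, yel_mul, add_comm p, add_comm q, add_comm r]

theorem posRoots_g2 : chevG2.posRoots = [6, 7, 8, 9, 10, 11] := by decide +kernel

/-- the ordered product over the positive roots -/
theorem coe_prod6 (t : ℕ → F) :
    chevG2.wordMat F (chevG2.posRoots.map fun k => (k, t k)) =
      ((xU chevG2 g2m 6 (t 6) * xU chevG2 g2m 7 (t 7) * xU chevG2 g2m 8 (t 8) *
        xU chevG2 g2m 9 (t 9) * xU chevG2 g2m 10 (t 10) * xU chevG2 g2m 11 (t 11) :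
          GL chevG2.Idx F) : Matrix chevG2.Idx chevG2.Idx F) := by
  rw [posRoots_g2]
  unfold ChevalleyDatum.wordMat
  simp only [List.map_cons, List.map_nil, List.prod_cons, List.prod_nil, mul_one, Units.val_mul,
    coe_xU, mul_assoc]

/-- uniqueness of the parameters of an ordered product over the positive roots -/
theorem prod6_inj (a6 a7 a8 a9 a10 a11 b6 b7 b8 b9 b10 b11 : F)
    (h : xU chevG2 g2m 6 a6 * xU chevG2 g2m 7 a7 * xU chevG2 g2m 8 a8 *
        xU chevG2 g2m 9 a9 * xU chevG2 g2m 10 a10 * xU chevG2 g2m 11 a11 =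
      xU chevG2 g2m 6 b6 * xU chevG2 g2m 7 b7 * xU chevG2 g2m 8 b8 *
        xU chevG2 g2m 9 b9 * xU chevG2 g2m 10 b10 * xU chevG2 g2m 11 b11) :
    a6 = b6 ∧ a7 = b7 ∧ a8 = b8 ∧ a9 = b9 ∧ a10 = b10 ∧ a11 = b11 := by
  have hpos : ∀ k, ¬ chevG2.IsPosRoot k → k ∉ [6, 7, 8, 9, 10, 11] := by
    intro k hk hmem
    apply hk
    have : k ∈ chevG2.posRoots := by rw [posRoots_g2]; exact hmem
    unfold ChevalleyDatum.posRoots at this
    simpa using (List.mem_filter.mp this).2
  have key := Cfsg.Agent.Lib.Helper17.uprod_unique (F := F) chevG2 g2m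
    (fun k => if k = 6 then a6 else if k = 7 then a7 else if k = 8 then a8 else if k = 9 then a9
      else if k = 10 then a10 else if k = 11 then a11 else 0)
    (fun k => if k = 6 then b6 else if k = 7 then b7 else if k = 8 then b8 else if k = 9 then b9
      else if k = 10 then b10 else if k = 11 then b11 else 0)
    (by
      intro k hk
      have := hpos k hk
      simp only [List.mem_cons, List.not_mem_nil, or_false, not_or] at this
      simp [this])
    (by
      intro k hk
      have := hpos k hk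
      simp only [List.mem_cons, List.not_mem_nil, or_false, not_or] at this
      simp [this])
    (by
      rw [coe_prod6, coe_prod6]
      simpa using congrArg (fun g : GL chevG2.Idx F => (g : Matrix chevG2.Idx chevG2.Idx F)) h)
  refine ⟨?_, ?_, ?_, ?_, ?_, ?_⟩
  · simpa using congrFun key 6
  · simpa using congrFun key 7
  · simpa using congrFun key 8
  · simpa using congrFun key 9
  · simpa using congrFun key 10
  · simpa using congrFun key 11

theorem yel_eq_prod6 (p q r : F) :
    yel p q r = xU chevG2 g2m 6 0 * xU chevG2 g2m 7 0 * xU chevG2 g2m 8 0 *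
        xU chevG2 g2m 9 p * xU chevG2 g2m 10 q * xU chevG2 g2m 11 r := by
  unfold yel
  rw [xU_zero, xU_zero, xU_zero, one_mul, one_mul, one_mul]

theorem yel_inj (p q r p' q' r' : F) (h : yel p q r = yel p' q' r') :
    p = p' ∧ q = q' ∧ r = r' := by
  rw [yel_eq_prod6, yel_eq_prod6] at h
  have := prod6_inj _ _ _ _ _ _ _ _ _ _ _ _ h
  exact ⟨this.2.2.2.1, this.2.2.2.2.1, this.2.2.2.2.2⟩

theorem yel_mem_unip (p q r : F) : yel p q r ∈ chevG2.posUnipotent F := by
  unfold yel
  have h : ∀ (s : ℕ) (t : F), chevG2.IsPosRoot s → xU chevG2 g2m s t ∈ chevG2.posUnipotent F :=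
    fun s t hs => Subgroup.subset_closure ⟨s, t, hs, coe_xU chevG2 g2m s t⟩
  exact mul_mem (mul_mem (h 9 p (by decide +kernel)) (h 10 q (by decide +kernel)))
    (h 11 r (by decide +kernel))

/-- conjugation of `X₉ X₁₀ X₁₁` by a positive root element fixes the first parameter -/
theorem pos_conj_yel [CharP F 2] (s : ℕ) (hs : chevG2.IsPosRoot s) (v p q r : F) :
    ∃ q' r' : F, xU chevG2 g2m s v * yel p q r = yel p q' r' * xU chevG2 g2m s v := by
  have hs' : s ∈ [6, 7, 8, 9, 10, 11] := by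
    rw [← posRoots_g2]
    unfold ChevalleyDatum.posRoots
    exact List.mem_filter.mpr ⟨List.mem_range.mpr hs.1, by simpa using hs⟩
  simp only [List.mem_cons, List.not_mem_nil, or_false] at hs'
  unfold yel
  rcases hs' with rfl | rfl | rfl | rfl | rfl | rfl
  · refine ⟨q, q * v + r, ?_⟩
    rw [grp_conjD _ _ _ _ _ (c_9_6 p v) (c_10_6 q v) (c_11_6 r v) (c_11_6 (q * v) v), xU_mul]
  · refine ⟨p * v + q, r, ?_⟩
    rw [grp_conjB _ _ _ _ _ (c_9_7 p v) (c_10_7 q v) (c_11_7 r v) (c_10_7 (p * v) v), xU_mul]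
  · refine ⟨q, p * v + r, ?_⟩
    rw [grp_conjC _ _ _ _ _ (c_9_8 p v) (c_10_8 q v) (c_11_8 r v) (c_11_8 (p * v) v)
      (c_10_11 q (p * v)), xU_mul]
  · exact ⟨q, r, grp_conjA _ _ _ _ (c_self p v 9) (c_9_10 v q).symm (c_9_11 v r).symm⟩
  · exact ⟨q, r, grp_conjA _ _ _ _ (c_9_10 p v) (c_self q v 10) (c_10_11 v r).symm⟩
  · exact ⟨q, r, grp_conjA _ _ _ _ (c_9_11 p v) (c_10_11 q v) (c_self r v 11)⟩

/-- conjugation of `X₉ X₁₀ X₁₁` by `U` fixes the first parameter -/
theorem unip_conj_yel [CharP F 2] (u : GL chevG2.Idx F) (hu : u ∈ chevG2.posUnipotent F) :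
    (∀ p q r : F, ∃ q' r' : F, u * yel p q r = yel p q' r' * u) ∧
    (∀ p q r : F, ∃ q' r' : F, u⁻¹ * yel p q r = yel p q' r' * u⁻¹) := by
  unfold ChevalleyDatum.posUnipotent at hu
  induction hu using Subgroup.closure_induction with
  | mem x hx =>
    obtain ⟨s, v, hs, hx⟩ := hx
    rw [eq_xU chevG2 g2m s v x hx]
    refine ⟨fun p q r => pos_conj_yel s hs v p q r, fun p q r => ?_⟩
    rw [xU_inv]
    exact pos_conj_yel s hs (-v) p q r
  | one =>
    exact ⟨fun p q r => ⟨q, r, by rw [one_mul, mul_one]⟩,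
      fun p q r => ⟨q, r, by rw [inv_one, one_mul, mul_one]⟩⟩
  | mul x y _ _ ihx ihy =>
    refine ⟨fun p q r => ?_, fun p q r => ?_⟩
    · obtain ⟨q1, r1, e1⟩ := ihy.1 p q r
      obtain ⟨q2, r2, e2⟩ := ihx.1 p q1 r1
      exact ⟨q2, r2, by rw [mul_assoc, e1, ← mul_assoc, e2, mul_assoc]⟩
    · obtain ⟨q1, r1, e1⟩ := ihx.2 p q r
      obtain ⟨q2, r2, e2⟩ := ihy.2 p q1 r1
      exact ⟨q2, r2, by rw [mul_inv_rev, mul_assoc, e1, ← mul_assoc, e2, mul_assoc]⟩
  | inv x _ ih =>
    exact ⟨ih.2, by rw [inv_inv]; exact ih.1⟩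

/-- conjugation of `X₉ X₁₀ X₁₁` by `H` -/
theorem diag_conj_yel (h : GL chevG2.Idx F) (hh : h ∈ chevG2.diagonalSubgroup F) (p q r : F)
    (hp : p ≠ 0) : ∃ p' q' r' : F, p' ≠ 0 ∧ h * yel p q r = yel p' q' r' * h := by
  obtain ⟨p', e1⟩ := diag_conjU chevG2 g2m h hh 9 (by decide) p
  obtain ⟨q', e2⟩ := diag_conjU chevG2 g2m h hh 10 (by decide) q
  obtain ⟨r', e3⟩ := diag_conjU chevG2 g2m h hh 11 (by decide) r
  refine ⟨p', q', r', ?_, ?_⟩
  · intro hp'
    rw [hp', xU_zero, one_mul] at e1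
    have h1 : xU chevG2 g2m 9 p = 1 := by
      have h2 : h * xU chevG2 g2m 9 p = h * 1 := by rw [e1, mul_one]
      exact mul_left_cancel h2
    exact hp (g2_xU_eq_one 9 (by decide) p h1)
  · unfold yel
    generalize xU chevG2 g2m 9 p = a at e1 ⊢
    generalize xU chevG2 g2m 10 q = b at e2 ⊢
    generalize xU chevG2 g2m 11 r = c at e3 ⊢
    generalize xU chevG2 g2m 9 p' = a' at e1 ⊢
    generalize xU chevG2 g2m 10 q' = b' at e2 ⊢
    generalize xU chevG2 g2m 11 r' = c' at e3 ⊢
    calc h * (a * b * c) = (h * a) * b * c := by group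
      _ = a' * (h * b) * c := by rw [e1]; group
      _ = a' * b' * (h * c) := by rw [e2]; group
      _ = a' * b' * c' * h := by rw [e3]; group

/-- conjugation of `X₉ X₁₀ X₁₁` by `B` -/
theorem borel_conj_yel [CharP F 2] (b : GL chevG2.Idx F) (hb : b ∈ chevG2.borelSubgroup F)
    (p q r : F) (hp : p ≠ 0) : ∃ p' q' r' : F, p' ≠ 0 ∧ b * yel p q r = yel p' q' r' * b := by
  obtain ⟨u, hu, h, hh, rfl⟩ := exists_mul_of_mem_sup _ _
    (diagonalSubgroup_le_normalizer_posUnipotent (F := F) chevG2 g2m) b hb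
  obtain ⟨p', q', r', hp', e1⟩ := diag_conj_yel h hh p q r hp
  obtain ⟨q'', r'', e2⟩ := (unip_conj_yel u hu).1 p' q' r'
  exact ⟨p', q'', r'', hp', by rw [mul_assoc, e1, ← mul_assoc, e2, mul_assoc]⟩

end Cfsg.Agent.Lib.Helper36
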