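import Cfsg.Agent.Lib.Helper36.G2ShortB

set_option autoImplicit false

/-!
# The short root involution of `G₂` in characteristic `2`: the Weyl group

The twelve root permutations of the Weyl group of `G₂`, and the words whose double coset can
meet the centraliser of `x_{2a+b}(1)`.
-/

namespace Cfsg.Agent.Lib.Helper36

open Cfsg Cfsg.Lie Cfsg.Agent.Lib.Helper18

universe u

variable {F : Type u} [Field F]

/-- the root permutations of the Weyl group of `G₂` -/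
def g2W : List (List ℕ) :=
  [[0, 1, 2, 3, 4, 5, 6, 7, 8, 9, 10, 11], [0, 5, 3, 2, 7, 1, 10, 4, 9, 8, 6, 11],
   [1, 0, 2, 4, 3, 6, 5, 8, 7, 9, 11, 10], [1, 6, 4, 2, 8, 0, 11, 3, 9, 7, 5, 10],
   [5, 0, 3, 7, 2, 10, 1, 9, 4, 8, 11, 6], [5, 10, 7, 3, 9, 0, 11, 2, 8, 4, 1, 6],
   [6, 1, 4, 8, 2, 11, 0, 9, 3, 7, 10, 5], [6, 11, 8, 4, 9, 1, 10, 2, 7, 3, 0, 5],
   [10, 5, 7, 9, 3, 11, 0, 8, 2, 4, 6, 1], [10, 11, 9, 7, 8, 5, 6, 3, 4, 2, 0, 1],
   [11, 6, 8, 9, 4, 10, 1, 7, 2, 3, 5, 0], [11, 10, 9, 8, 7, 6, 5, 4, 3, 2, 1, 0]]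

theorem g2W_closed : ∀ π ∈ g2W, ∀ a < 2, π.map (chevG2.reflectRoot a) ∈ g2W := by
  decide +kernel

/-- the root permutation of a word, as a list -/
def g2perm (l : List (Fin chevG2.rank)) : List ℕ := (List.range 12).map (wordF chevG2 l)

theorem g2perm_mem (l : List (Fin chevG2.rank)) : g2perm l ∈ g2W := by
  induction l with
  | nil =>
    have h : g2perm [] = List.range 12 := by
      unfold g2perm wordF
      simp
    rw [h]
    decide
  | cons a l ih =>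
    have e : g2perm (a :: l) = (g2perm l).map (chevG2.reflectRoot a.val) := by
      unfold g2perm wordF
      rw [List.map_map]
      rfl
    rw [e]
    exact g2W_closed _ ih a.val a.isLt

theorem wordF_getD (l : List (Fin chevG2.rank)) (s : ℕ) (hs : s < 12) :
    wordF chevG2 l s = (g2perm l).getD s 0 := by
  unfold g2perm
  rw [List.getD_eq_getElem?_getD, List.getElem?_map, List.getElem?_range hs]
  rfl

theorem g2W_cls : ∀ π ∈ g2W,
    (π = [0, 1, 2, 3, 4, 5, 6, 7, 8, 9, 10, 11] ∨ π = [1, 0, 2, 4, 3, 6, 5, 8, 7, 9, 11, 10]) ∨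
    chevG2.IsNegRoot (π.getD 9 0) ∨
    (π.getD 9 0 = 8 ∧ ((π.getD 10 0 = 6 ∧ π.getD 11 0 = 11) ∨
      (π.getD 10 0 = 11 ∧ π.getD 11 0 = 6))) ∨
    (π.getD 9 0 = 7 ∧ ((π.getD 10 0 = 10 ∧ π.getD 11 0 = 5) ∨
      (π.getD 10 0 = 5 ∧ π.getD 11 0 = 10))) := by
  decide +kernel

theorem g2_id_getD : ∀ s < 12, ([0, 1, 2, 3, 4, 5, 6, 7, 8, 9, 10, 11] : List ℕ).getD s 0 = s := by
  decide

theorem g2_sb_getD : ∀ s < 12, ([1, 0, 2, 4, 3, 6, 5, 8, 7, 9, 11, 10] : List ℕ).getD s 0 =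
    chevG2.reflectRoot 1 s := by
  decide +kernel

theorem g2_sb_sq : ∀ s < 12, chevG2.reflectRoot 1 (chevG2.reflectRoot 1 s) = s := by
  decide +kernel

theorem g2_sb_pos : ∀ r ∈ [6, 7, 8, 9, 10, 11], r ≠ 6 → chevG2.IsPosRoot (chevG2.reflectRoot 1 r) := by
  decide +kernel

theorem xU_mem_negU_or (s : ℕ) (t : F) (h : chevG2.IsNegRoot s ∨ t = 0) :
    xU chevG2 g2m s t ∈ chevG2.negUnipotent F := by
  rcases h with h | rfl
  · exact Subgroup.subset_closure ⟨s, t, h, coe_xU chevG2 g2m s t⟩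
  · rw [xU_zero]
    exact one_mem _

theorem xU_mem_borel_or (s : ℕ) (t : F) (h : chevG2.IsPosRoot s ∨ t = 0) :
    xU chevG2 g2m s t ∈ chevG2.borelSubgroup F := by
  rcases h with h | rfl
  · exact xU_mem_borel chevG2 g2m s h t
  · rw [xU_zero]
    exact one_mem _

theorem borel_inf_negU_eq_one (g : GL chevG2.Idx F) (hB : g ∈ chevG2.borelSubgroup F)
    (hV : g ∈ chevG2.negUnipotent F) : g = 1 := by
  have hm : g ∈ chevG2.borelSubgroup F ⊓ chevG2.negUnipotent F := ⟨hB, hV⟩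
  rw [(Cfsg.Agent.S1037.result (F := F) chevG2 g2m).1] at hm
  exact Subgroup.mem_bot.mp hm

/-- conjugating `x₉(p) x₁₀(q) x₁₁(r)` by an element permuting the root subgroups -/
theorem smap_conj3 {n : GL chevG2.Idx F} {f : ℕ → ℕ} {ε : ℕ → F}
    (h : SMap chevG2 (n : Matrix chevG2.Idx chevG2.Idx F) f ε) (p q r : F) :
    n * yel p q r * n⁻¹ = xU chevG2 g2m (f 9) (ε 9 * p) * xU chevG2 g2m (f 10) (ε 10 * q) *
      xU chevG2 g2m (f 11) (ε 11 * r) := by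
  have e1 := h.conjU g2m 9 (by decide) p
  have e2 := h.conjU g2m 10 (by decide) q
  have e3 := h.conjU g2m 11 (by decide) r
  unfold yel
  generalize xU chevG2 g2m 9 p = a at e1 ⊢
  generalize xU chevG2 g2m 10 q = b at e2 ⊢
  generalize xU chevG2 g2m 11 r = c at e3 ⊢
  generalize xU chevG2 g2m (f 9) (ε 9 * p) = a' at e1 ⊢
  generalize xU chevG2 g2m (f 10) (ε 10 * q) = b' at e2 ⊢
  generalize xU chevG2 g2m (f 11) (ε 11 * r) = c' at e3 ⊢
  calc n * (a * b * c) * n⁻¹ = (n * a) * b * c * n⁻¹ := by group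
    _ = a' * (n * b) * c * n⁻¹ := by rw [e1]; group
    _ = a' * b' * (n * c) * n⁻¹ := by rw [e2]; group
    _ = a' * b' * c' := by rw [e3]; group

/-- the image of `2a+b` under the word of a centralising element is not negative -/
theorem neg_first [CharP F 2] {n : GL chevG2.Idx F} {f : ℕ → ℕ} {ε : ℕ → F}
    (h : SMap chevG2 (n : Matrix chevG2.Idx chevG2.Idx F) f ε) (p q r p' q' r' : F) (hp : p ≠ 0)
    (e : n * yel p q r * n⁻¹ = yel p' q' r') (h9 : chevG2.IsNegRoot (f 9)) : False := by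
  have hS := sgnOK_all chevG2 g2m
  have h10 := hS.pos_or_neg (f 10) (h.lt 10 (by decide))
  have h11 := hS.pos_or_neg (f 11) (h.lt 11 (by decide))
  obtain ⟨q₁, q₂, hq, hq1, hq2⟩ : ∃ q₁ q₂ : F, q = q₂ + q₁ ∧
      (chevG2.IsNegRoot (f 10) ∨ q₁ = 0) ∧ (chevG2.IsPosRoot (f 10) ∨ q₂ = 0) := by
    rcases h10 with h10 | h10
    · exact ⟨0, q, by ring, Or.inr rfl, Or.inl h10⟩
    · exact ⟨q, 0, by ring, Or.inl h10, Or.inr rfl⟩
  obtain ⟨r₁, r₂, hr, hr1, hr2⟩ : ∃ r₁ r₂ : F, r = r₂ + r₁ ∧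
      (chevG2.IsNegRoot (f 11) ∨ r₁ = 0) ∧ (chevG2.IsPosRoot (f 11) ∨ r₂ = 0) := by
    rcases h11 with h11 | h11
    · exact ⟨0, r, by ring, Or.inr rfl, Or.inl h11⟩
    · exact ⟨r, 0, by ring, Or.inl h11, Or.inr rfl⟩
  have hsplit : yel p q r = yel 0 q₂ r₂ * yel p q₁ r₁ := by
    rw [yel_mul, zero_add, ← hq, ← hr]
  have hz : ∀ (s : ℕ) (x : F) (P : Prop), (P ∨ x = 0) → (P ∨ ε s * x = 0) := by
    intro s x P hx
    rcases hx with hx | hx
    · exact Or.inl hx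
    · exact Or.inr (by rw [hx, mul_zero])
  have hB : n * yel 0 q₂ r₂ * n⁻¹ ∈ chevG2.borelSubgroup F := by
    rw [smap_conj3 h]
    exact mul_mem (mul_mem (xU_mem_borel_or _ _ (Or.inr (mul_zero _)))
      (xU_mem_borel_or _ _ (hz 10 q₂ _ hq2))) (xU_mem_borel_or _ _ (hz 11 r₂ _ hr2))
  have hV : n * yel p q₁ r₁ * n⁻¹ ∈ chevG2.negUnipotent F := by
    rw [smap_conj3 h]
    exact mul_mem (mul_mem (xU_mem_negU_or _ _ (Or.inl h9))
      (xU_mem_negU_or _ _ (hz 10 q₁ _ hq1))) (xU_mem_negU_or _ _ (hz 11 r₁ _ hr1))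
  have hB' : n * yel p q₁ r₁ * n⁻¹ ∈ chevG2.borelSubgroup F := by
    have e2 : n * yel p q₁ r₁ * n⁻¹ = (n * yel 0 q₂ r₂ * n⁻¹)⁻¹ * yel p' q' r' := by
      rw [← e, hsplit]
      group
    rw [e2]
    exact mul_mem (inv_mem hB)
      ((le_sup_left : chevG2.posUnipotent F ≤ chevG2.borelSubgroup F) (yel_mem_unip p' q' r'))
  have h1 := borel_inf_negU_eq_one _ hB' hV
  have h2 : yel p q₁ r₁ = yel 0 0 0 := by
    rw [yel_zero]
    have h3 : yel p q₁ r₁ = n⁻¹ * (n * yel p q₁ r₁ * n⁻¹) * n := by group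
    rw [h3, h1]
    group
  exact hp (yel_inj _ _ _ _ _ _ h2).1

theorem shape8 [CharP F 2] (a b c p' q' r' : F)
    (e : xU chevG2 g2m 8 a * xU chevG2 g2m 6 b * xU chevG2 g2m 11 c = yel p' q' r') : a = 0 := by
  have e' : xU chevG2 g2m 6 b * xU chevG2 g2m 7 0 * xU chevG2 g2m 8 a * xU chevG2 g2m 9 0 *
      xU chevG2 g2m 10 0 * xU chevG2 g2m 11 c =
      xU chevG2 g2m 6 0 * xU chevG2 g2m 7 0 * xU chevG2 g2m 8 0 * xU chevG2 g2m 9 p' *
        xU chevG2 g2m 10 q' * xU chevG2 g2m 11 r' := by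
    rw [← yel_eq_prod6, ← e, c_6_8 b a]
    simp only [xU_zero, mul_one]
  exact (prod6_inj _ _ _ _ _ _ _ _ _ _ _ _ e').2.2.1

theorem shape7 [CharP F 2] (a b c p' q' r' : F)
    (e : xU chevG2 g2m 7 a * xU chevG2 g2m 10 b * xU chevG2 g2m 5 c = yel p' q' r') : a = 0 := by
  have h5 : xU chevG2 g2m 5 c = 1 := by
    apply borel_inf_negU_eq_one
    · have e2 : xU chevG2 g2m 5 c =
          (xU chevG2 g2m 7 a * xU chevG2 g2m 10 b)⁻¹ * yel p' q' r' := by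
        rw [← e]
        group
      rw [e2]
      exact mul_mem (inv_mem (mul_mem (xU_mem_borel chevG2 g2m 7 (by decide +kernel) a)
        (xU_mem_borel chevG2 g2m 10 (by decide +kernel) b)))
        ((le_sup_left : chevG2.posUnipotent F ≤ chevG2.borelSubgroup F) (yel_mem_unip p' q' r'))
    · exact xU_mem_negU_or 5 c (Or.inl (by decide +kernel))
  rw [h5, mul_one] at e
  have e' : xU chevG2 g2m 6 0 * xU chevG2 g2m 7 a * xU chevG2 g2m 8 0 * xU chevG2 g2m 9 0 *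
      xU chevG2 g2m 10 b * xU chevG2 g2m 11 0 =
      xU chevG2 g2m 6 0 * xU chevG2 g2m 7 0 * xU chevG2 g2m 8 0 * xU chevG2 g2m 9 p' *
        xU chevG2 g2m 10 q' * xU chevG2 g2m 11 r' := by
    rw [← yel_eq_prod6, ← e]
    simp only [xU_zero, mul_one, one_mul]
  exact (prod6_inj _ _ _ _ _ _ _ _ _ _ _ _ e').2.1

/-- the word of an element centralising `x₉(1)` has root permutation `1` or `w_b` -/
theorem word_cls [CharP F 2] (l : List (Fin chevG2.rank)) (p q r p' q' r' : F) (hp : p ≠ 0)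
    (e : (l.map (nU (F := F) chevG2 g2m)).prod * yel p q r *
      ((l.map (nU (F := F) chevG2 g2m)).prod)⁻¹ = yel p' q' r') :
    (∀ s < 12, wordF chevG2 l s = s) ∨ (∀ s < 12, wordF chevG2 l s = chevG2.reflectRoot 1 s) := by
  obtain ⟨ε, hε⟩ := word_smap (F := F) chevG2 g2m l
  have hεne : ε 9 * p ≠ 0 := by
    rcases hε.sign 9 (by decide) with h | h <;> rw [h] <;> simp [hp]
  have e3 := smap_conj3 hε p q r
  rw [e] at e3
  have hcl := g2W_cls (g2perm l) (g2perm_mem l)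
  rw [← wordF_getD l 9 (by decide), ← wordF_getD l 10 (by decide),
    ← wordF_getD l 11 (by decide)] at hcl
  rcases hcl with (hid | hsb) | hneg | ⟨h9, (⟨h10, h11⟩ | ⟨h10, h11⟩)⟩ |
    ⟨h9, (⟨h10, h11⟩ | ⟨h10, h11⟩)⟩
  · left
    intro s hs
    rw [wordF_getD l s hs, hid]
    exact g2_id_getD s hs
  · right
    intro s hs
    rw [wordF_getD l s hs, hsb]
    exact g2_sb_getD s hs
  · exact (neg_first hε p q r p' q' r' hp e hneg).elim
  · rw [h9, h10, h11] at e3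
    exact absurd (shape8 _ _ _ _ _ _ e3.symm) hεne
  · rw [h9, h10, h11] at e3
    have e4 : xU chevG2 g2m 8 (ε 9 * p) * xU chevG2 g2m 6 (ε 11 * r) *
        xU chevG2 g2m 11 (ε 10 * q) = yel p' q' r' := by
      rw [e3, mul_assoc, mul_assoc, c_11_6 (ε 10 * q) (ε 11 * r)]
    exact absurd (shape8 _ _ _ _ _ _ e4) hεne
  · rw [h9, h10, h11] at e3
    exact absurd (shape7 _ _ _ _ _ _ e3.symm) hεne
  · rw [h9, h10, h11] at e3
    have e4 : xU chevG2 g2m 7 (ε 9 * p) * xU chevG2 g2m 10 (ε 11 * r) *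
        xU chevG2 g2m 5 (ε 10 * q) = yel p' q' r' := by
      rw [e3, mul_assoc, mul_assoc, c_10_5 (ε 11 * r) (ε 10 * q)]
    exact absurd (shape7 _ _ _ _ _ _ e4) hεne

end Cfsg.Agent.Lib.Helper36
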