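import Cfsg.Agent.Lib.Helper36.G2ShortC

set_option autoImplicit false

/-!
# The short root involution of `G₂` in characteristic `2`: the centraliser

The centraliser of `x_{2a+b}(1)` in the Chevalley group of type `G₂` over a field of
characteristic `2` is generated by `X_{2a+b}`, `X_{3a+b}`, `X_{3a+2b}`, `X_b` and `X_{-b}`.
-/

namespace Cfsg.Agent.Lib.Helper36

open Cfsg Cfsg.Lie Cfsg.Agent.Lib.Helper18

universe u

variable {F : Type u} [Field F]

/-- a word with trivial root permutation lies in `H` -/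
theorem word_id_mem (l : List (Fin chevG2.rank)) (h : ∀ s < 12, wordF chevG2 l s = s) :
    (l.map (nU (F := F) chevG2 g2m)).prod ∈ chevG2.diagonalSubgroup F :=
  word_mem_diag_of_pos chevG2 g2m (sgnOK_all chevG2 g2m) l.length l rfl
    (fun s hs => by rw [h s hs.1]; exact hs)

/-- a word with the root permutation of `w_b` lies in `n_b⁻¹ H` -/
theorem word_sb_mem (l : List (Fin chevG2.rank))
    (h : ∀ s < 12, wordF chevG2 l s = chevG2.reflectRoot 1 s) :
    nU (F := F) chevG2 g2m ⟨1, by decide⟩ * (l.map (nU (F := F) chevG2 g2m)).prod ∈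
      chevG2.diagonalSubgroup F := by
  have h1 := word_id_mem (F := F) (⟨1, by decide⟩ :: l) (by
    intro s hs
    show chevG2.reflectRoot 1 (wordF chevG2 l s) = s
    rw [h s hs]
    exact g2_sb_sq s hs)
  simpa using h1

/-- the last factor of the canonical form of an element whose word has root permutation `1`
or `w_b` lies in `X_b` -/
theorem tail_mem (h₀ : GL chevG2.Idx F) (hh₀ : h₀ ∈ chevG2.diagonalSubgroup F)
    (l : List (Fin chevG2.rank))
    (hf : (∀ s < 12, wordF chevG2 l s = s) ∨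
      (∀ s < 12, wordF chevG2 l s = chevG2.reflectRoot 1 s))
    (u : GL chevG2.Idx F)
    (hu : u ∈ Subgroup.closure {x : GL chevG2.Idx F | ∃ (r : ℕ) (t : F), chevG2.IsPosRoot r ∧
      (chevG2.rootSubgroup F r).map
        (MulAut.conj (h₀ * (l.map (nU (F := F) chevG2 g2m)).prod)).toMonoidHom ≤
          chevG2.negUnipotent F ∧
      (x : Matrix chevG2.Idx chevG2.Idx F) = chevG2.x F r t}) :
    u ∈ chevG2.rootSubgroup F 6 := by
  refine (Subgroup.closure_le _).mpr ?_ hu
  rintro x ⟨r, t, hr, hle, hx⟩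
  have hr6 : r = 6 := by
    by_contra hne
    obtain ⟨ε, hε⟩ := word_smap (F := F) chevG2 g2m l
    have e1 := hε.conjU g2m r hr.1 1
    obtain ⟨c, e2⟩ := diag_conjU chevG2 g2m h₀ hh₀ (wordF chevG2 l r) (hε.lt r hr.1) (ε r * 1)
    have hpos : chevG2.IsPosRoot (wordF chevG2 l r) := by
      rcases hf with hf | hf
      · rw [hf r hr.1]
        exact hr
      · rw [hf r hr.1]
        have hmem : r ∈ [6, 7, 8, 9, 10, 11] := by
          rw [← posRoots_g2]
          unfold ChevalleyDatum.posRoots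
          exact List.mem_filter.mpr ⟨List.mem_range.mpr hr.1, by simpa using hr⟩
        exact g2_sb_pos r hmem hne
    have hmemV : (h₀ * (l.map (nU (F := F) chevG2 g2m)).prod) * xU chevG2 g2m r 1 *
        (h₀ * (l.map (nU (F := F) chevG2 g2m)).prod)⁻¹ ∈ chevG2.negUnipotent F :=
      hle (Subgroup.mem_map.mpr ⟨xU chevG2 g2m r 1,
        (mem_rootSubgroup_iff chevG2 g2m r _).mpr ⟨1, rfl⟩, rfl⟩)
    have e3 : (h₀ * (l.map (nU (F := F) chevG2 g2m)).prod) * xU chevG2 g2m r 1 *
        (h₀ * (l.map (nU (F := F) chevG2 g2m)).prod)⁻¹ = xU chevG2 g2m (wordF chevG2 l r) c := by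
      generalize (l.map (nU (F := F) chevG2 g2m)).prod = n at e1 ⊢
      generalize xU chevG2 g2m r (1 : F) = x₁ at e1 ⊢
      generalize xU chevG2 g2m (wordF chevG2 l r) (ε r * 1) = x₂ at e1 e2 ⊢
      generalize xU chevG2 g2m (wordF chevG2 l r) c = x₃ at e2 ⊢
      calc h₀ * n * x₁ * (h₀ * n)⁻¹ = h₀ * (n * x₁) * n⁻¹ * h₀⁻¹ := by group
        _ = (h₀ * x₂) * h₀⁻¹ := by rw [e1]; group
        _ = x₃ := by rw [e2]; group
    have h1 : xU chevG2 g2m (wordF chevG2 l r) c = 1 := by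
      apply borel_inf_negU_eq_one
      · exact xU_mem_borel chevG2 g2m _ hpos c
      · rw [← e3]
        exact hmemV
    have h2 : xU chevG2 g2m r (1 : F) = 1 := by
      rw [h1] at e3
      generalize h₀ * (l.map (nU (F := F) chevG2 g2m)).prod = n at e3
      generalize xU chevG2 g2m r (1 : F) = x₁ at e3 ⊢
      have h3 : x₁ = n⁻¹ * (n * x₁ * n⁻¹) * n := by group
      rw [h3, e3]
      group
    exact one_ne_zero (g2_xU_eq_one r hr.1 1 h2)
  subst hr6
  exact Subgroup.subset_closure ⟨t, hx⟩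

/-- the subgroup generated by `X_{2a+b}`, `X_{3a+b}`, `X_{3a+2b}`, `X_b` and `X_{-b}` -/
def g2R (F : Type u) [Field F] : Subgroup (GL chevG2.Idx F) :=
  chevG2.rootSubgroup F 9 ⊔ chevG2.rootSubgroup F 10 ⊔ chevG2.rootSubgroup F 11 ⊔
    chevG2.rootSubgroup F 6 ⊔ chevG2.rootSubgroup F 5

theorem xU_mem_g2R (s : ℕ) (hs : s ∈ [9, 10, 11, 6, 5]) (t : F) : xU chevG2 g2m s t ∈ g2R F := by
  have hm : xU chevG2 g2m s t ∈ chevG2.rootSubgroup F s :=
    (mem_rootSubgroup_iff chevG2 g2m s _).mpr ⟨t, rfl⟩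
  simp only [List.mem_cons, List.not_mem_nil, or_false] at hs
  unfold g2R
  rcases hs with rfl | rfl | rfl | rfl | rfl
  · exact Subgroup.mem_sup_left (Subgroup.mem_sup_left (Subgroup.mem_sup_left
      (Subgroup.mem_sup_left hm)))
  · exact Subgroup.mem_sup_left (Subgroup.mem_sup_left (Subgroup.mem_sup_left
      (Subgroup.mem_sup_right hm)))
  · exact Subgroup.mem_sup_left (Subgroup.mem_sup_left (Subgroup.mem_sup_right hm))
  · exact Subgroup.mem_sup_left (Subgroup.mem_sup_right hm)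
  · exact Subgroup.mem_sup_right hm

theorem yel_mem_g2R (p q r : F) : yel p q r ∈ g2R F :=
  mul_mem (mul_mem (xU_mem_g2R 9 (by simp) p) (xU_mem_g2R 10 (by simp) q))
    (xU_mem_g2R 11 (by simp) r)

theorem g2R_le_group : g2R F ≤ chevG2.group F := by
  unfold g2R
  refine sup_le (sup_le (sup_le (sup_le ?_ ?_) ?_) ?_) ?_
  all_goals
    unfold ChevalleyDatum.rootSubgroup
    rw [Subgroup.closure_le]
    rintro x ⟨t, hx⟩
    rw [eq_xU chevG2 g2m _ t x hx]
    exact xU_mem_group chevG2 g2m _ t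

/-- the generators centralise `x₉(1)` -/
theorem g2R_comm [CharP F 2] (g : GL chevG2.Idx F) (hg : g ∈ g2R F) :
    g * xU chevG2 g2m 9 1 = xU chevG2 g2m 9 1 * g := by
  have h1 : g2R F ≤ Subgroup.centralizer {xU chevG2 g2m 9 (1 : F)} := by
    unfold g2R
    refine sup_le (sup_le (sup_le (sup_le ?_ ?_) ?_) ?_) ?_
    all_goals
      unfold ChevalleyDatum.rootSubgroup
      rw [Subgroup.closure_le]
      rintro x ⟨t, hx⟩
      rw [eq_xU chevG2 g2m _ t x hx]
      show _ ∈ Subgroup.centralizer _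
      rw [Subgroup.mem_centralizer_iff]
      intro y hy
      rw [Set.mem_singleton_iff.mp hy]
    · exact c_self t 1 9
    · exact (c_9_10 1 t).symm
    · exact (c_9_11 1 t).symm
    · exact (c_9_6 1 t).symm
    · exact (c_9_5 1 t).symm
  exact ((Subgroup.mem_centralizer_iff.mp (h1 hg)) _ rfl).symm

/-- the elements of `H` centralising `x₉(1)` -/
theorem torus_cent_mem (h : GL chevG2.Idx F) (hh : h ∈ chevG2.diagonalSubgroup F)
    (hc : h * xU chevG2 g2m 9 1 = xU chevG2 g2m 9 1 * h) : h ∈ g2R F := by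
  rw [diagonalSubgroup_eq_range chevG2 g2m] at hh
  obtain ⟨c, rfl⟩ := hh
  have hl : ∀ i ∈ List.range chevG2.rank, i < chevG2.rank ∧ cx chevG2 c i ≠ 0 :=
    fun i hi => ⟨List.mem_range.mp hi, cx_ne_zero chevG2 c i⟩
  have e8 : xU chevG2 g2m 9 (chiL chevG2 (cx chevG2 c) (List.range chevG2.rank) 9 * 1) *
      torusHom (F := F) chevG2 c = xU chevG2 g2m 9 1 * torusHom (F := F) chevG2 c := by
    rw [← hc]
    apply Units.ext
    rw [Units.val_mul, Units.val_mul, coe_xU, coe_xU, coe_torusHom]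
    exact (dvecL_mul_x chevG2 g2m (cx chevG2 c) _ hl 9 (by decide) 1).symm
  have e9 := (root_eq_of_xU_eq chevG2 g2m 9 (by decide) ⟨0, by decide⟩ (by decide +kernel) _ _ _
    one_ne_zero (mul_right_cancel e8)).2
  rw [mul_one, chiL_single chevG2 (cx chevG2 c) 9 0 (by decide) (by decide +kernel)] at e9
  refine mem_of_dvecL chevG2 _ (cx chevG2 c) (List.range chevG2.rank) ?_ _ (coe_torusHom chevG2 c)
  intro i hi
  refine ⟨cx_ne_zero chevG2 c i, ?_⟩
  intro g hg
  have hirk : i < 2 := List.mem_range.mp hi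
  by_cases hik : i = 0
  · have h1 : g = 1 := by
      apply Units.ext
      rw [hg, hik, e9]
      ext a b
      simp [Matrix.one_apply, Matrix.diagonal_apply]
    rw [h1]
    exact one_mem _
  · have hi1 : i = 1 := by omega
    subst hi1
    have hM : (g : Matrix chevG2.Idx chevG2.Idx F) =
        chevG2.hMat F (chevG2.simple 1) (cx chevG2 c 1) := by
      rw [hg, Cfsg.Agent.S1033.result chevG2 g2m 1 hirk (cx chevG2 c 1) (cx_ne_zero chevG2 c 1),
        ← diagonal_wt_eq]
    have hg' : g = xU chevG2 g2m (chevG2.simple 1) (cx chevG2 c 1) *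
        xU chevG2 g2m (chevG2.neg (chevG2.simple 1)) (-(cx chevG2 c 1)⁻¹) *
        xU chevG2 g2m (chevG2.simple 1) (cx chevG2 c 1) *
        (xU chevG2 g2m (chevG2.simple 1) (-1) *
          xU chevG2 g2m (chevG2.neg (chevG2.simple 1)) (-(-1 : F)⁻¹) *
          xU chevG2 g2m (chevG2.simple 1) (-1)) := by
      apply Units.ext
      rw [hM]
      simp [ChevalleyDatum.hMat, ChevalleyDatum.hWord, ChevalleyDatum.nWord,
        ChevalleyDatum.wordMat, coe_xU, mul_assoc]
    rw [hg']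
    have hp : ∀ t : F, xU chevG2 g2m (chevG2.simple 1) t ∈ g2R F :=
      fun t => xU_mem_g2R 6 (by simp) t
    have hn : ∀ t : F, xU chevG2 g2m (chevG2.neg (chevG2.simple 1)) t ∈ g2R F :=
      fun t => xU_mem_g2R 5 (by simp) t
    exact mul_mem (mul_mem (mul_mem (hp _) (hn _)) (hp _))
      (mul_mem (mul_mem (hp _) (hn _)) (hp _))

/-- the elements of `U` centralising `x₉(1)` -/
theorem unip_cent_mem [CharP F 2] (u : GL chevG2.Idx F) (hu : u ∈ chevG2.posUnipotent F)
    (hc : u * xU chevG2 g2m 9 1 = xU chevG2 g2m 9 1 * u) : u ∈ g2R F := by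
  obtain ⟨t, -, ht⟩ := Cfsg.Agent.Lib.Helper17.uprod_exists chevG2 g2m u hu
  rw [coe_prod6] at ht
  have e1 : u = xU chevG2 g2m 6 (t 6) * (xU chevG2 g2m 7 (t 7) * xU chevG2 g2m 8 (t 8)) *
      yel (t 9) (t 10) (t 11) := by
    rw [Units.ext ht]
    unfold yel
    simp only [mul_assoc]
  have hA : xU chevG2 g2m 6 (t 6) * xU chevG2 g2m 9 1 =
      xU chevG2 g2m 9 1 * xU chevG2 g2m 6 (t 6) := c_9_6 1 (t 6)
  have hY : yel (t 9) (t 10) (t 11) * xU chevG2 g2m 9 1 =
      xU chevG2 g2m 9 1 * yel (t 9) (t 10) (t 11) := by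
    rw [← yel_9, yel_comm]
  have e2 : xU chevG2 g2m 7 (t 7) * xU chevG2 g2m 8 (t 8) * xU chevG2 g2m 9 1 =
      xU chevG2 g2m 9 1 * (xU chevG2 g2m 7 (t 7) * xU chevG2 g2m 8 (t 8)) *
        yel 0 (t 7) (t 8) := by
    have a1 := c_9_8 (1 : F) (t 8)
    have a2 := c_9_7 (1 : F) (t 7)
    have a3 := c_10_8 (1 * t 7) (t 8)
    unfold yel
    rw [xU_zero, one_mul]
    rw [one_mul] at a1 a2 a3
    generalize xU chevG2 g2m 7 (t 7) = x7 at a2 ⊢
    generalize xU chevG2 g2m 8 (t 8) = x8 at a1 a3 ⊢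
    generalize xU chevG2 g2m 9 (1 : F) = z at a1 a2 ⊢
    generalize xU chevG2 g2m 11 (t 8) = e11 at a1 ⊢
    generalize xU chevG2 g2m 10 (t 7) = e10 at a2 a3 ⊢
    calc x7 * x8 * z = x7 * (x8 * z) := by group
      _ = (x7 * z) * x8 * e11 := by rw [a1]; group
      _ = z * x7 * (e10 * x8) * e11 := by rw [a2]; group
      _ = z * (x7 * x8) * (e10 * e11) := by rw [← a3]; group
  have hm : xU chevG2 g2m 7 (t 7) * xU chevG2 g2m 8 (t 8) * xU chevG2 g2m 9 1 =
      xU chevG2 g2m 9 1 * (xU chevG2 g2m 7 (t 7) * xU chevG2 g2m 8 (t 8)) := by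
    rw [e1] at hc
    generalize xU chevG2 g2m 6 (t 6) = A at hc hA ⊢
    generalize xU chevG2 g2m 7 (t 7) * xU chevG2 g2m 8 (t 8) = m at hc ⊢
    generalize yel (t 9) (t 10) (t 11) = Y at hc hY ⊢
    generalize xU chevG2 g2m 9 (1 : F) = z at hc hA hY ⊢
    have h3 : A * (m * z) * Y = A * (z * m) * Y := by
      calc A * (m * z) * Y = A * m * (z * Y) := by group
        _ = A * m * Y * z := by rw [← hY]; group
        _ = z * (A * m * Y) := hc
        _ = (z * A) * m * Y := by group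
        _ = A * (z * m) * Y := by rw [← hA]; group
    exact mul_left_cancel (mul_right_cancel h3)
  have e3 : yel 0 (t 7) (t 8) = yel 0 0 0 := by
    rw [yel_zero]
    have h4 : xU chevG2 g2m 9 1 * (xU chevG2 g2m 7 (t 7) * xU chevG2 g2m 8 (t 8)) *
        yel 0 (t 7) (t 8) =
        xU chevG2 g2m 9 1 * (xU chevG2 g2m 7 (t 7) * xU chevG2 g2m 8 (t 8)) * 1 := by
      rw [← e2, mul_one]
      exact hm
    exact mul_left_cancel h4
  obtain ⟨-, h7, h8⟩ := yel_inj _ _ _ _ _ _ e3
  rw [e1, h7, h8, xU_zero, xU_zero, mul_one, mul_one]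
  exact mul_mem (xU_mem_g2R 6 (by simp) _) (yel_mem_g2R _ _ _)

/-- the elements of `B` centralising `x₉(1)` -/
theorem borel_cent_mem [CharP F 2] (b : GL chevG2.Idx F) (hb : b ∈ chevG2.borelSubgroup F)
    (hc : b * xU chevG2 g2m 9 1 = xU chevG2 g2m 9 1 * b) : b ∈ g2R F := by
  obtain ⟨u, hu, h, hh, rfl⟩ := exists_mul_of_mem_sup _ _
    (diagonalSubgroup_le_normalizer_posUnipotent (F := F) chevG2 g2m) b hb
  obtain ⟨p', e1⟩ := diag_conjU chevG2 g2m h hh 9 (by decide) (1 : F)
  obtain ⟨q', r', e2⟩ := (unip_conj_yel u hu).1 p' 0 0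
  rw [yel_9] at e2
  have e3 : yel p' q' r' = yel 1 0 0 := by
    rw [yel_9]
    generalize yel p' q' r' = Y at e2 ⊢
    generalize xU chevG2 g2m 9 p' = x at e1 e2
    generalize xU chevG2 g2m 9 (1 : F) = z at e1 hc ⊢
    have h1 : Y * (u * h) = z * (u * h) := by
      calc Y * (u * h) = (Y * u) * h := by group
        _ = u * (x * h) := by rw [← e2]; group
        _ = u * h * z := by rw [← e1]; group
        _ = z * (u * h) := hc
    exact mul_right_cancel h1
  obtain ⟨hp1, -, -⟩ := yel_inj _ _ _ _ _ _ e3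
  rw [hp1] at e1
  have hh' := torus_cent_mem h hh e1
  have hu' : u * xU chevG2 g2m 9 1 = xU chevG2 g2m 9 1 * u := by
    generalize xU chevG2 g2m 9 (1 : F) = z at e1 hc ⊢
    have h1 : u * z * h = z * u * h := by
      calc u * z * h = u * (z * h) := by group
        _ = u * h * z := by rw [← e1]; group
        _ = z * (u * h) := hc
        _ = z * u * h := by group
    exact mul_right_cancel h1
  exact mul_mem (unip_cent_mem u hu hu') hh'

/-- the centraliser of `x_{2a+b}(1)` in the Chevalley group of type `G₂` in characteristic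
`2` -/
theorem g2_short_cent [CharP F 2] (t : GL chevG2.Idx F)
    (ht : (t : Matrix chevG2.Idx chevG2.Idx F) = chevG2.x F 9 1) :
    chevG2.group F ⊓ Subgroup.centralizer {t} = g2R F := by
  have htU : t = xU chevG2 g2m 9 1 := eq_xU chevG2 g2m 9 1 t ht
  subst htU
  apply le_antisymm
  · rintro g ⟨hgG, hgC⟩
    have hgz : g * xU chevG2 g2m 9 1 = xU chevG2 g2m 9 1 * g :=
      ((Subgroup.mem_centralizer_iff.mp hgC) _ rfl).symm
    obtain ⟨b, hb, n, hn, u, hu, rfl⟩ := canonical_exists chevG2 g2m g hgG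
    obtain ⟨h₀, hh₀, l, rfl⟩ := exists_word_of_mem_sup (chevG2.diagonalSubgroup F)
      (nU (F := F) chevG2 g2m) (nU_mem_normalizer chevG2 g2m) (nU_sq_mem chevG2 g2m) n
      (monomial_le_words chevG2 g2m hn)
    have hHB : chevG2.diagonalSubgroup F ≤ chevG2.borelSubgroup F := le_sup_right
    have huB : u ∈ chevG2.borelSubgroup F := by
      refine (le_sup_left : chevG2.posUnipotent F ≤ _) ((Subgroup.closure_mono ?_) hu)
      rintro x ⟨r, t, hr, -, hx⟩
      exact ⟨r, t, hr, hx⟩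
    obtain ⟨p, q, r, hp, e1⟩ := borel_conj_yel u huB 1 0 0 one_ne_zero
    have hb₁ : (b * h₀)⁻¹ ∈ chevG2.borelSubgroup F := inv_mem (mul_mem hb (hHB hh₀))
    obtain ⟨p', q', r', -, e2⟩ := borel_conj_yel _ hb₁ 1 0 0 one_ne_zero
    rw [yel_9] at e1 e2
    have e : (l.map (nU (F := F) chevG2 g2m)).prod * yel p q r *
        ((l.map (nU (F := F) chevG2 g2m)).prod)⁻¹ = yel p' q' r' := by
      generalize (l.map (nU (F := F) chevG2 g2m)).prod = N at hgz ⊢
      generalize xU chevG2 g2m 9 (1 : F) = z at hgz e1 e2 ⊢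
      generalize yel p q r = Y at e1 ⊢
      generalize yel p' q' r' = Y' at e2 ⊢
      have s2 : b * h₀ * (N * Y) = z * (b * h₀) * N := by
        have s1 : b * h₀ * (N * Y) * u = z * (b * h₀) * N * u := by
          calc b * h₀ * (N * Y) * u = b * (h₀ * N) * (Y * u) := by group
            _ = b * (h₀ * N) * u * z := by rw [← e1]; group
            _ = z * (b * (h₀ * N) * u) := hgz
            _ = z * (b * h₀) * N * u := by group
        exact mul_right_cancel s1
      calc N * Y * N⁻¹ = (b * h₀)⁻¹ * (b * h₀ * (N * Y)) * N⁻¹ := by group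
        _ = ((b * h₀)⁻¹ * z) * (b * h₀) := by rw [s2]; group
        _ = Y' := by rw [e2]; group
    have hcls := word_cls l p q r p' q' r' hp e
    have huR : u ∈ g2R F := by
      have h6 := tail_mem h₀ hh₀ l hcls u hu
      obtain ⟨v, rfl⟩ := (mem_rootSubgroup_iff chevG2 g2m 6 _).mp h6
      exact xU_mem_g2R 6 (by simp) v
    obtain ⟨m, hmR, hmN, h', hh', eN⟩ : ∃ m ∈ g2R F,
        m ∈ Subgroup.normalizer (chevG2.diagonalSubgroup F : Set (GL chevG2.Idx F)) ∧
        ∃ h' ∈ chevG2.diagonalSubgroup F, (l.map (nU (F := F) chevG2 g2m)).prod = m * h' := by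
      rcases hcls with hid | hsb
      · exact ⟨1, one_mem _, one_mem _, _, word_id_mem l hid, (one_mul _).symm⟩
      · refine ⟨(nU (F := F) chevG2 g2m ⟨1, by decide⟩)⁻¹, inv_mem ?_,
          inv_mem (nU_mem_normalizer chevG2 g2m _), _, word_sb_mem l hsb, by group⟩
        rw [nU_eq_xU]
        exact mul_mem (mul_mem (xU_mem_g2R 6 (by simp) _) (xU_mem_g2R 5 (by simp) _))
          (xU_mem_g2R 6 (by simp) _)
    have hb₀ : b * h₀ * (m * h' * m⁻¹) ∈ chevG2.borelSubgroup F :=
      mul_mem (mul_mem hb (hHB hh₀)) (hHB (conj_mem_of_mem_normalizer _ hmN hh'))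
    have eg : b * (h₀ * (l.map (nU (F := F) chevG2 g2m)).prod) * u =
        (b * h₀ * (m * h' * m⁻¹)) * m * u := by
      rw [eN]
      group
    have hcm := g2R_comm m hmR
    have hcu := g2R_comm u huR
    rw [eg] at hgz ⊢
    have hc₀ : b * h₀ * (m * h' * m⁻¹) * xU chevG2 g2m 9 1 =
        xU chevG2 g2m 9 1 * (b * h₀ * (m * h' * m⁻¹)) := by
      generalize b * h₀ * (m * h' * m⁻¹) = b₀ at hgz ⊢
      generalize xU chevG2 g2m 9 (1 : F) = z at hgz hcm hcu ⊢
      have h5 : b₀ * z * (m * u) = z * b₀ * (m * u) := by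
        calc b₀ * z * (m * u) = b₀ * (z * m) * u := by group
          _ = b₀ * m * (z * u) := by rw [← hcm]; group
          _ = b₀ * m * u * z := by rw [← hcu]; group
          _ = z * (b₀ * m * u) := hgz
          _ = z * b₀ * (m * u) := by group
      exact mul_right_cancel h5
    exact mul_mem (mul_mem (borel_cent_mem _ hb₀ hc₀) hmR) huR
  · intro g hg
    refine ⟨g2R_le_group hg, ?_⟩
    show g ∈ Subgroup.centralizer _
    rw [Subgroup.mem_centralizer_iff]
    intro y hy
    rw [Set.mem_singleton_iff.mp hy]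
    exact (g2R_comm g hg).symm

end Cfsg.Agent.Lib.Helper36
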