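import Mathlib

set_option autoImplicit false

namespace Cfsg.Agent.Lib.Helper36

open Module

universe u v

variable {F : Type u} {V : Type v} [Field F] [AddCommGroup V] [Module F V] [FiniteDimensional F V]

/-- Normal form of a square-zero endomorphism: a basis `v_j, N v_j, u_i` with `N u_i = 0`. -/
theorem sq_zero_basis (N : V →ₗ[F] V) (hN : N ∘ₗ N = 0) (ℓ m : ℕ)
    (hℓ : finrank F (LinearMap.range N) = ℓ) (hm : finrank F V = 2 * ℓ + m) :
    ∃ b : Basis (Fin ℓ ⊕ (Fin ℓ ⊕ Fin m)) F V,
      (∀ j, N (b (Sum.inl j)) = b (Sum.inr (Sum.inl j))) ∧ (∀ y, N (b (Sum.inr y)) = 0) := by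
  have hRK : LinearMap.range N ≤ LinearMap.ker N := by
    rintro x ⟨y, rfl⟩
    have := LinearMap.congr_fun hN y
    simpa using this
  let K : Submodule F V := LinearMap.ker N
  let RK : Submodule F K := (LinearMap.range N).comap K.subtype
  obtain ⟨UK, hUK⟩ := Submodule.exists_isCompl RK
  have hRKrank : finrank F RK = ℓ := by
    rw [← hℓ]
    exact (Submodule.comapSubtypeEquivOfLe hRK).finrank_eq
  have hKrank : finrank F K + ℓ = finrank F V := by
    have := LinearMap.finrank_range_add_finrank_ker N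
    rw [hℓ] at this
    show finrank F (LinearMap.ker N) + ℓ = finrank F V
    omega
  have hUrank : finrank F UK = m := by
    have := Submodule.finrank_add_eq_of_isCompl hUK
    omega
  let bR : Basis (Fin ℓ) F RK := Module.finBasisOfFinrankEq F RK hRKrank
  let bU : Basis (Fin m) F UK := Module.finBasisOfFinrankEq F UK hUrank
  let bK : Basis (Fin ℓ ⊕ Fin m) F K :=
    (bR.prod bU).map (Submodule.prodEquivOfIsCompl RK UK hUK)
  have hbKl : ∀ j, bK (Sum.inl j) = (bR j : K) := by
    intro j
    simp [bK]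
  have hpre : ∀ j : Fin ℓ, ∃ y : V, N y = ((bR j : K) : V) := by
    intro j
    have : ((bR j : K) : V) ∈ LinearMap.range N := (bR j).2
    exact this
  choose v hv using hpre
  have hNv : LinearIndependent F (N ∘ v) := by
    have : N ∘ v = fun j => K.subtype (bK (Sum.inl j)) := by
      funext j
      simp [hv, hbKl]
    rw [this]
    exact (bK.linearIndependent.comp _ Sum.inl_injective).map' K.subtype (Submodule.ker_subtype K)
  have hvind : LinearIndependent F v := LinearIndependent.of_comp N hNv
  have hKind : LinearIndependent F (fun y => (bK y : V)) :=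
    bK.linearIndependent.map' K.subtype (Submodule.ker_subtype K)
  have hdisj : Disjoint (Submodule.span F (Set.range v))
      (Submodule.span F (Set.range (fun y => (bK y : V)))) := by
    rw [Submodule.disjoint_def]
    intro x hx1 hx2
    have hxK : x ∈ K := by
      have : Submodule.span F (Set.range (fun y => (bK y : V))) ≤ K := by
        rw [Submodule.span_le]
        rintro _ ⟨y, rfl⟩
        exact (bK y).2
      exact this hx2
    obtain ⟨c, rfl⟩ := (Submodule.mem_span_range_iff_exists_fun F).mp hx1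
    have hNx : N (∑ j, c j • v j) = 0 := hxK
    rw [map_sum] at hNx
    have hc := Fintype.linearIndependent_iff.mp hNv c (by simpa using hNx)
    simp [hc]
  have hf : LinearIndependent F (Sum.elim v (fun y => (bK y : V))) :=
    LinearIndependent.sum_type hvind hKind hdisj
  have hcard : Fintype.card (Fin ℓ ⊕ (Fin ℓ ⊕ Fin m)) = finrank F V := by
    simp only [Fintype.card_sum, Fintype.card_fin]
    omega
  refine ⟨basisOfLinearIndependentOfCardEqFinrank' _ hf hcard, ?_, ?_⟩
  · intro j
    rw [coe_basisOfLinearIndependentOfCardEqFinrank']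
    show N (v j) = (bK (Sum.inl j) : V)
    rw [hv, hbKl]
  · intro y
    rw [coe_basisOfLinearIndependentOfCardEqFinrank']
    show N ((bK y : K) : V) = 0
    exact (bK y).2

/-- Two square-zero endomorphisms of the same rank are conjugate by a map of determinant one,
if every scalar is a square. -/
theorem sq_zero_conj (N N' : V →ₗ[F] V) (hN : N ∘ₗ N = 0) (hN' : N' ∘ₗ N' = 0)
    (hrank : finrank F (LinearMap.range N) = finrank F (LinearMap.range N'))
    (hne : N ≠ 0) (hsq : ∀ x : F, IsSquare x) :
    ∃ Ψ : V →ₗ[F] V, Ψ ∘ₗ N = N' ∘ₗ Ψ ∧ LinearMap.det Ψ = 1 := by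
  classical
  have hRK : LinearMap.range N ≤ LinearMap.ker N := by
    rintro x ⟨y, rfl⟩
    have := LinearMap.congr_fun hN y
    simpa using this
  have h2 : 2 * finrank F (LinearMap.range N) ≤ finrank F V := by
    have h1 := LinearMap.finrank_range_add_finrank_ker N
    have h3 := Submodule.finrank_mono hRK
    omega
  obtain ⟨m, hm⟩ : ∃ m, finrank F V = 2 * finrank F (LinearMap.range N) + m :=
    ⟨finrank F V - 2 * finrank F (LinearMap.range N), by omega⟩
  obtain ⟨b, hb1, hb2⟩ := sq_zero_basis N hN _ m rfl hm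
  obtain ⟨b', hb1', hb2'⟩ := sq_zero_basis N' hN' _ m hrank.symm hm
  let Φ : V ≃ₗ[F] V := b.equiv b' (Equiv.refl _)
  have hΦ : ∀ i, Φ (b i) = b' i := fun i => by simp [Φ]
  have hΦN : (Φ : V →ₗ[F] V) ∘ₗ N = N' ∘ₗ (Φ : V →ₗ[F] V) := by
    apply b.ext
    intro i
    rcases i with j | y
    · simp [hb1, hb1', hΦ]
    · simp [hb2, hb2', hΦ]
  have hℓpos : 0 < finrank F (LinearMap.range N) := by
    by_contra h
    have h0 : finrank F (LinearMap.range N) = 0 := by omega
    apply hne
    have : LinearMap.range N = ⊥ := Submodule.finrank_eq_zero.mp h0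
    exact LinearMap.range_eq_bot.mp this
  let j₀ : Fin (finrank F (LinearMap.range N)) := ⟨0, hℓpos⟩
  have hd : LinearMap.det (Φ : V →ₗ[F] V) ≠ 0 := (LinearEquiv.isUnit_det' Φ).ne_zero
  obtain ⟨μ, hμ⟩ := hsq (LinearMap.det (Φ : V →ₗ[F] V))⁻¹
  let c : Fin (finrank F (LinearMap.range N)) ⊕ (Fin (finrank F (LinearMap.range N)) ⊕ Fin m) → F :=
    Sum.elim (fun j => if j = j₀ then μ else 1)
      (Sum.elim (fun j => if j = j₀ then μ else 1) (fun _ => 1))
  let D : V →ₗ[F] V := Matrix.toLin b' b' (Matrix.diagonal c)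
  have hD : ∀ i, D (b' i) = c i • b' i := by
    intro i
    simp [D, Matrix.toLin_self, Matrix.diagonal_apply]
  have hDN : D ∘ₗ N' = N' ∘ₗ D := by
    apply b'.ext
    intro i
    rcases i with j | y
    · have h1 : c (Sum.inl j) = c (Sum.inr (Sum.inl j)) := rfl
      rw [LinearMap.comp_apply, LinearMap.comp_apply, hb1', hD, hD, map_smul, hb1', h1]
    · simp [hb2', hD]
  have hdetD : LinearMap.det D = μ * μ := by
    rw [LinearMap.det_toLin, Matrix.det_diagonal, Fintype.prod_sum_type, Fintype.prod_sum_type]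
    simp [c]
  refine ⟨D ∘ₗ (Φ : V →ₗ[F] V), ?_, ?_⟩
  · rw [LinearMap.comp_assoc, hΦN, ← LinearMap.comp_assoc, hDN, LinearMap.comp_assoc]
  · rw [LinearMap.det_comp, hdetD, ← hμ, inv_mul_cancel₀ hd]

end Cfsg.Agent.Lib.Helper36
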